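import Mathlib
import Cfsg.Agent.H305.EssTwo
import Cfsg.Agent.H305.Chain

/-!
# Endgame: first consequences of the structure of non-normal essential subgroups
-/

set_option autoImplicit false

namespace Cfsg.Agent.H305.Ess

open Subgroup Cfsg.Agent.Lib.GoldschmidtFusion Cfsg.Agent.H305.FF Cfsg.Agent.H305.Chain
open scoped Pointwise commutatorElement

variable {G : Type*} [Group G]

namespace Q2

variable {S : Sylow 2 G} {E : Subgroup G} {t w : G} {A : Subgroup G} (q : Q2 S E t w A)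
include q

theorem tt [Finite G] : t * t = 1 := (q.hE.mem_om'.1 q.tV).2
theorem ww [Finite G] : w * w = 1 := (q.hE.mem_om'.1 q.wV).2
theorem tE : t ∈ E := om_le E q.tV
theorem wE : w ∈ E := om_le E q.wV
theorem wS : w ∈ (S : Subgroup G) := q.hE.le q.wE
theorem tS : t ∈ (S : Subgroup G) := q.hE.le q.tE
theorem tw : t * w = w * t := q.hE.comm t q.tE w q.wE
theorem AE {a : G} (ha : a ∈ A) : a ∈ E := ((q.mem_A a).1 ha).1
theorem AS {a : G} (ha : a ∈ A) : a ∈ (S : Subgroup G) := q.hE.le (q.AE ha)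
theorem A_comm {a b : G} (ha : a ∈ A) (hb : b ∈ A) : a * b = b * a := q.hE.comm a (q.AE ha) b (q.AE hb)

theorem Acen {a : G} (ha : a ∈ A) : Cen (T0 S E) a := by
  have h1 := ((q.mem_A a).1 ha).2 1 (one_mem _)
  have e : 1 * a * 1⁻¹ = a := by group
  rwa [e] at h1

theorem Ainv {a g : G} (hg : g ∈ normalizer (E : Set G)) (ha : a ∈ A) : g * a * g⁻¹ ∈ A := by
  refine (q.mem_A _).2 ⟨conj_mem_of_norm hg (q.AE ha), fun h hh => ?_⟩
  have h1 := ((q.mem_A a).1 ha).2 (h * g) (mul_mem hh hg)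
  have e : h * g * a * (h * g)⁻¹ = h * (g * a * g⁻¹) * h⁻¹ := by group
  rwa [e] at h1

theorem wA : w ∉ A := fun h => q.wcen (q.Acen h)

theorem twc : ¬ Cen (T0 S E) (t * w) := fun h => q.wcen (by
  have := q.tcen.inv.mul h
  rwa [inv_mul_cancel_left] at this)

theorem twA : t * w ∉ A := fun h => q.twc (q.Acen h)

theorem E_le : E ≤ T0 S E := fun _ he => ⟨q.hE.le he, le_normalizer he⟩

variable [Finite G]

/-- the centralizer of an involution of `E` not central in `N_S(E)` -/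
theorem cent_eq {v y : G} (hv : v ∈ om E) (hvc : ¬ Cen (T0 S E) v) (hy : y ∈ (S : Subgroup G))
    (hyv : y * v = v * y) : y ∈ E := by
  by_contra hyE
  have hED : E ≤ (S : Subgroup G) ⊓ centralizer ({v} : Set G) := fun e he =>
    ⟨q.hE.le he, mem_centralizer_singleton_iff.2 (q.hE.comm e he v (om_le E hv))⟩
  obtain ⟨y', hy'D, hy'E, hy'N⟩ := exists_norm (S.isPGroup'.to_le inf_le_left) hED
    (x := y) ⟨hy, mem_centralizer_singleton_iff.2 hyv⟩ hyE
  have h1 := q.comm y' ⟨hy'D.1, hy'N⟩ hy'E v hv hvc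
  have h2 := mem_centralizer_singleton_iff.1 hy'D.2
  have h3 : y' * v * y'⁻¹ * v = 1 := by
    rw [h2, mul_inv_cancel_right]; exact (q.hE.mem_om'.1 hv).2
  rw [h3] at h1
  exact q.t1 h1.symm

/-- `C_S(w) = E` -/
theorem cent_w {y : G} : (y ∈ (S : Subgroup G) ∧ y * w = w * y) ↔ y ∈ E :=
  ⟨fun h => q.cent_eq q.wV q.wcen h.1 h.2, fun h => ⟨q.hE.le h, q.hE.comm y h w q.wE⟩⟩

/-- elements of `N(E)` act on `A` like elements of `N(S)`. -/
theorem fratt (hAI : AI G) {h : G} (hh : h ∈ normalizer (E : Set G)) :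
    ∃ n ∈ normalizer ((S : Subgroup G) : Set G), n ∈ normalizer (E : Set G) ∧
      ∀ a ∈ A, h * a * h⁻¹ = n * a * n⁻¹ := by
  obtain ⟨f, hfS, hfE, hfN⟩ := q.hE.exists_t
  obtain ⟨e, he, hfe⟩ := q.hE.exists_noncomm hfS hfE
  set K : Subgroup G := normalizer (E : Set G) ⊓ centralizer (A : Set G) with hK
  have hTK : T0 S E ≤ K := fun s hs => ⟨hs.2, mem_centralizer_iff.2 (fun a ha => (q.Acen ha s hs).symm)⟩
  obtain ⟨P₀, hP₀L, hP₀p, hTP₀, c, hcK, hcP⟩ := Cfsg.Agent.TwoFusion.SylowConj.exists_pgroup_le K (T0 S E)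
    ((T0 S E).map (MulAut.conj h).toMonoidHom) (S.isPGroup'.to_le inf_le_left) hTK
    ((S.isPGroup'.to_le inf_le_left).map _) (by
      rintro _ ⟨s, hs, rfl⟩
      refine mem_inf.2 ⟨mul_mem (mul_mem hh (hTK hs).1) (inv_mem hh), ?_⟩
      change h * s * h⁻¹ ∈ _
      refine mem_centralizer_iff.2 (fun a ha => ?_)
      have h1 : h⁻¹ * a * h ∈ A := by
        have := q.Ainv (inv_mem hh) ha
        rwa [inv_inv] at this
      have h2 := mem_centralizer_iff.1 (hTK hs).2 _ h1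
      calc a * (h * s * h⁻¹) = h * ((h⁻¹ * a * h) * s) * h⁻¹ := by group
        _ = h * (s * (h⁻¹ * a * h)) * h⁻¹ := by rw [h2]
        _ = h * s * h⁻¹ * a := by group)
  have hfT : f ∈ T0 S E := ⟨hfS, hfN⟩
  have heT : e ∈ T0 S E := q.E_le he
  have hP₀S : P₀ ≤ S := le_of_noncomm hAI hP₀p hfS (q.hE.le he) (hTP₀ hfT) (hTP₀ heT) hfe
  refine ⟨c * h, ?_, mul_mem hcK.1 hh, ?_⟩
  · refine norm_of_conj hAI hfS (q.hE.le he) hfe ?_ ?_
    · have h1 := hP₀S (hcP (h * f * h⁻¹) ⟨f, hfT, rfl⟩)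
      have e1 : c * h * f * (c * h)⁻¹ = c * (h * f * h⁻¹) * c⁻¹ := by group
      rw [e1]; exact h1
    · have h1 := hP₀S (hcP (h * e * h⁻¹) ⟨e, heT, rfl⟩)
      have e1 : c * h * e * (c * h)⁻¹ = c * (h * e * h⁻¹) * c⁻¹ := by group
      rw [e1]; exact h1
  · intro a ha
    have h1 := mem_centralizer_iff.1 hcK.2 _ (q.Ainv hh ha)
    have e1 : c * h * a * (c * h)⁻¹ = c * (h * a * h⁻¹) * c⁻¹ := by group
    rw [e1, ← h1]; group

/-- elements of `N(S)` normalizing `E` permute `{w, tw}` -/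
theorem conj_w {n : G} (hn : n ∈ normalizer ((S : Subgroup G) : Set G)) (hnE : n ∈ normalizer (E : Set G)) :
    n * w * n⁻¹ = w ∨ n * w * n⁻¹ = t * w := by
  have hnc : ¬ Cen (T0 S E) (n * w * n⁻¹) := by
    intro hc
    apply q.wcen
    intro s hs
    have h1 : n * s * n⁻¹ ∈ T0 S E :=
      mem_T0.2 ⟨conj_mem_of_norm hn (mem_T0.1 hs).1, mul_mem (mul_mem hnE (mem_T0.1 hs).2) (inv_mem hnE)⟩
    have h2 := hc _ h1
    have h3 : n * (s * w) * n⁻¹ = n * (w * s) * n⁻¹ := by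
      calc n * (s * w) * n⁻¹ = (n * s * n⁻¹) * (n * w * n⁻¹) := by group
        _ = (n * w * n⁻¹) * (n * s * n⁻¹) := h2
        _ = n * (w * s) * n⁻¹ := by group
    exact mul_left_cancel (mul_right_cancel h3)
  rcases q.Winv n hnE w (Or.inr (Or.inr (Or.inl rfl))) with h1 | h1 | h1 | h1
  · exfalso; rw [h1] at hnc; exact hnc (Cen.one _)
  · exfalso; rw [h1] at hnc; exact hnc q.tcen
  · exact Or.inl h1
  · exact Or.inr h1

/-- the class of `w` under `N(S)` -/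
abbrev cl (S : Subgroup G) (w : G) : Set G := {u | ∃ n ∈ normalizer (S : Set G), u = n * w * n⁻¹}

theorem ch_zero : ch (S : Subgroup G) w 0 = E := by
  ext y
  rw [ch_zero_mem, q.cent_w]

theorem ch_one : ch (S : Subgroup G) w 1 = T0 S E := by
  ext y
  rw [ch_succ_mem, q.ch_zero]; rfl

theorem norm_of_comm {n : G} (hn : n ∈ normalizer ((S : Subgroup G) : Set G))
    (hnw : (n * w * n⁻¹) * w = w * (n * w * n⁻¹)) : n ∈ normalizer (E : Set G) := by
  have huS : n * w * n⁻¹ ∈ (S : Subgroup G) := conj_mem_of_norm hn q.wS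
  have huE : n * w * n⁻¹ ∈ E := q.cent_w.1 ⟨huS, hnw⟩
  have h1 : ∀ e ∈ E, n⁻¹ * e * n⁻¹⁻¹ ∈ E := by
    intro e he
    rw [inv_inv]
    refine q.cent_w.1 ⟨conj_mem_of_norm' hn (q.hE.le he), ?_⟩
    have h2 := q.hE.comm e he _ huE
    calc n⁻¹ * e * n * w = n⁻¹ * (e * (n * w * n⁻¹)) * n := by group
      _ = n⁻¹ * ((n * w * n⁻¹) * e) * n := by rw [h2]
      _ = w * (n⁻¹ * e * n) := by group
  have h2 := norm_of_conj_le h1
  have := inv_mem h2
  rwa [inv_inv] at this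

/-- `C_S(nwn⁻¹) = nEn⁻¹` -/
theorem cent_conj {n y : G} (hn : n ∈ normalizer ((S : Subgroup G) : Set G)) (hy : y ∈ (S : Subgroup G))
    (hyw : y * (n * w * n⁻¹) = (n * w * n⁻¹) * y) : n⁻¹ * y * n ∈ E := by
  refine q.cent_w.1 ⟨conj_mem_of_norm' hn hy, ?_⟩
  calc n⁻¹ * y * n * w = n⁻¹ * (y * (n * w * n⁻¹)) * n := by group
    _ = n⁻¹ * ((n * w * n⁻¹) * y) * n := by rw [hyw]
    _ = w * (n⁻¹ * y * n) := by group

theorem mem_ch_one {n y : G} (hn : n ∈ normalizer ((S : Subgroup G) : Set G)) :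
    y ∈ ch (S : Subgroup G) (n * w * n⁻¹) 1 ↔ n⁻¹ * y * n ∈ T0 S E := by
  rw [ch_conj hn, q.ch_one, mem_cj]

/-- the chain hypotheses -/
theorem toCH (hAI : AI G) {x : G} (h : NN S E x) :
    CH (S : Subgroup G) (normalizer ((S : Subgroup G) : Set G)) (cl (S : Subgroup G) w) where
  p := S.isPGroup'
  norm := le_rfl
  SN := le_normalizer
  conj := by
    rintro _ ⟨n, hn, rfl⟩ _ ⟨m, hm, rfl⟩
    exact ⟨m * n⁻¹, mul_mem hm (inv_mem hn), by group⟩
  closed := by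
    rintro _ ⟨n, hn, rfl⟩ m hm
    exact ⟨m * n, mul_mem hm hn, by group⟩
  mem := by
    rintro _ ⟨n, hn, rfl⟩
    exact conj_mem_of_norm hn q.wS
  sq := by
    rintro _ ⟨n, hn, rfl⟩
    have e : n * w * n⁻¹ * (n * w * n⁻¹) = n * (w * w) * n⁻¹ := by group
    rw [e, q.ww]; group
  comm := by
    rintro _ ⟨n, hn, rfl⟩ a ha b hb haw hbw
    have h1 := q.cent_conj hn ha haw
    have h2 := q.cent_conj hn hb hbw
    have h3 := q.hE.comm _ h1 _ h2
    have h4 : n⁻¹ * (a * b) * n = n⁻¹ * (b * a) * n := by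
      calc n⁻¹ * (a * b) * n = (n⁻¹ * a * n) * (n⁻¹ * b * n) := by group
        _ = (n⁻¹ * b * n) * (n⁻¹ * a * n) := h3
        _ = n⁻¹ * (b * a) * n := by group
    exact mul_left_cancel (mul_right_cancel h4)
  two := by
    rintro _ ⟨n, hn, rfl⟩
    refine ⟨n * t * n⁻¹, ?_⟩
    rintro _ ⟨m, hm, rfl⟩ hcomm
    have hk : n⁻¹ * m ∈ normalizer ((S : Subgroup G) : Set G) := mul_mem (inv_mem hn) hm
    have h1 : ((n⁻¹ * m) * w * (n⁻¹ * m)⁻¹) * w = w * ((n⁻¹ * m) * w * (n⁻¹ * m)⁻¹) := by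
      calc ((n⁻¹ * m) * w * (n⁻¹ * m)⁻¹) * w = n⁻¹ * ((m * w * m⁻¹) * (n * w * n⁻¹)) * n := by group
        _ = n⁻¹ * ((n * w * n⁻¹) * (m * w * m⁻¹)) * n := by rw [hcomm]
        _ = w * ((n⁻¹ * m) * w * (n⁻¹ * m)⁻¹) := by group
    have h2 := q.norm_of_comm hk h1
    rcases q.conj_w hk h2 with h3 | h3
    · left
      calc m * w * m⁻¹ = n * ((n⁻¹ * m) * w * (n⁻¹ * m)⁻¹) * n⁻¹ := by group
        _ = n * w * n⁻¹ := by rw [h3]
    · right
      calc m * w * m⁻¹ = n * ((n⁻¹ * m) * w * (n⁻¹ * m)⁻¹) * n⁻¹ := by group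
        _ = n * t * n⁻¹ * (n * w * n⁻¹) := by rw [h3]; group
  three := by
    rintro _ ⟨n, hn, rfl⟩ _ ⟨m, hm, rfl⟩ _ ⟨l, hl, rfl⟩ hu hv
    rw [q.mem_ch_one hn] at hu hv
    have hsq : ∀ m : G, (n⁻¹ * (m * w * m⁻¹) * n) * (n⁻¹ * (m * w * m⁻¹) * n) = 1 := by
      intro m
      have e : (n⁻¹ * (m * w * m⁻¹) * n) * (n⁻¹ * (m * w * m⁻¹) * n) = n⁻¹ * m * (w * w) * m⁻¹ * n := by group
      rw [e, q.ww]; group
    have back : ∀ a b : G, (n⁻¹ * a * n) * (n⁻¹ * b * n) = (n⁻¹ * b * n) * (n⁻¹ * a * n) → a * b = b * a := by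
      intro a b hab
      have h4 : n⁻¹ * (a * b) * n = n⁻¹ * (b * a) * n := by
        calc n⁻¹ * (a * b) * n = (n⁻¹ * a * n) * (n⁻¹ * b * n) := by group
          _ = (n⁻¹ * b * n) * (n⁻¹ * a * n) := hab
          _ = n⁻¹ * (b * a) * n := by group
      exact mul_left_cancel (mul_right_cancel h4)
    have hw' : n⁻¹ * (n * w * n⁻¹) * n = w := by group
    rcases h.inv_cases hAI hu (hsq m) with h1 | h1
    · left
      apply back
      rw [hw']
      exact q.hE.comm _ (om_le _ h1) _ q.wE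
    · rcases h.inv_cases hAI hv (hsq l) with h2 | h2
      · right; left
        apply back
        rw [hw']
        exact q.hE.comm _ (om_le _ h2) _ q.wE
      · right; right
        apply back
        exact h.hE'.comm _ (om_le _ h1) _ (om_le _ h2)
  proper := by
    rintro _ ⟨n, hn, rfl⟩
    refine ⟨n * x * n⁻¹, conj_mem_of_norm hn h.xS, ?_⟩
    rw [q.mem_ch_one hn]
    intro h1
    have e : n⁻¹ * (n * x * n⁻¹) * n = x := by group
    rw [e] at h1
    exact h.xE (mem_T0.1 h1).2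

end Q2

end Cfsg.Agent.H305.Ess
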