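import Mathlib
import Cfsg.Agent.H305.EndD

/-!
# Endgame: all essential subgroups
-/

set_option autoImplicit false

namespace Cfsg.Agent.H305.Ess

open Subgroup Cfsg.Agent.Lib.GoldschmidtFusion Cfsg.Agent.H305.FF Cfsg.Agent.H305.Chain
open scoped Pointwise commutatorElement

variable {G : Type*} [Group G]

theorem exists_pow_two {S : Sylow 2 G} {v : G} (hv : v ∈ (S : Subgroup G)) : ∃ n : ℕ, v ^ 2 ^ n = 1 := by
  obtain ⟨n, hn⟩ := S.isPGroup' ⟨v, hv⟩
  exact ⟨n, congrArg Subtype.val hn⟩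

/-- odd powers are invertible -/
theorem odd_inv {S : Sylow 2 G} {v : G} (hv : v ∈ (S : Subgroup G)) (o : ℤ) :
    ∃ o' : ℤ, v ^ ((1 + 2 * o) * o') = v := by
  obtain ⟨n, hn⟩ := exists_pow_two hv
  have h1 : IsCoprime (1 + 2 * o) ((2 : ℤ) ^ n) := by
    apply IsCoprime.pow_right
    exact ⟨1, -o, by ring⟩
  obtain ⟨a, b, hab⟩ := h1
  refine ⟨a, ?_⟩
  have h2 : v ^ ((2 : ℤ) ^ n) = 1 := by
    have : ((2 : ℤ) ^ n) = ((2 ^ n : ℕ) : ℤ) := by push_cast; rfl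
    rw [this, zpow_natCast, hn]
  have h3 : (1 + 2 * o) * a = 1 - (2 : ℤ) ^ n * b := by
    calc (1 + 2 * o) * a = (a * (1 + 2 * o) + b * 2 ^ n) - (2 : ℤ) ^ n * b := by ring
      _ = 1 - (2 : ℤ) ^ n * b := by rw [hab]
  rw [h3, zpow_sub, zpow_mul, h2, one_zpow, inv_one, mul_one, zpow_one]

theorem odd_one {S : Sylow 2 G} {v : G} (hv : v ∈ (S : Subgroup G)) {o : ℤ} (h : v ^ (1 + 2 * o) = 1) : v = 1 := by
  obtain ⟨o', ho'⟩ := odd_inv hv o
  rw [zpow_mul, h, one_zpow] at ho'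
  exact ho'.symm

namespace Half

variable {S : Sylow 2 G} {E : Subgroup G} {t w : G} {A : Subgroup G} {c z : G} (H : Half S E t w A c z)
include H

theorem cci (i : ℤ) : c ^ i ∈ (S : Subgroup G) := zpow_mem H.cS i

theorem zS : z ∈ (S : Subgroup G) := by
  obtain ⟨j, rfl⟩ := H.zc
  exact H.cci j

theorem wci (i : ℤ) : w * c ^ i * w⁻¹ = c ^ (-i) := by
  rw [← conj_zpow, H.wc, inv_zpow, zpow_neg]

theorem wci' (i : ℤ) : w * c ^ i = c ^ (-i) * w := mul_inv_eq_iff_eq_mul.1 (H.wci i)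

theorem tj : ∃ j : ℤ, t = c ^ (2 * j) ∧ z = c ^ j := by
  obtain ⟨j, hj⟩ := H.zc
  exact ⟨j, by rw [← H.zz, hj, two_mul, zpow_add], hj⟩

theorem zw : z * w * z⁻¹ = t * w := by
  obtain ⟨j, h1, h2⟩ := H.tj
  rw [h2, conj_inv_elt H.wc, h1]

theorem tcomm (i : ℤ) : t * c ^ i = c ^ i * t := by
  obtain ⟨j, h1, -⟩ := H.tj
  rw [h1, ← zpow_add, ← zpow_add, add_comm]

theorem zcomm (i : ℤ) : z * c ^ i = c ^ i * z := by
  obtain ⟨j, -, h1⟩ := H.tj
  rw [h1, ← zpow_add, ← zpow_add, add_comm]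

variable [Finite G]

theorem zT : z ∈ T0 S E := by
  refine ⟨H.zS, norm_of_conj_le (fun e he => ?_)⟩
  refine H.q.cent_eq (v := t * w) (mul_mem H.q.tV H.q.wV) H.q.twc (mul_mem (mul_mem H.zS (H.q.hE.le he)) (inv_mem H.zS)) ?_
  rw [← H.zw]
  have h1 := H.q.hE.comm e he w H.q.wE
  calc z * e * z⁻¹ * (z * w * z⁻¹) = z * (e * w) * z⁻¹ := by group
    _ = z * (w * e) * z⁻¹ := by rw [h1]
    _ = z * w * z⁻¹ * (z * e * z⁻¹) := by group

theorem za {a : G} (ha : a ∈ A) : z * a = a * z := H.q.Acen ha z H.zT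

theorem ta {a : G} (ha : a ∈ A) : t * a = a * t := H.q.hE.comm t H.q.tE a (H.q.AE ha)

theorem wa {a : G} (ha : a ∈ A) : w * a = a * w := H.q.hE.comm w H.q.wE a (H.q.AE ha)

/-- `⟨c⟩ ∩ A = 1` -/
theorem ca {i : ℤ} (h : c ^ i ∈ A) : c ^ i = 1 := by
  have h1 := H.wa h
  rw [H.wci'] at h1
  have h2 := mul_right_cancel h1
  rw [zpow_neg] at h2
  have h3 : c ^ i * c ^ i = 1 := by
    nth_rewrite 1 [← h2]
    exact inv_mul_cancel _
  rcases H.two i h3 with h4 | h4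
  · exact h4
  · exfalso
    rw [h4] at h
    exact H.q.tA h

theorem dec {s : G} (hs : s ∈ (S : Subgroup G)) : ∃ i : ℤ, ∃ a ∈ A, s = c ^ i * a ∨ s = c ^ i * w * a := by
  obtain ⟨i, hi⟩ := H.SE s hs
  obtain ⟨y, hy, hya⟩ := H.q.decomp _ hi
  obtain ⟨j, hj, -⟩ := H.tj
  rcases hy with rfl | rfl | rfl | rfl
  · exact ⟨i, _, hya, Or.inl (by group)⟩
  · exact ⟨i + 2 * j, _, hya, Or.inl (by rw [zpow_add, ← hj]; group)⟩
  · exact ⟨i, _, hya, Or.inr (by group)⟩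
  · exact ⟨i + 2 * j, _, hya, Or.inr (by rw [zpow_add, ← hj]; group)⟩

/-- commutation with `z` -/
theorem com1 {i : ℤ} {a : G} (ha : a ∈ A) : z * (c ^ i * a) = (c ^ i * a) * z := by
  rw [← mul_assoc, H.zcomm, mul_assoc, H.za ha, mul_assoc]

theorem com2 {i : ℤ} {a : G} (ha : a ∈ A) : z * (c ^ i * w * a) ≠ (c ^ i * w * a) * z := by
  intro h
  have h1 := H.zw
  have h2 : z * (c ^ i * w * a) = t * ((c ^ i * w * a) * z) := by
    calc z * (c ^ i * w * a) = (z * c ^ i) * w * a := by group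
      _ = c ^ i * (z * w * z⁻¹) * (z * a) := by rw [H.zcomm]; group
      _ = c ^ i * (t * w) * (a * z) := by rw [h1, H.za ha]
      _ = (c ^ i * t) * w * a * z := by group
      _ = t * ((c ^ i * w * a) * z) := by rw [← H.tcomm]; group
  rw [h] at h2
  exact H.q.t1 (mul_eq_right.1 h2.symm)

theorem a_conj {a : G} (ha : a ∈ A) : ∃ u : ℤ, ∀ i : ℤ, a * c ^ i * a⁻¹ = c ^ (i * (1 + 4 * u)) := by
  obtain ⟨u, hu⟩ := H.norm a (le_normalizer (H.q.AS ha))
  have h1 : ∀ i : ℤ, a * c ^ i * a⁻¹ = c ^ (i * (1 + 2 * u)) := by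
    intro i
    rw [← conj_zpow, hu, ← zpow_mul, mul_comm]
  obtain ⟨j, h2, h3⟩ := H.tj
  have h4 : a * z * a⁻¹ = z := by rw [← H.za ha]; group
  rw [h3, h1 j] at h4
  have h5 : t ^ u = 1 := by
    rw [h2, ← zpow_mul]
    have h6 : c ^ (j * (1 + 2 * u)) = c ^ j * c ^ (2 * j * u) := by rw [← zpow_add]; congr 1; ring
    rw [h6] at h4
    exact mul_eq_left.1 h4
  rcases Int.even_or_odd' u with ⟨u', rfl | rfl⟩
  · refine ⟨u', fun i => ?_⟩
    rw [h1]; congr 1; ring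
  · exfalso
    rw [add_comm] at h5
    exact H.q.t1 (odd_one H.q.tS h5)

/-- involutions commuting with `z` -/
theorem l1 {s : G} (hs : s ∈ (S : Subgroup G)) (hss : s * s = 1) (hsz : z * s = s * z) : Cen (T0 S E) s := by
  obtain ⟨i, a, ha, rfl | rfl⟩ := H.dec hs
  · obtain ⟨u, hu⟩ := H.a_conj ha
    have h1 : c ^ (2 * i * (1 + 2 * u)) * (a * a) = 1 := by
      rw [← hss]
      calc c ^ (2 * i * (1 + 2 * u)) * (a * a) = c ^ i * c ^ (i * (1 + 4 * u)) * (a * a) := by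
            rw [← zpow_add]; congr 2; ring
        _ = c ^ i * (a * c ^ i * a⁻¹) * (a * a) := by rw [hu]
        _ = c ^ i * a * (c ^ i * a) := by group
    have h2 : c ^ (2 * i * (1 + 2 * u)) ∈ A := by
      rw [eq_inv_of_mul_eq_one_left h1]
      exact inv_mem (mul_mem ha ha)
    have h3 := H.ca h2
    have h4 : c ^ (2 * i) = 1 := by
      rw [zpow_mul] at h3
      exact odd_one (H.cci _) h3
    have h5 : c ^ i * c ^ i = 1 := by rw [← zpow_add, ← two_mul, h4]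
    rcases H.two i h5 with h6 | h6
    · rw [h6, one_mul]; exact H.q.Acen ha
    · rw [h6]; exact H.q.tcen.mul (H.q.Acen ha)
  · exact absurd hsz (H.com2 ha)

theorem l2 {E₁ : Subgroup G} {t₁ w₁ : G} {A₁ : Subgroup G} (q₁ : Q2 S E₁ t₁ w₁ A₁) : z * w₁ ≠ w₁ * z := by
  intro h
  have h1 := H.l1 q₁.wS q₁.ww h
  obtain ⟨f, hfS, hfE, hfN⟩ := H.q.hE.exists_t
  obtain ⟨e, he, hfe⟩ := H.q.hE.exists_noncomm hfS hfE
  have h2 := q₁.cent_w.1 ⟨hfS, h1 f ⟨hfS, hfN⟩⟩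
  have h3 := q₁.cent_w.1 ⟨H.q.hE.le he, h1 e (H.q.E_le he)⟩
  exact hfe (q₁.hE.comm f h2 e h3)

theorem l3 {i : ℤ} {a : G} (ha : a ∈ A) (hss : (c ^ i * w * a) * (c ^ i * w * a) = 1) : a * a = 1 := by
  obtain ⟨u, hu⟩ := H.a_conj ha
  have h1 : c ^ (-(4 * u * i)) * (a * a) = 1 := by
    rw [← hss]
    have h2 := H.wci (i * (1 + 4 * u))
    calc c ^ (-(4 * u * i)) * (a * a) = c ^ i * c ^ (-(i * (1 + 4 * u))) * (a * a) := by
          rw [← zpow_add]; congr 2; ring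
      _ = c ^ i * (w * c ^ (i * (1 + 4 * u)) * w⁻¹) * (a * a) := by rw [h2]
      _ = c ^ i * (w * (a * c ^ i * a⁻¹) * w) * (a * a) := by rw [hu, inv_eq_of_mul_eq_one_right H.q.ww]
      _ = c ^ i * w * a * c ^ i * a⁻¹ * (w * a) * a := by group
      _ = c ^ i * w * a * c ^ i * a⁻¹ * (a * w) * a := by rw [H.wa ha]
      _ = (c ^ i * w * a) * (c ^ i * w * a) := by group
  have h2 : c ^ (-(4 * u * i)) ∈ A := by
    rw [eq_inv_of_mul_eq_one_left h1]
    exact inv_mem (mul_mem ha ha)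
  rw [H.ca h2, one_mul] at h1
  exact h1

theorem l4 {i : ℤ} {a : G} (ha : a ∈ A) (l : ℤ) : ∃ g ∈ (S : Subgroup G),
    g * (c ^ i * w * a) * g⁻¹ = c ^ (2 * l) * (c ^ i * w * a) := by
  obtain ⟨u, hu⟩ := H.a_conj ha
  obtain ⟨o, ho⟩ := odd_inv H.cS u
  refine ⟨c ^ (l * o), H.cci _, ?_⟩
  set m := l * o with hm
  have h1 : w * (a * (c ^ m)⁻¹ * a⁻¹) * w⁻¹ = c ^ (m * (1 + 4 * u)) := by
    rw [← zpow_neg, hu, H.wci]; congr 1; ring
  calc c ^ m * (c ^ i * w * a) * (c ^ m)⁻¹ = c ^ m * c ^ i * (w * (a * (c ^ m)⁻¹ * a⁻¹) * w⁻¹) * w * a := by group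
    _ = c ^ m * c ^ i * c ^ (m * (1 + 4 * u)) * w * a := by rw [h1]
    _ = c ^ (2 * m * (1 + 2 * u) + i) * w * a := by
      rw [← zpow_add, ← zpow_add]; congr 3; ring
    _ = c ^ (2 * l + i) * w * a := by
      congr 2
      rw [zpow_add, zpow_add]
      congr 1
      have e : 2 * m * (1 + 2 * u) = ((1 + 2 * u) * o) * (2 * l) := by rw [hm]; ring
      rw [e, zpow_mul, ho]
    _ = c ^ (2 * l) * (c ^ i * w * a) := by rw [zpow_add]; group

/-- **the class of an essential subgroup** -/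
theorem class_of {E₁ : Subgroup G} {t₁ w₁ : G} {A₁ : Subgroup G} (q₁ : Q2 S E₁ t₁ w₁ A₁) :
    ∃ i : ℤ, ∃ a ∈ A, w₁ = c ^ i * w * a ∧ a * a = 1 ∧ ((∃ j, i = 2 * j) → ∃ s ∈ (S : Subgroup G), E = cj s E₁) := by
  obtain ⟨i, a, ha, h1⟩ := H.dec q₁.wS
  have h2 := H.l2 q₁
  rcases h1 with rfl | rfl
  · exact absurd (H.com1 ha) h2
  · have haa := H.l3 ha q₁.ww
    refine ⟨i, a, ha, rfl, haa, ?_⟩
    rintro ⟨j, rfl⟩
    obtain ⟨g, hgS, hg⟩ := H.l4 (i := 2 * j) ha (-j)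
    have h3 : g * (c ^ (2 * j) * w * a) * g⁻¹ = w * a := by
      rw [hg]
      calc c ^ (2 * -j) * (c ^ (2 * j) * w * a) = c ^ (2 * -j) * c ^ (2 * j) * (w * a) := by group
        _ = w * a := by
          rw [← zpow_add]
          have : 2 * -j + 2 * j = 0 := by ring
          rw [this, zpow_zero, one_mul]
    have hwaV : w * a ∈ om E := by
      rw [H.q.hE.mem_om']
      refine ⟨mul_mem H.q.wE (H.q.AE ha), ?_⟩
      calc w * a * (w * a) = w * (a * w) * a := by group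
        _ = w * (w * a) * a := by rw [H.wa ha]
        _ = (w * w) * (a * a) := by group
        _ = 1 := by rw [H.q.ww, haa, one_mul]
    have hwac : ¬ Cen (T0 S E) (w * a) := by
      intro hc
      apply H.q.wcen
      have := hc.mul (H.q.Acen ha).inv
      rwa [mul_inv_cancel_right] at this
    refine ⟨g, hgS, ?_⟩
    ext y
    rw [mem_cj, ← q₁.cent_w]
    constructor
    · intro hy
      refine ⟨mul_mem (mul_mem (inv_mem hgS) (H.q.hE.le hy)) hgS, ?_⟩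
      have h4 := H.q.hE.comm y hy _ (om_le E hwaV)
      rw [← h3] at h4
      calc g⁻¹ * y * g * (c ^ (2 * j) * w * a) = g⁻¹ * (y * (g * (c ^ (2 * j) * w * a) * g⁻¹)) * g := by group
        _ = g⁻¹ * ((g * (c ^ (2 * j) * w * a) * g⁻¹) * y) * g := by rw [h4]
        _ = c ^ (2 * j) * w * a * (g⁻¹ * y * g) := by group
    · rintro ⟨hy1, hy2⟩
      have hyS : y ∈ (S : Subgroup G) := by
        have := mul_mem (mul_mem hgS hy1) (inv_mem hgS)
        have e : g * (g⁻¹ * y * g) * g⁻¹ = y := by group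
        rwa [e] at this
      refine H.q.cent_eq hwaV hwac hyS ?_
      rw [← h3]
      calc y * (g * (c ^ (2 * j) * w * a) * g⁻¹) = g * (g⁻¹ * y * g * (c ^ (2 * j) * w * a)) * g⁻¹ := by group
        _ = g * (c ^ (2 * j) * w * a * (g⁻¹ * y * g)) * g⁻¹ := by rw [hy2]
        _ = g * (c ^ (2 * j) * w * a) * g⁻¹ * y := by group

end Half

/-- the mixed case is impossible -/
theorem no_mixed [Finite G] {S : Sylow 2 G} {E : Subgroup G} {t w w' : G} {A : Subgroup G} {z : G}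
    (H : Half S E t w A (w * w') z) {a a' : G}
    (ha : a ∈ A) (haa : a * a = 1) (haa' : a' * a' = 1) {i j : ℤ}
    (heq : (w * w') ^ (2 * i + 1) * w * a = (w * w') ^ (2 * j + 1) * w' * a') : False := by
  have hww := H.q.ww
  set c := w * w' with hc
  have hw' : w' = w * c := by rw [hc, ← mul_assoc, hww, one_mul]
  -- `w⁻¹ c^l w = a' a⁻¹`
  have h1 : c ^ (2 * i + 1 - 2 * j) * w * a = w * a' := by
    have h2 : c ^ (2 * j + 1) * w' = c ^ (2 * j) * w := by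
      rw [hw']
      have h3 := H.wci' 1
      rw [zpow_one] at h3
      rw [h3, ← mul_assoc, ← zpow_add]
      congr 2; ring
    rw [h2] at heq
    calc c ^ (2 * i + 1 - 2 * j) * w * a = (c ^ (2 * j))⁻¹ * (c ^ (2 * i + 1) * w * a) := by
          have e : 2 * i + 1 - 2 * j = -(2 * j) + (2 * i + 1) := by ring
          rw [e, zpow_add, zpow_neg]; group
      _ = (c ^ (2 * j))⁻¹ * (c ^ (2 * j) * w * a') := by rw [heq]
      _ = w * a' := by group
  set l := 2 * i + 1 - 2 * j with hl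
  have hai : a⁻¹ = a := inv_eq_of_mul_eq_one_right haa
  have hai' : a'⁻¹ = a' := inv_eq_of_mul_eq_one_right haa'
  have h2 : c ^ (-l) = a' * a := by
    have h3 : w * c ^ (-l) = c ^ l * w := by
      have := H.wci' (-l)
      rwa [neg_neg] at this
    have h4 : w * (c ^ (-l) * a) = w * a' := by rw [← h1, ← h3]; group
    have h5 := mul_left_cancel h4
    rw [← h5, mul_assoc, haa, mul_one]
  have h3 : a * c ^ (-l) * a⁻¹ = c ^ l := by
    have h4 : c ^ l = (a' * a)⁻¹ := by rw [← h2, zpow_neg, inv_inv]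
    rw [h4, h2, mul_inv_rev, hai, hai']
    calc a * (a' * a) * a = a * a' * (a * a) := by group
      _ = a * a' := by rw [haa, mul_one]
  obtain ⟨j0, ht0, hz0⟩ := H.tj
  have h4 : a * z ^ (-l) * a⁻¹ = z ^ l := by
    have e1 : z ^ (-l) = (c ^ (-l)) ^ j0 := by rw [hz0, ← zpow_mul, ← zpow_mul, mul_comm]
    have e2 : z ^ l = (c ^ l) ^ j0 := by rw [hz0, ← zpow_mul, ← zpow_mul, mul_comm]
    rw [e1, e2, ← conj_zpow, h3]
  have h5 : a * z ^ (-l) * a⁻¹ = z ^ (-l) := by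
    have h6 : Commute a z := (H.za ha).symm
    have h7 := (h6.zpow_right (-l)).eq
    rw [h7]; group
  rw [h5] at h4
  have h6 : t ^ l = 1 := by
    rw [← H.zz]
    have h7 : (z * z) ^ l = z ^ l * z ^ l := (Commute.refl z).mul_zpow l
    rw [h7]
    nth_rewrite 1 [← h4]
    rw [← zpow_add, neg_add_cancel, zpow_zero]
  have h7 : l = 1 + 2 * (i - j) := by rw [hl]; ring
  rw [h7] at h6
  exact H.q.t1 (odd_one H.q.tS h6)

end Cfsg.Agent.H305.Ess
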