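import Mathlib
import Cfsg.Agent.ClassTwoFusion.Ess
import Cfsg.Agent.TwoFusion.SylowConj

/-!
# Essential subgroups in groups with abelian Sylow 2-intersections

`AI G`: distinct Sylow 2-subgroups of `G` have abelian intersection.  Then all essential subgroups
are abelian (`IsE`), fusion is generated by `N(S)` and their normalizers.
-/

set_option autoImplicit false

namespace Cfsg.Agent.H305.Ess

open Subgroup Cfsg.Agent.Lib.GoldschmidtFusion
open scoped Pointwise commutatorElement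

variable {G : Type*} [Group G]

/-- distinct Sylow 2-subgroups have abelian intersection -/
def AI (G : Type*) [Group G] : Prop :=
  ∀ S T : Sylow 2 G, ∀ a b : G, a ∈ (S : Subgroup G) → a ∈ (T : Subgroup G) → b ∈ (S : Subgroup G) →
    b ∈ (T : Subgroup G) → a * b ≠ b * a → S = T

theorem ai_of (hA : ∀ S T : Sylow 2 G, S ≠ T → IsMulCommutative ↥((S : Subgroup G) ⊓ (T : Subgroup G))) :
    AI G := by
  intro S T a b ha ha' hb hb' hab
  by_contra hne
  have h1 := (hA S T hne).is_comm.comm (⟨a, ha, ha'⟩ : ↥((S : Subgroup G) ⊓ (T : Subgroup G))) ⟨b, hb, hb'⟩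
  exact hab (congrArg Subtype.val h1)

/-- abelian essential subgroups -/
structure IsE (S : Sylow 2 G) (E : Subgroup G) : Prop where
  le : E ≤ S
  comm : ∀ x ∈ E, ∀ y ∈ E, x * y = y * x
  cent : ∀ x ∈ (S : Subgroup G), (∀ e ∈ E, x * e = e * x) → x ∈ E
  move : ∃ g ∈ normalizer (E : Set G), ∀ c ∈ centralizer (E : Set G),
    c * g ∉ normalizer ((S : Subgroup G) : Set G)

theorem mem_smul {S : Sylow 2 G} {g x : G} :
    x ∈ ((g • S : Sylow 2 G) : Subgroup G) ↔ g⁻¹ * x * g ∈ (S : Subgroup G) := by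
  change x ∈ (MulAut.conj g • (S : Subgroup G)) ↔ _
  rw [mem_pointwise_smul_iff_inv_smul_mem]
  simp

theorem conj_mem_of_norm {H : Subgroup G} {g x : G} (hg : g ∈ normalizer (H : Set G)) (hx : x ∈ H) :
    g * x * g⁻¹ ∈ H := (mem_normalizer_iff.1 hg x).1 hx

theorem conj_mem_of_norm' {H : Subgroup G} {g x : G} (hg : g ∈ normalizer (H : Set G)) (hx : x ∈ H) :
    g⁻¹ * x * g ∈ H := by
  have := conj_mem_of_norm (inv_mem hg) hx
  rwa [inv_inv] at this

/-- in a finite group, an element conjugating `H` into `H` normalizes `H` -/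
theorem norm_of_conj_le [Finite G] {H : Subgroup G} {g : G} (hg : ∀ x ∈ H, g * x * g⁻¹ ∈ H) :
    g ∈ normalizer (H : Set G) := by
  have h1 : H.map (MulAut.conj g).toMonoidHom ≤ H := by
    rintro _ ⟨x, hx, rfl⟩
    exact hg x hx
  have h2 : H.map (MulAut.conj g).toMonoidHom = H := by
    refine eq_of_le_of_card_ge h1 ?_
    rw [card_map_conj]
  exact mem_normalizer_iff_map_conj.2 h2

section AI

variable [Finite G] (hAI : AI G) (S : Sylow 2 G)
include hAI

/-- `g` normalizes `S` if it conjugates two non-commuting elements of `S` into `S` -/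
theorem norm_of_conj {S : Sylow 2 G} {a b g : G} (ha : a ∈ (S : Subgroup G)) (hb : b ∈ (S : Subgroup G)) (hab : a * b ≠ b * a)
    (ha' : g * a * g⁻¹ ∈ (S : Subgroup G)) (hb' : g * b * g⁻¹ ∈ (S : Subgroup G)) :
    g ∈ normalizer ((S : Subgroup G) : Set G) := by
  have h1 : g⁻¹ • S = S := by
    refine hAI _ _ a b ?_ ha ?_ hb hab
    · rw [mem_smul, inv_inv]; exact ha'
    · rw [mem_smul, inv_inv]; exact hb'
  have h2 : g⁻¹ ∈ normalizer ((S : Subgroup G) : Set G) := Sylow.smul_eq_iff_mem_normalizer.1 h1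
  have h3 := inv_mem h2
  rwa [inv_inv] at h3

/-- A 2-subgroup containing two non-commuting elements of `S` is contained in `S`. -/
theorem le_of_noncomm {S : Sylow 2 G} {T : Subgroup G} (hT : IsPGroup 2 T) {a b : G} (ha : a ∈ (S : Subgroup G))
    (hb : b ∈ (S : Subgroup G)) (haT : a ∈ T) (hbT : b ∈ T) (hab : a * b ≠ b * a) : T ≤ S := by
  obtain ⟨R, hR⟩ := hT.exists_le_sylow
  rw [hAI S R a b ha (hR haT) hb (hR hbT) hab]
  exact hR

theorem isE_of_isEss {S : Sylow 2 G} {X : Subgroup G}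
    (hX : Cfsg.Agent.ClassTwoFusion.Ess.IsEss 2 (S : Subgroup G) X) : IsE S X := by
  have hcomm : ∀ x ∈ X, ∀ y ∈ X, x * y = y * x := by
    by_contra hcon
    push Not at hcon
    obtain ⟨a, ha, b, hb, hab⟩ := hcon
    apply hX.ess
    intro g hg
    refine Cfsg.Agent.ClassTwoFusion.Ess.inf_normalizer_le_starSub hX.lt le_rfl ⟨hg, ?_⟩
    exact norm_of_conj hAI (hX.lt.le ha) (hX.lt.le hb) hab (hX.lt.le (conj_mem_of_norm hg ha))
      (hX.lt.le (conj_mem_of_norm hg hb))
  refine ⟨hX.lt.le, hcomm, fun x hx hxe => hX.centric ⟨?_, hx⟩, ?_⟩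
  · exact mem_centralizer_iff.2 (fun e he => (hxe e he).symm)
  · by_contra hcon
    push Not at hcon
    apply hX.ess
    intro g hg
    obtain ⟨c, hc, hcg⟩ := hcon g hg
    have h1 : c * g ∈ Cfsg.Agent.ClassTwoFusion.Ess.starSub (S : Subgroup G) X :=
      Cfsg.Agent.ClassTwoFusion.Ess.inf_normalizer_le_starSub hX.lt le_rfl
        ⟨mul_mem (centralizer_le_normalizer _ hc) hg, hcg⟩
    have h2 := mul_mem (inv_mem (Cfsg.Agent.ClassTwoFusion.Ess.centralizer_le_starSub (S : Subgroup G) X hc)) h1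
    rwa [inv_mul_cancel_left] at h2

/-- **Fusion** is generated by `N(S)` and the `N(E)`, `E` essential. -/
theorem fusion {α : Sort*} (f : G → α)
    (hN : ∀ n ∈ normalizer ((S : Subgroup G) : Set G), ∀ s ∈ (S : Subgroup G), f (n * s * n⁻¹) = f s)
    (hE : ∀ E : Subgroup G, IsE S E → ∀ g ∈ normalizer (E : Set G), ∀ e ∈ E, f (g * e * g⁻¹) = f e)
    {s g : G} (hs : s ∈ (S : Subgroup G)) (hg : g * s * g⁻¹ ∈ (S : Subgroup G)) :
    f (g * s * g⁻¹) = f s := by
  have h1 := Cfsg.Agent.ClassTwoFusion.Ess.gen_ess S (A := zpowers s) (by rw [zpowers_le]; exact hs)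
    (zpowers_map_conj_le (P := (S : Subgroup G)) hg)
  refine h1.invariant f ?_ s (mem_zpowers s)
  rintro X - (rfl | hX) g hg x hx
  · exact hN g hg x hx
  · exact hE X (isE_of_isEss hAI hX) g hg x hx

/-- Criterion for strong closure. -/
theorem stronglyClosed (A : Subgroup G) (hAS : A ≤ S)
    (hN : ∀ n ∈ normalizer ((S : Subgroup G) : Set G), ∀ a ∈ A, n * a * n⁻¹ ∈ A)
    (hE : ∀ E : Subgroup G, IsE S E → ∀ g ∈ normalizer (E : Set G), ∀ e ∈ E, e ∈ A → g * e * g⁻¹ ∈ A) :
    Cfsg.IsStronglyClosed A (S : Subgroup G) :=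
  Cfsg.Agent.ClassTwoFusion.Ess.isStronglyClosed S A hAS hN
    (fun X hX g hg a haA haX => hE X (isE_of_isEss hAI hX) g hg a haX haA)

/-- **Focal subgroup criterion.** -/
theorem focal [IsSimpleGroup G] (hna : ∃ a b : G, a * b ≠ b * a) (H : Subgroup G)
    (hN : ∀ n ∈ normalizer ((S : Subgroup G) : Set G), ∀ s ∈ (S : Subgroup G), s⁻¹ * (n * s * n⁻¹) ∈ H)
    (hE : ∀ E : Subgroup G, IsE S E → ∀ g ∈ normalizer (E : Set G), ∀ e ∈ E, e⁻¹ * (g * e * g⁻¹) ∈ H) :
    (S : Subgroup G) ≤ H := by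
  have h1 : _root_.commutator G = ⊤ := by
    rcases IsSimpleGroup.eq_bot_or_eq_top_of_normal (_root_.commutator G) inferInstance with h | h
    · exfalso
      obtain ⟨a, b, hab⟩ := hna
      apply hab
      have h2 : ⁅a, b⁆ ∈ _root_.commutator G := commutator_mem_commutator (mem_top a) (mem_top b)
      rw [h, mem_bot, commutatorElement_eq_one_iff_mul_comm] at h2
      exact h2
    · exact h
  have h2 := Subgroup.commutator_inf_eq_focalSubgroup S
  rw [h1, top_inf_eq] at h2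
  rw [h2, focalSubgroup_def, closure_le]
  rintro _ ⟨hgS, x, hx, u, rfl⟩
  have hx' : u * x⁻¹ * u⁻¹ ∈ (S : Subgroup G) := by
    have e : u * x⁻¹ * u⁻¹ = x⁻¹ * ⁅x, u⁆ := by rw [commutatorElement_def]; group
    rw [e]
    exact mul_mem (inv_mem hx) hgS
  have h3 := fusion hAI S (fun x => (QuotientGroup.mk x : G ⧸ H))
    (fun n hn s hs => (QuotientGroup.eq.2 (hN n hn s hs)).symm)
    (fun E hE' g hg e he => (QuotientGroup.eq.2 (hE E hE' g hg e he)).symm) (inv_mem hx) hx'
  have h4 := QuotientGroup.eq.1 h3.symm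
  rw [inv_inv] at h4
  have e : ⁅x, u⁆ = x * (u * x⁻¹ * u⁻¹) := by rw [commutatorElement_def]; group
  rw [SetLike.mem_coe, e]
  exact h4

end AI

end Cfsg.Agent.H305.Ess
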