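import Mathlib
import Cfsg.Agent.H305.EssBasic

/-!
# Essential subgroups: the subgroup `Ω₁(E)`

For an abelian essential subgroup `E` and `V = Ω₁(E)`: `C_S(V) = E`, `N_S(V) = N_S(E)` and
`N_G(V)` has an element none of whose translates under `C_G(V)` normalizes `S`.
-/

set_option autoImplicit false

namespace Cfsg.Agent.H305.Ess

open Subgroup Cfsg.Agent.Lib.GoldschmidtFusion
open scoped Pointwise commutatorElement

variable {G : Type*} [Group G]

/-- the subgroup generated by the elements of order at most two -/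
def om (E : Subgroup G) : Subgroup G := closure {x | x ∈ E ∧ x * x = 1}

theorem mem_om {E : Subgroup G} (hE : ∀ x ∈ E, ∀ y ∈ E, x * y = y * x) {x : G} :
    x ∈ om E ↔ x ∈ E ∧ x * x = 1 := by
  constructor
  · intro hx
    induction hx using closure_induction with
    | mem x hx => exact hx
    | one => exact ⟨one_mem E, one_mul 1⟩
    | mul x y _ _ hx hy =>
      refine ⟨mul_mem hx.1 hy.1, ?_⟩
      calc x * y * (x * y) = x * (y * x) * y := by group
        _ = (x * x) * (y * y) := by rw [hE y hy.1 x hx.1]; group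
        _ = 1 := by rw [hx.2, hy.2, one_mul]
    | inv x _ hx =>
      refine ⟨inv_mem hx.1, ?_⟩
      rw [← mul_inv_rev, hx.2, inv_one]
  · exact fun hx => subset_closure hx

theorem om_le (E : Subgroup G) : om E ≤ E := (closure_le E).2 (fun _ hx => hx.1)

theorem norm_om {E : Subgroup G} {g : G} (hg : g ∈ normalizer (E : Set G)) :
    g ∈ normalizer (om E : Set G) := by
  have key : ∀ {g : G}, g ∈ normalizer (E : Set G) → ∀ x ∈ om E, g * x * g⁻¹ ∈ om E := by
    intro g hg x hx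
    induction hx using closure_induction with
    | mem x hx =>
      refine subset_closure ⟨conj_mem_of_norm hg hx.1, ?_⟩
      have e : g * x * g⁻¹ * (g * x * g⁻¹) = g * (x * x) * g⁻¹ := by group
      rw [e, hx.2]; group
    | one => rw [mul_one, mul_inv_cancel]; exact one_mem _
    | mul x y _ _ hx hy =>
      have e : g * (x * y) * g⁻¹ = g * x * g⁻¹ * (g * y * g⁻¹) := by group
      rw [e]; exact mul_mem hx hy
    | inv x _ hx =>
      have e : g * x⁻¹ * g⁻¹ = (g * x * g⁻¹)⁻¹ := by group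
      rw [e]; exact inv_mem hx
  rw [mem_normalizer_iff]
  intro x
  refine ⟨key hg x, fun hx => ?_⟩
  have h1 := key (inv_mem hg) _ hx
  have e : g⁻¹ * (g * x * g⁻¹) * g⁻¹⁻¹ = x := by group
  rwa [e] at h1

/-- An element of odd order normalizing an abelian 2-group `E` and centralizing `Ω₁(E)` centralizes `E`. -/
theorem odd_cent {E : Subgroup G} (hcomm : ∀ x ∈ E, ∀ y ∈ E, x * y = y * x) (hp : IsPGroup 2 E)
    {c : G} (hc : c ∈ normalizer (E : Set G)) (hcV : ∀ v ∈ om E, c * v * c⁻¹ = v) {m : ℕ} (hm : Odd m)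
    (hcm : c ^ m = 1) {e : G} (he : e ∈ E) : c * e * c⁻¹ = e := by
  have key : ∀ n : ℕ, ∀ e ∈ E, e ^ 2 ^ n = 1 → c * e * c⁻¹ = e := by
    intro n
    induction n with
    | zero =>
      intro e he h1
      rw [pow_zero, pow_one] at h1
      rw [h1]; group
    | succ n ih =>
      intro e he h1
      have hce := conj_mem_of_norm hc he
      have h2 : c * (e * e) * c⁻¹ = e * e := by
        refine ih (e * e) (mul_mem he he) ?_
        rw [← pow_two, ← pow_mul, mul_comm, ← pow_succ]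
        exact h1
      set v := e⁻¹ * (c * e * c⁻¹) with hv
      have hvE : v ∈ E := mul_mem (inv_mem he) hce
      have hvV : v ∈ om E := by
        rw [mem_om hcomm]
        refine ⟨hvE, ?_⟩
        have e1 : v * v = e⁻¹ * (e⁻¹ * (c * e * c⁻¹)) * (c * e * c⁻¹) := by
          rw [← hcomm _ hce _ (inv_mem he), hv]
          group
        have e2 : (c * e * c⁻¹) * (c * e * c⁻¹) = e * e := by rw [← h2]; group
        rw [e1]
        calc e⁻¹ * (e⁻¹ * (c * e * c⁻¹)) * (c * e * c⁻¹) = e⁻¹ * e⁻¹ * ((c * e * c⁻¹) * (c * e * c⁻¹)) := by group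
          _ = 1 := by rw [e2]; group
      have hstep : ∀ k : ℕ, c ^ k * e * (c ^ k)⁻¹ = e * v ^ k := by
        intro k
        induction k with
        | zero => simp
        | succ k ihk =>
          have e3 : c ^ (k + 1) * e * (c ^ (k + 1))⁻¹ = c * (c ^ k * e * (c ^ k)⁻¹) * c⁻¹ := by
            rw [pow_succ']; group
          have hck : c * v ^ k * c⁻¹ = v ^ k := by
            have : c * v ^ k * c⁻¹ = (c * v * c⁻¹) ^ k := by rw [conj_pow]
            rw [this, hcV v hvV]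
          rw [e3, ihk]
          calc c * (e * v ^ k) * c⁻¹ = (c * e * c⁻¹) * (c * v ^ k * c⁻¹) := by group
            _ = (e * v) * v ^ k := by rw [hck, hv]; group
            _ = e * v ^ (k + 1) := by rw [pow_succ', mul_assoc]
      have h3 := hstep m
      rw [hcm] at h3
      have h4 : v ^ m = 1 := by
        have : 1 * e * 1⁻¹ = e * v ^ m := h3
        rw [one_mul, inv_one, mul_one] at this
        exact (mul_eq_left.1 this.symm)
      obtain ⟨k, rfl⟩ := hm
      have hvv : v * v = 1 := ((mem_om hcomm).1 hvV).2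
      rw [pow_succ, pow_mul, pow_two, hvv, one_pow, one_mul] at h4
      have h5 : c * e * c⁻¹ = e * v := by rw [hv]; group
      rw [h5, h4, mul_one]
  obtain ⟨k, hk⟩ := hp ⟨e, he⟩
  exact key k e he (by simpa using congrArg Subtype.val hk)

/-- decomposition into 2-part and 2'-part -/
theorem mem_of_pow_mem {H : Subgroup G} [Finite G] {k : G}
    (h1 : ∀ m : ℕ, (∃ s : ℕ, (k ^ m) ^ 2 ^ s = 1) → k ^ m ∈ H)
    (h2 : ∀ s : ℕ, (∃ m : ℕ, Odd m ∧ (k ^ 2 ^ s) ^ m = 1) → k ^ 2 ^ s ∈ H) : k ∈ H := by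
  obtain ⟨s, m, hm, hsm⟩ := Nat.exists_eq_two_pow_mul_odd (n := orderOf k) (orderOf_pos k).ne'
  have h3 : k ^ m ∈ H := h1 m ⟨s, by rw [← pow_mul, mul_comm, ← hsm]; exact pow_orderOf_eq_one k⟩
  have h4 : k ^ 2 ^ s ∈ H := h2 s ⟨m, hm, by rw [← pow_mul, ← hsm]; exact pow_orderOf_eq_one k⟩
  have hcop : Nat.gcd m (2 ^ s) = 1 := Nat.Coprime.pow_right s (hm.coprime_two_right)
  have hb := Nat.gcd_eq_gcd_ab m (2 ^ s)
  rw [hcop] at hb
  have e : k = (k ^ m) ^ (Nat.gcdA m (2 ^ s)) * (k ^ 2 ^ s) ^ (Nat.gcdB m (2 ^ s)) := by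
    rw [← zpow_natCast k m, ← zpow_natCast k (2 ^ s), ← zpow_mul, ← zpow_mul, ← zpow_add, ← hb]
    simp
  rw [e]
  exact mul_mem (zpow_mem h3 _) (zpow_mem h4 _)

/-- normalizers grow in 2-groups -/
theorem exists_norm [Finite G] {T H : Subgroup G} (hT : IsPGroup 2 T) (hHT : H ≤ T) {x : G} (hx : x ∈ T)
    (hxH : x ∉ H) : ∃ y ∈ T, y ∉ H ∧ y ∈ normalizer (H : Set G) := by
  have : Fact (Nat.Prime 2) := ⟨Nat.prime_two⟩
  have : Group.IsNilpotent T := hT.isNilpotent
  have h1 : NormalizerCondition T := Group.normalizerCondition_of_isNilpotent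
  have h2 : H.subgroupOf T < ⊤ := by
    rw [lt_top_iff_ne_top]
    intro h3
    have : (⟨x, hx⟩ : T) ∈ H.subgroupOf T := by rw [h3]; trivial
    exact hxH (mem_subgroupOf.1 this)
  obtain ⟨y, hy, hyH⟩ := SetLike.exists_of_lt (h1 _ h2)
  refine ⟨y, y.2, fun h3 => hyH (mem_subgroupOf.2 h3), ?_⟩
  refine norm_of_conj_le (fun z hz => ?_)
  have h3 := (mem_normalizer_iff.1 hy ⟨z, hHT hz⟩).1 (mem_subgroupOf.2 hz)
  exact mem_subgroupOf.1 h3

theorem cent_of_not_ne {E : Subgroup G} {x : G} (h : ∀ e ∈ E, ¬ x * e ≠ e * x) : ∀ e ∈ E, x * e = e * x :=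
  fun e he => not_not.1 (h e he)

section ess

variable [Finite G] (hAI : AI G) {S : Sylow 2 G} {E : Subgroup G} (hE : IsE S E)

namespace IsE

include hE

theorem isPGroup : IsPGroup 2 E := S.isPGroup'.to_le hE.le

theorem exists_noncomm {x : G} (hx : x ∈ (S : Subgroup G)) (hxE : x ∉ E) : ∃ e ∈ E, x * e ≠ e * x := by
  by_contra hcon
  push Not at hcon
  exact hxE (hE.cent x hx hcon)

theorem exists_not_mem : ∃ x ∈ (S : Subgroup G), x ∉ E := by
  by_contra hcon
  push Not at hcon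
  obtain ⟨g, hg, hc⟩ := hE.move
  have h1 : E = (S : Subgroup G) := le_antisymm hE.le hcon
  refine hc 1 (one_mem _) ?_
  rw [one_mul, ← h1]
  exact hg

theorem exists_t : ∃ t ∈ (S : Subgroup G), t ∉ E ∧ t ∈ normalizer (E : Set G) := by
  obtain ⟨x, hx, hxE⟩ := hE.exists_not_mem
  exact exists_norm S.isPGroup' hE.le hx hxE

theorem mem_om' {x : G} : x ∈ om E ↔ x ∈ E ∧ x * x = 1 := mem_om hE.comm

theorem om_le_S : om E ≤ S := (om_le E).trans hE.le

include hAI

/-- `C_S(Ω₁(E)) = E` -/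
theorem centV {x : G} (hx : x ∈ (S : Subgroup G)) (hxV : ∀ v ∈ om E, x * v = v * x) : x ∈ E := by
  have : Fact (Nat.Prime 2) := ⟨Nat.prime_two⟩
  by_contra hxE
  have hxD : x ∈ (S : Subgroup G) ⊓ centralizer (om E : Set G) :=
    ⟨hx, mem_centralizer_iff.2 (fun v hv => (hxV v hv).symm)⟩
  have hED : E ≤ (S : Subgroup G) ⊓ centralizer (om E : Set G) := fun e he =>
    ⟨hE.le he, mem_centralizer_iff.2 (fun v hv => hE.comm v (om_le E hv) e he)⟩
  obtain ⟨y, hyD, hyE, hyN⟩ := exists_norm (S.isPGroup'.to_le inf_le_left) hED hxD hxE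
  obtain ⟨e, he, hye⟩ := hE.exists_noncomm hyD.1 hyE
  set Lc : Subgroup G := normalizer (E : Set G) ⊓ centralizer (om E : Set G) with hLc
  have hELc : E ≤ Lc := fun e he => ⟨le_normalizer he, (hED he).2⟩
  set Q : Subgroup G := (S : Subgroup G) ⊓ Lc with hQ
  have hQp : IsPGroup 2 Q := S.isPGroup'.to_le inf_le_left
  have heQ : e ∈ Q := ⟨hE.le he, hELc he⟩
  have hyQ : y ∈ Q := ⟨hyD.1, hyN, hyD.2⟩
  obtain ⟨g, hg, hgm⟩ := hE.move
  -- a conjugate of `Q`
  obtain ⟨P₀, hP₀L, hP₀p, hQP₀, c, hcL, hcP⟩ := Cfsg.Agent.TwoFusion.SylowConj.exists_pgroup_le Lc Q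
    (Q.map (MulAut.conj g).toMonoidHom) hQp inf_le_right (hQp.map _) (by
      rintro _ ⟨q, hq, rfl⟩
      refine mem_inf.2 ⟨mul_mem (mul_mem hg hq.2.1) (inv_mem hg), ?_⟩
      change g * q * g⁻¹ ∈ _
      refine mem_centralizer_iff.2 (fun v hv => ?_)
      have h1 : g⁻¹ * v * g ∈ om E := conj_mem_of_norm' (norm_om hg) hv
      have h2 := mem_centralizer_iff.1 hq.2.2 _ h1
      calc v * (g * q * g⁻¹) = g * ((g⁻¹ * v * g) * q) * g⁻¹ := by group
        _ = g * (q * (g⁻¹ * v * g)) * g⁻¹ := by rw [h2]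
        _ = g * q * g⁻¹ * v := by group)
  have hP₀S : P₀ ≤ S := le_of_noncomm hAI hP₀p hyD.1 (hE.le he) (hQP₀ hyQ) (hQP₀ heQ) hye
  have hcg : c * g ∈ normalizer ((S : Subgroup G) : Set G) := by
    refine norm_of_conj hAI hyD.1 (hE.le he) hye ?_ ?_
    · have h1 := hP₀S (hcP (g * y * g⁻¹) ⟨y, hyQ, rfl⟩)
      have e1 : c * g * y * (c * g)⁻¹ = c * (g * y * g⁻¹) * c⁻¹ := by group
      rw [e1]; exact h1
    · have h1 := hP₀S (hcP (g * e * g⁻¹) ⟨e, heQ, rfl⟩)
      have e1 : c * g * e * (c * g)⁻¹ = c * (g * e * g⁻¹) * c⁻¹ := by group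
      rw [e1]; exact h1
  -- `Lc = Q C_G(E)`
  let ψ : Lc →* MulAut E := E.normalizerMonoidHom.comp (inclusion inf_le_left)
  have hψ : ∀ (k : Lc) (e : E), ((ψ k e : E) : G) = (k : G) * e * (k : G)⁻¹ := fun _ _ => rfl
  have hcp : ∀ k : Lc, (∀ e : E, ψ k e = e) ↔ (k : G) ∈ centralizer (E : Set G) := by
    intro k
    rw [mem_centralizer_iff]
    constructor
    · intro h1 e he
      have h2 := congrArg Subtype.val (h1 ⟨e, he⟩)
      rw [hψ, mul_inv_eq_iff_eq_mul] at h2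
      exact h2.symm
    · intro h1 e
      apply Subtype.ext
      rw [hψ, mul_inv_eq_iff_eq_mul]
      exact (h1 e e.2).symm
  have hrange : IsPGroup 2 ψ.range := by
    rintro ⟨_, k, rfl⟩
    obtain ⟨s, m, hm, hsm⟩ := Nat.exists_eq_two_pow_mul_odd (n := orderOf k) (orderOf_pos k).ne'
    refine ⟨s, Subtype.ext ?_⟩
    change (ψ k) ^ 2 ^ s = 1
    rw [← map_pow]
    apply MulEquiv.ext
    intro e
    apply Subtype.ext
    rw [hψ]
    refine odd_cent hE.comm hE.isPGroup (k ^ 2 ^ s).2.1 ?_ hm ?_ e.2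
    · intro v hv
      rw [mul_inv_eq_iff_eq_mul]
      exact (mem_centralizer_iff.1 (k ^ 2 ^ s).2.2 v hv).symm
    · have h1 : (k ^ 2 ^ s) ^ m = 1 := by rw [← pow_mul, ← hsm]; exact pow_orderOf_eq_one k
      exact congrArg Subtype.val h1
  let QS : Sylow 2 Lc :=
    { toSubgroup := Q.subgroupOf Lc
      isPGroup' := hQp.comap_subtype
      is_maximal' := by
        intro R hR hle
        apply le_antisymm _ hle
        intro r hr
        rw [mem_subgroupOf]
        refine ⟨?_, r.2⟩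
        have h1 : R.map Lc.subtype ≤ S := le_of_noncomm hAI (hR.map _) hyD.1 (hE.le he)
          ⟨⟨y, hyQ.2⟩, hle (mem_subgroupOf.2 hyQ), rfl⟩ ⟨⟨e, heQ.2⟩, hle (mem_subgroupOf.2 heQ), rfl⟩ hye
        exact h1 ⟨r, hr, rfl⟩ }
  have hsurj : Function.Surjective ψ.rangeRestrict := ψ.rangeRestrict_surjective
  have htop : (⊤ : Subgroup ψ.range) = (QS.mapSurjective hsurj : Subgroup ψ.range) :=
    (QS.mapSurjective hsurj).is_maximal' (hrange.to_subgroup ⊤) le_top
  obtain ⟨q, hq, hqc⟩ : ∃ q ∈ Q.subgroupOf Lc, ψ q = ψ ⟨c, hcL⟩ := by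
    have h1 : ψ.rangeRestrict ⟨c, hcL⟩ ∈ (⊤ : Subgroup ψ.range) := mem_top _
    rw [htop, Sylow.coe_mapSurjective] at h1
    obtain ⟨q, hq, hqc⟩ := h1
    exact ⟨q, hq, congrArg Subtype.val hqc⟩
  have hcent : (q : G)⁻¹ * c ∈ centralizer (E : Set G) := by
    have h1 : ψ (q⁻¹ * ⟨c, hcL⟩) = 1 := by rw [map_mul, map_inv, hqc, inv_mul_cancel]
    exact (hcp (q⁻¹ * ⟨c, hcL⟩)).1 (fun e => by rw [h1]; rfl)
  refine hgm _ hcent ?_
  rw [mul_assoc]
  exact mul_mem (inv_mem (le_normalizer (mem_subgroupOf.1 hq).1)) hcg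

omit hE in
/-- `S ⊓ N_G(E)` is a maximal 2-subgroup of `N_G(E)` -/
theorem le_S_of_le {E : Subgroup G} (hE : IsE S E) {T : Subgroup G} (hT : IsPGroup 2 T)
    (h1 : (S : Subgroup G) ⊓ normalizer (E : Set G) ≤ T) : T ≤ S := by
  obtain ⟨t, htS, htE, htN⟩ := hE.exists_t
  obtain ⟨e, he, hte⟩ := hE.exists_noncomm htS htE
  exact le_of_noncomm hAI hT htS (hE.le he) (h1 ⟨htS, htN⟩) (h1 ⟨hE.le he, le_normalizer he⟩) hte

/-- `E` is a maximal 2-subgroup of `C_G(Ω₁(E))` -/
theorem le_of_pgroup {Q : Subgroup G} (hQ : IsPGroup 2 Q) (hEQ : E ≤ Q)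
    (hQV : ∀ q ∈ Q, ∀ v ∈ om E, q * v = v * q) : Q ≤ E := by
  have : Fact (Nat.Prime 2) := ⟨Nat.prime_two⟩
  intro x hx
  by_contra hxE
  obtain ⟨y, hyQ, hyE, hyN⟩ := exists_norm hQ hEQ hx hxE
  obtain ⟨P₀, hP₀L, hP₀p, hSP₀, c, hcN, hcP⟩ := Cfsg.Agent.TwoFusion.SylowConj.exists_pgroup_le
    (normalizer (E : Set G)) ((S : Subgroup G) ⊓ normalizer (E : Set G)) (Q ⊓ normalizer (E : Set G))
    (S.isPGroup'.to_le inf_le_left) inf_le_right (hQ.to_le inf_le_left) inf_le_right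
  have hP₀S : P₀ ≤ S := le_S_of_le hAI hE hP₀p hSP₀
  have h1 : c * y * c⁻¹ ∈ E := by
    refine hE.centV hAI (hP₀S (hcP y ⟨hyQ, hyN⟩)) (fun v hv => ?_)
    have h2 : c⁻¹ * v * c ∈ om E := conj_mem_of_norm' (norm_om hcN) hv
    have h3 := hQV y hyQ _ h2
    calc c * y * c⁻¹ * v = c * (y * (c⁻¹ * v * c)) * c⁻¹ := by group
      _ = c * ((c⁻¹ * v * c) * y) * c⁻¹ := by rw [h3]
      _ = v * (c * y * c⁻¹) := by group
  have h2 := conj_mem_of_norm' hcN h1
  have e : c⁻¹ * (c * y * c⁻¹) * c = y := by group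
  rw [e] at h2
  exact hyE h2

/-- `N_G(E) ∩ C_G(Ω₁(E)) = C_G(E)` -/
theorem cent_of_normV {k : G} (hk : k ∈ normalizer (E : Set G)) (hkV : ∀ v ∈ om E, k * v = v * k) :
    ∀ e ∈ E, k * e = e * k := by
  have hkc : k ∈ centralizer (E : Set G) := by
    apply mem_of_pow_mem
    · rintro m ⟨s, hs⟩
      have h1 : k ^ m ∈ normalizer (E : Set G) := pow_mem hk m
      have hp : IsPGroup 2 (zpowers (k ^ m)) := by
        rw [IsPGroup.iff_card]
        have h2 : orderOf (k ^ m) ∣ 2 ^ s := orderOf_dvd_of_pow_eq_one hs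
        obtain ⟨j, -, hj⟩ := (Nat.dvd_prime_pow Nat.prime_two).1 h2
        exact ⟨j, by rw [Nat.card_zpowers, hj]⟩
      have h2 : IsPGroup 2 (E ⊔ zpowers (k ^ m) : Subgroup G) :=
        hE.isPGroup.to_sup_of_normal_left' hp (by rw [zpowers_le]; exact h1)
      have h3 : E ⊔ zpowers (k ^ m) ≤ centralizer (om E : Set G) := by
        refine sup_le (fun e he => mem_centralizer_iff.2 (fun v hv => hE.comm v (om_le E hv) e he)) ?_
        rw [zpowers_le]
        exact pow_mem (mem_centralizer_iff.2 (fun v hv => (hkV v hv).symm)) m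
      have h4 := hE.le_of_pgroup hAI h2 le_sup_left
        (fun q hq v hv => (mem_centralizer_iff.1 (h3 hq) v hv).symm)
      have h5 : k ^ m ∈ E := h4 (mem_sup_right (mem_zpowers _))
      exact mem_centralizer_iff.2 (fun e he => hE.comm e he _ h5)
    · rintro s ⟨m, hm, hsm⟩
      refine mem_centralizer_iff.2 (fun e he => ?_)
      have h1 : k ^ 2 ^ s ∈ centralizer (om E : Set G) :=
        pow_mem (mem_centralizer_iff.2 (fun v hv => (hkV v hv).symm)) _
      have h2 := odd_cent hE.comm hE.isPGroup (pow_mem hk (2 ^ s))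
        (fun v hv => by rw [mul_inv_eq_iff_eq_mul]; exact (mem_centralizer_iff.1 h1 v hv).symm) hm hsm he
      rw [mul_inv_eq_iff_eq_mul] at h2
      exact h2.symm
  exact fun e he => (mem_centralizer_iff.1 hkc e he).symm

/-- `N_S(Ω₁(E)) = N_S(E)` -/
theorem norm_of_normV {x : G} (hx : x ∈ (S : Subgroup G)) (hxV : x ∈ normalizer (om E : Set G)) :
    x ∈ normalizer (E : Set G) := by
  refine norm_of_conj_le (fun e he => ?_)
  refine hE.centV hAI (mul_mem (mul_mem hx (hE.le he)) (inv_mem hx)) (fun v hv => ?_)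
  have h2 : x⁻¹ * v * x ∈ om E := conj_mem_of_norm' hxV hv
  have h3 := hE.comm e he _ (om_le E h2)
  calc x * e * x⁻¹ * v = x * (e * (x⁻¹ * v * x)) * x⁻¹ := by group
    _ = x * ((x⁻¹ * v * x) * e) * x⁻¹ := by rw [h3]
    _ = v * (x * e * x⁻¹) := by group

/-- the moving element for `Ω₁(E)` -/
theorem moveV : ∃ g ∈ normalizer (E : Set G), ∀ k ∈ centralizer (om E : Set G),
    k * g ∉ normalizer ((S : Subgroup G) : Set G) := by
  obtain ⟨g, hg, hgm⟩ := hE.move
  refine ⟨g, hg, fun k hk hkg => ?_⟩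
  have hgV := norm_om hg
  have hkN : k ∈ normalizer (om E : Set G) := centralizer_le_normalizer _ hk
  have h1 : k * g ∈ normalizer (E : Set G) := by
    refine norm_of_conj_le (fun e he => ?_)
    refine hE.centV hAI (conj_mem_of_norm hkg (hE.le he)) (fun v hv => ?_)
    have h2 : (k * g)⁻¹ * v * (k * g) ∈ om E := conj_mem_of_norm' (mul_mem hkN hgV) hv
    have h3 := hE.comm e he _ (om_le E h2)
    calc (k * g) * e * (k * g)⁻¹ * v = (k * g) * (e * ((k * g)⁻¹ * v * (k * g))) * (k * g)⁻¹ := by group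
      _ = (k * g) * (((k * g)⁻¹ * v * (k * g)) * e) * (k * g)⁻¹ := by rw [h3]
      _ = v * ((k * g) * e * (k * g)⁻¹) := by group
  have h2 : k ∈ normalizer (E : Set G) := by
    have := mul_mem h1 (inv_mem hg)
    rwa [mul_inv_cancel_right] at this
  have h3 := hE.cent_of_normV hAI h2 (fun v hv => (mem_centralizer_iff.1 hk v hv).symm)
  exact hgm k (mem_centralizer_iff.2 (fun e he => (h3 e he).symm)) hkg

end IsE

end ess

end Cfsg.Agent.H305.Ess
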