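import Mathlib
import Cfsg.Agent.H305.EssConcl

/-!
# Pairs of essential subgroups normalizing each other
-/

set_option autoImplicit false

namespace Cfsg.Agent.H305.Ess

open Subgroup Cfsg.Agent.Lib.GoldschmidtFusion Cfsg.Agent.H305.FF
open scoped Pointwise commutatorElement

variable {G : Type*} [Group G]

/-- conjugate of a subgroup -/
abbrev cj (g : G) (E : Subgroup G) : Subgroup G := E.map (MulAut.conj g).toMonoidHom

theorem mem_cj {g x : G} {E : Subgroup G} : x ∈ cj g E ↔ g⁻¹ * x * g ∈ E := mem_map_conj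

theorem conj_mem_cj {g x : G} {E : Subgroup G} (hx : x ∈ E) : g * x * g⁻¹ ∈ cj g E := conj_mem_map_conj hx g

theorem cj_eq_iff {g : G} {E : Subgroup G} : cj g E = E ↔ g ∈ normalizer (E : Set G) :=
  mem_normalizer_iff_map_conj.symm

theorem cj_cj (g h : G) (E : Subgroup G) : cj h (cj g E) = cj (h * g) E := map_conj_map_conj E g h

theorem card_cj (g : G) (E : Subgroup G) : Nat.card (cj g E) = Nat.card E := card_map_conj E g

theorem om_cj (g : G) (E : Subgroup G) : om (cj g E) = cj g (om E) := by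
  unfold om cj
  rw [MonoidHom.map_closure]
  congr 1
  ext x
  constructor
  · rintro ⟨⟨y, hy, rfl⟩, hx⟩
    refine ⟨y, ⟨hy, ?_⟩, rfl⟩
    have h1 : (MulAut.conj g).toMonoidHom (y * y) = 1 := by rw [map_mul]; exact hx
    exact (MulAut.conj g).injective (h1.trans (map_one _).symm)
  · rintro ⟨y, ⟨hy, hyy⟩, rfl⟩
    refine ⟨⟨y, hy, rfl⟩, ?_⟩
    rw [← map_mul, hyy, map_one]

theorem mem_norm_cj {g x : G} {E : Subgroup G} : x ∈ normalizer (cj g E : Set G) ↔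
    g⁻¹ * x * g ∈ normalizer (E : Set G) := by
  rw [← map_conj_normalizer, mem_map_conj]

theorem mem_cent_cj {g x : G} {E : Subgroup G} : x ∈ centralizer (cj g E : Set G) ↔
    g⁻¹ * x * g ∈ centralizer (E : Set G) := mem_centralizer_map_conj

theorem card_inf_mul (H K : Subgroup G) : Nat.card (H ⊓ K : Subgroup G) * H.relIndex K = Nat.card K := by
  have h := relIndex_mul_relIndex ⊥ (H ⊓ K) K bot_le inf_le_right
  rwa [relIndex_bot_left, relIndex_bot_left, inf_relIndex_right] at h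

variable [Finite G] (hAI : AI G) {S : Sylow 2 G}

/-- conjugates of essential subgroups -/
theorem IsE.conj {E : Subgroup G} (hE : IsE S E) {n : G} (hn : n ∈ normalizer ((S : Subgroup G) : Set G)) :
    IsE S (cj n E) := by
  refine ⟨?_, ?_, ?_, ?_⟩
  · rintro _ ⟨x, hx, rfl⟩
    exact conj_mem_of_norm hn (hE.le hx)
  · rintro _ ⟨x, hx, rfl⟩ _ ⟨y, hy, rfl⟩
    rw [← map_mul, ← map_mul, hE.comm x hx y hy]
  · intro x hx hxe
    rw [mem_cj]
    refine hE.cent _ (conj_mem_of_norm' hn hx) (fun e he => ?_)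
    have h1 := hxe (n * e * n⁻¹) (conj_mem_cj he)
    calc n⁻¹ * x * n * e = n⁻¹ * (x * (n * e * n⁻¹)) * n := by group
      _ = n⁻¹ * ((n * e * n⁻¹) * x) * n := by rw [h1]
      _ = e * (n⁻¹ * x * n) := by group
  · obtain ⟨g, hg, hgm⟩ := hE.move
    refine ⟨n * g * n⁻¹, ?_, ?_⟩
    · rw [mem_norm_cj]
      have e : n⁻¹ * (n * g * n⁻¹) * n = g := by group
      rw [e]; exact hg
    · intro c hc hcn
      rw [mem_cent_cj] at hc
      refine hgm _ hc ?_
      have h1 := mul_mem (mul_mem (inv_mem hn) hcn) hn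
      have e : n⁻¹ * (c * (n * g * n⁻¹)) * n = n⁻¹ * c * n * g := by group
      rw [e] at h1
      exact h1

include hAI

theorem IsE.eq_of_om_le {E₁ E₂ : Subgroup G} (h₁ : IsE S E₁) (h₂ : IsE S E₂) (h : om E₁ ≤ om E₂) : E₁ = E₂ := by
  have h1 : E₂ ≤ E₁ := by
    intro e he
    refine h₁.centV hAI (h₂.le he) (fun v hv => h₂.comm e he v (om_le E₂ (h hv)))
  refine le_antisymm ?_ h1
  intro e he
  exact h₂.cent e (h₁.le he) (fun f hf => h₁.comm e he f (h1 hf))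

theorem IsE.cent_om {E₁ E₂ : Subgroup G} (h₁ : IsE S E₁) (h₂ : IsE S E₂) {x : G} (hx : x ∈ om E₂)
    (hc : ∀ v ∈ om E₁, x * v = v * x) : x ∈ om E₁ :=
  h₁.mem_om'.2 ⟨h₁.centV hAI (h₂.le (om_le E₂ hx)) hc, (h₂.mem_om'.1 hx).2⟩

/-- `Ω₁(E₁)` is an offender on `Ω₁(E₂)`. -/
theorem pair_ff {E₁ E₂ : Subgroup G} (h₁ : IsE S E₁) (h₂ : IsE S E₂) (hne : E₁ ≠ E₂)
    (h12 : om E₁ ≤ normalizer (E₂ : Set G)) (h21 : om E₂ ≤ normalizer (E₁ : Set G))
    (hcard : Nat.card (om E₂) ≤ Nat.card (om E₁)) :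
    (∀ s ∈ (S : Subgroup G), s ∈ normalizer (E₂ : Set G) → ∃ b ∈ om E₁, b⁻¹ * s ∈ E₂) ∧
      Concl (om E₂) (h₂.P0 hAI) := by
  have hnot : ¬ om E₁ ≤ E₂ := by
    intro hle
    have h3 : om E₁ ≤ om E₂ := fun x hx => h₂.mem_om'.2 ⟨hle hx, (h₁.mem_om'.1 hx).2⟩
    exact hne (h₁.eq_of_om_le hAI h₂ h3)
  obtain ⟨b₀, hb₀, hb₀E⟩ := SetLike.not_le_iff_exists.1 hnot
  have hq : ∀ b ∈ om E₁, ∀ b' ∈ om E₁, ∀ v ∈ om E₂, b' * (b * v * b⁻¹ * v) = (b * v * b⁻¹ * v) * b' := by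
    intro b hb b' hb' v hv
    have h5 : v * b⁻¹ * v⁻¹ ∈ om E₁ := conj_mem_of_norm (norm_om (h21 hv)) (inv_mem hb)
    have hvv : v⁻¹ = v := inv_eq_of_mul_eq_one_right (h₂.mem_om'.1 hv).2
    rw [hvv] at h5
    have h6 : b * v * b⁻¹ * v ∈ om E₁ := by
      have e : b * v * b⁻¹ * v = b * (v * b⁻¹ * v) := by group
      rw [e]
      exact mul_mem hb h5
    exact h₁.comm _ (om_le E₁ hb') _ (om_le E₁ h6)
  have hidx : (centralizer (om E₁ : Set G)).relIndex (om E₂) ≤ E₂.relIndex (om E₁) := by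
    have e1 : (centralizer (om E₁ : Set G)).relIndex (om E₂) = (om E₁).relIndex (om E₂) := by
      rw [← inf_relIndex_right (centralizer (om E₁ : Set G)), ← inf_relIndex_right (om E₁)]
      congr 1
      ext x
      constructor
      · rintro ⟨hx1, hx2⟩
        exact ⟨h₁.cent_om hAI h₂ hx2 (fun v hv => (mem_centralizer_iff.1 hx1 v hv).symm), hx2⟩
      · rintro ⟨hx1, hx2⟩
        exact ⟨mem_centralizer_iff.2 (fun v hv => h₁.comm v (om_le E₁ hv) x (om_le E₁ hx1)), hx2⟩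
    have e2 : E₂.relIndex (om E₁) = (om E₂).relIndex (om E₁) := by
      rw [← inf_relIndex_right E₂, ← inf_relIndex_right (om E₂)]
      congr 1
      ext x
      constructor
      · rintro ⟨hx1, hx2⟩
        exact ⟨h₂.mem_om'.2 ⟨hx1, (h₁.mem_om'.1 hx2).2⟩, hx2⟩
      · rintro ⟨hx1, hx2⟩
        exact ⟨om_le E₂ hx1, hx2⟩
    rw [e1, e2]
    have h5 := card_inf_mul (om E₁) (om E₂)
    have h6 := card_inf_mul (om E₂) (om E₁)
    rw [inf_comm] at h6
    have hpos : 0 < Nat.card (om E₁ ⊓ om E₂ : Subgroup G) := Nat.card_pos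
    rw [← h5, ← h6] at hcard
    exact Nat.le_of_mul_le_mul_left hcard hpos
  obtain ⟨h3, h4⟩ := h₂.ff hAI (om E₁) (fun x hx => norm_om (h12 hx)) h₁.om_le_S hb₀ hb₀E hq hidx
  exact ⟨fun s hs hsN => h3 s hs (norm_om hsN), h4⟩

end Cfsg.Agent.H305.Ess
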