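import Mathlib
import Cfsg.Agent.H305.EssNN

/-!
# Non-normal essential subgroups: `|N_S(E) : E| = 2` in simple groups
-/

set_option autoImplicit false

namespace Cfsg.Agent.H305.Ess

open Subgroup Cfsg.Agent.Lib.GoldschmidtFusion Cfsg.Agent.H305.FF
open scoped Pointwise commutatorElement

variable {G : Type*} [Group G] [Finite G] (hAI : AI G) {S : Sylow 2 G}
include hAI

namespace NN

variable {E : Subgroup G} {x : G} (h : NN S E x)
include h

/-- if `|N_S(E) : E| > 2` then `N_S(E)` has index two in `S` -/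
theorem index_two (hq : 2 < E.relIndex (T0 S E)) : ∀ y ∈ (S : Subgroup G), y ∈ T0 S E ∨ x⁻¹ * y ∈ T0 S E := by
  by_contra hcon
  push Not at hcon
  obtain ⟨y₀, hy₀S, hy₀T, hy₀x⟩ := hcon
  set T₁ : Subgroup G := (S : Subgroup G) ⊓ normalizer (T0 S E : Set G) with hT₁
  have hy₀T₁ : y₀ ∉ T₁ := by
    intro h1
    rcases h.norm_T0 hAI h1.1 h1.2 with h2 | h2
    · exact hy₀T h2
    · exact hy₀x h2
  have hT01 : T0 S E ≤ T₁ := fun t ht => ⟨ht.1, le_normalizer ht⟩
  have hxT₁ : x ∈ T₁ := ⟨h.xS, h.xT⟩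
  have claim : ∀ y ∈ (S : Subgroup G), y ∉ T₁ → y ∈ normalizer (T₁ : Set G) →
      cj y (om E) ⊓ T0 S E ≤ om E → False := by
    intro y hyS hyT hyN hle
    set K := cj y (om E) with hK
    have hKT : K ≤ T₁ := by
      rintro _ ⟨v, hv, rfl⟩
      exact conj_mem_of_norm hyN (hT01 (h.E_le (om_le _ hv)))
    have h2 : (T0 S E).relIndex K ≤ 2 := by
      refine relIndex_le_two (fun a ha b hb haT hbT => ?_)
      have h3 := (h.norm_T0 hAI (hKT ha).1 (hKT ha).2).resolve_left haT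
      have h4 := (h.norm_T0 hAI (hKT hb).1 (hKT hb).2).resolve_left hbT
      have h5 := mul_mem (inv_mem h3) h4
      have e : (x⁻¹ * a)⁻¹ * (x⁻¹ * b) = a⁻¹ * b := by group
      rwa [e] at h5
    have hKcomm : ∀ a ∈ K, ∀ b ∈ K, a * b = b * a := by
      rintro _ ⟨a, ha, rfl⟩ _ ⟨b, hb, rfl⟩
      rw [← map_mul, ← map_mul, h.hE.comm a (om_le _ ha) b (om_le _ hb)]
    -- an element of `K ∩ T0` which is not central
    obtain ⟨v, hvK, hvT, hvc⟩ : ∃ v ∈ K, v ∈ T0 S E ∧ ¬ Cen (T0 S E) v := by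
      by_contra hcon
      push Not at hcon
      have h3 : K ⊓ T0 S E ≤ centralizer (T0 S E : Set G) ⊓ om E := by
        rintro v ⟨hvK, hvT⟩
        exact ⟨mem_centralizer_iff.2 (fun t ht => hcon v hvK hvT t ht), hle ⟨hvK, hvT⟩⟩
      have h4 := card_inf_mul (T0 S E) K
      have h5 := card_inf_mul (centralizer (T0 S E : Set G)) (om E)
      have h6 := (h.pair1 hAI).2.idx
      change (centralizer (T0 S E : Set G)).relIndex (om E) = E.relIndex (T0 S E) at h6
      rw [h6] at h5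
      have h7 : Nat.card K = Nat.card (om E) := card_cj y (om E)
      have h8 : Nat.card (T0 S E ⊓ K : Subgroup G) ≤
          Nat.card (centralizer (T0 S E : Set G) ⊓ om E : Subgroup G) := by
        rw [inf_comm]
        exact Nat.card_le_card_of_injective _ (inclusion_injective h3)
      have hpos : 0 < Nat.card (centralizer (T0 S E : Set G) ⊓ om E : Subgroup G) := Nat.card_pos
      have h9 : Nat.card (centralizer (T0 S E : Set G) ⊓ om E : Subgroup G) * 2 <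
          Nat.card (centralizer (T0 S E : Set G) ⊓ om E : Subgroup G) * E.relIndex (T0 S E) :=
        Nat.mul_lt_mul_of_pos_left hq hpos
      have h10 : Nat.card (T0 S E ⊓ K : Subgroup G) * (T0 S E).relIndex K ≤
          Nat.card (centralizer (T0 S E : Set G) ⊓ om E : Subgroup G) * 2 := Nat.mul_le_mul h8 h2
      omega
    have hvE : v ∈ om E := hle ⟨hvK, hvT⟩
    have hKE : K ≤ E := fun k hk => h.cent_eq hAI hvE hvc (hKT hk).1 (hKcomm k hk v hvK)
    have h3 : y ∈ normalizer (om E : Set G) := by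
      refine norm_of_conj_le (fun w hw => ?_)
      rw [h.hE.mem_om']
      refine ⟨hKE (conj_mem_cj hw), ?_⟩
      have e : y * w * y⁻¹ * (y * w * y⁻¹) = y * (w * w) * y⁻¹ := by group
      rw [e, (h.hE.mem_om'.1 hw).2]; group
    exact hyT (hT01 ⟨hyS, h.hE.norm_of_normV hAI hyS h3⟩)
  obtain ⟨y, hyS, hyT, hyN⟩ := exists_norm (H := T₁) S.isPGroup' inf_le_left hy₀S hy₀T₁
  have h1 : ∀ w ∈ cj y (om E) ⊓ T0 S E, w ∈ om E ∨ w ∈ om (cj x E) := by
    rintro _ ⟨⟨v, hv, rfl⟩, h2⟩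
    refine h.inv_cases hAI h2 ?_
    rw [← map_mul, (h.hE.mem_om'.1 hv).2, map_one]
  rcases le_or_le h1 with h2 | h2
  · exact claim y hyS hyT hyN h2
  · refine claim (x⁻¹ * y) (mul_mem (inv_mem h.xS) hyS) ?_ ?_ ?_
    · intro h3
      have := mul_mem hxT₁ h3
      rw [mul_inv_cancel_left] at this
      exact hyT this
    · exact mul_mem (inv_mem (le_normalizer hxT₁)) hyN
    · intro w hw
      obtain ⟨hw1, hw2⟩ := mem_inf.1 hw
      have h3 : x * w * x⁻¹ ∈ cj y (om E) := by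
        rw [mem_cj] at hw1
        rw [mem_cj]
        have e : y⁻¹ * (x * w * x⁻¹) * y = (x⁻¹ * y)⁻¹ * w * (x⁻¹ * y) := by group
        rw [e]
        exact hw1
      have h4 := h2 ⟨h3, conj_mem_of_norm h.xT hw2⟩
      rw [om_cj, mem_cj] at h4
      have e : x⁻¹ * (x * w * x⁻¹) * x = w := by group
      rwa [e] at h4

/-- an essential subgroup whose `Ω₁` is in `N_S(E)` is one of two -/
theorem eq_or_eq {E₃ : Subgroup G} (h₃ : IsE S E₃) (hle : om E₃ ≤ T0 S E) : E₃ = E ∨ E₃ = cj x E := by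
  have h1 : ∀ w ∈ om E₃, w ∈ om E ∨ w ∈ om (cj x E) := fun w hw =>
    h.inv_cases hAI (hle hw) (h₃.mem_om'.1 hw).2
  rcases le_or_le h1 with h2 | h2
  · exact Or.inl (h₃.eq_of_om_le hAI h.hE h2)
  · exact Or.inr (h₃.eq_of_om_le hAI h.hE' h2)

theorem exists_other [IsSimpleGroup G] (hna : ∃ a b : G, a * b ≠ b * a)
    (hidx : ∀ y ∈ (S : Subgroup G), y ∈ T0 S E ∨ x⁻¹ * y ∈ T0 S E) :
    ∃ E₃, IsE S E₃ ∧ ¬ om E₃ ≤ T0 S E := by
  by_contra hcon
  push Not at hcon
  have hall : ∀ E₃, IsE S E₃ → E₃ ≤ T0 S E := by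
    intro E₃ h₃
    rcases h.eq_or_eq hAI h₃ (hcon E₃ h₃) with rfl | rfl
    · exact h.E_le
    · exact h.E'_le
  have hT : ∀ n ∈ normalizer ((S : Subgroup G) : Set G), n ∈ normalizer (T0 S E : Set G) := by
    intro n hn
    refine norm_of_conj_le (fun t ht => ?_)
    obtain ⟨b, hb, hbt⟩ := (h.pair1 hAI).1 t ht
    have h1 := hall _ (h.hE'.conj hn) (conj_mem_cj (om_le _ hb))
    have h2 := hall _ (h.hE.conj hn) (conj_mem_cj hbt)
    have e : n * t * n⁻¹ = n * b * n⁻¹ * (n * (b⁻¹ * t) * n⁻¹) := by group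
    rw [e]
    exact mul_mem h1 h2
  have hST : (S : Subgroup G) ≤ T0 S E := by
    refine focal hAI S hna (T0 S E) ?_ ?_
    · intro n hn s hs
      have hs' := conj_mem_of_norm hn hs
      by_cases hsT : s ∈ T0 S E
      · exact mul_mem (inv_mem hsT) (conj_mem_of_norm (hT n hn) hsT)
      · have hsT' : n * s * n⁻¹ ∉ T0 S E := by
          intro h1
          apply hsT
          have h2 := conj_mem_of_norm' (hT n hn) h1
          have e : n⁻¹ * (n * s * n⁻¹) * n = s := by group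
          rwa [e] at h2
        have h1 := (hidx s hs).resolve_left hsT
        have h2 := (hidx _ hs').resolve_left hsT'
        have e : s⁻¹ * (n * s * n⁻¹) = (x⁻¹ * s)⁻¹ * (x⁻¹ * (n * s * n⁻¹)) := by group
        rw [e]
        exact mul_mem (inv_mem h1) h2
    · intro E₃ h₃ g hg e he
      exact hall E₃ h₃ (mul_mem (inv_mem he) (conj_mem_of_norm hg he))
  exact h.xE (hST h.xS).2

/-- the contradiction in case `|N_S(E) : E| > 2` -/
theorem no_big (hxx : x * x = 1) (hq : 2 < E.relIndex (T0 S E))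
    (hidx : ∀ y ∈ (S : Subgroup G), y ∈ T0 S E ∨ x⁻¹ * y ∈ T0 S E)
    {E₃ : Subgroup G} (h₃ : IsE S E₃) (hx3 : x ∈ om E₃) : False := by
  have hxi : x⁻¹ = x := inv_eq_of_mul_eq_one_right hxx
  -- (i)
  have hcenS : ∀ z, Cen (T0 S E) z → x * z = z * x → Cen (S : Subgroup G) z := by
    intro z hz hxz s hs
    rcases hidx s hs with h1 | h1
    · exact hz s h1
    · have h2 := hz _ h1
      calc s * z = x * ((x⁻¹ * s) * z) := by group
        _ = (x * z) * (x⁻¹ * s) := by rw [h2]; group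
        _ = z * s := by rw [hxz]; group
  -- (ii)
  have h2 : ∀ u ∈ om E₃, u ∈ T0 S E → Cen (S : Subgroup G) u := by
    intro u hu huT
    have hux : x * u = u * x := h₃.comm x (om_le _ hx3) u (om_le _ hu)
    have hconj : x * u * x⁻¹ = u := by rw [hux]; group
    refine hcenS u ?_ hux
    rcases h.inv_cases hAI huT (h₃.mem_om'.1 hu).2 with h1 | h1
    · refine h.cen_of_mem hAI (om_le _ h1) ?_
      rw [← hconj]
      exact conj_mem_cj (om_le _ h1)
    · have h3 : u ∈ E := by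
        have h4 := om_le _ h1
        rw [mem_cj] at h4
        have e : x⁻¹ * u * x = u := by rw [mul_assoc, ← hux]; group
        rwa [e] at h4
      exact h.cen_of_mem hAI h3 (om_le _ h1)
  -- (iii)
  have h3 : ∀ u ∈ om E₃, Cen (S : Subgroup G) u ∨ Cen (S : Subgroup G) (x⁻¹ * u) := by
    intro u hu
    rcases hidx u (h₃.om_le_S hu) with h1 | h1
    · exact Or.inl (h2 u hu h1)
    · exact Or.inr (h2 _ (mul_mem (inv_mem hx3) hu) h1)
  -- (iv)
  have h4 : ∀ s ∈ (S : Subgroup G), s * x = x * s → s ∈ E₃ := by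
    intro s hs hsx
    refine h₃.centV hAI hs (fun u hu => ?_)
    rcases h3 u hu with h5 | h5
    · exact h5 s hs
    · have h6 := h5 s hs
      calc s * u = (s * x) * (x⁻¹ * u) := by group
        _ = x * (s * (x⁻¹ * u)) := by rw [hsx]; group
        _ = u * s := by rw [h6]; group
  -- (v)
  have h5 : ¬ Cen (S : Subgroup G) x := by
    intro hc
    obtain ⟨s, hs, hsE⟩ := h₃.exists_not_mem
    exact hsE (h4 s hs (hc s hs))
  -- (vi)
  have h6 : ∀ b ∈ T0 S E₃, ∀ u ∈ om E₃, Cen (S : Subgroup G) (b * u * b⁻¹ * u) := by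
    intro b hb u hu
    have huu := (h₃.mem_om'.1 hu).2
    rcases h3 u hu with h7 | h7
    · have e : b * u * b⁻¹ * u = 1 := by rw [h7 b hb.1]; rw [mul_inv_cancel_right]; exact huu
      rw [e]
      exact Cen.one _
    · set z := x⁻¹ * u with hz
      have hzV : z ∈ om E₃ := mul_mem (inv_mem hx3) hu
      have hzz := (h₃.mem_om'.1 hzV).2
      have hu' : u = x * z := by rw [hz]; group
      have hbx : b * x * b⁻¹ ∈ om E₃ := conj_mem_of_norm (norm_om hb.2) hx3
      have h8 : Cen (S : Subgroup G) (x⁻¹ * (b * x * b⁻¹)) := by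
        refine (h3 _ hbx).resolve_left (fun h9 => h5 ?_)
        have h10 := h9 b hb.1
        have e : b * x * b⁻¹ = x := by
          have h11 : b * (b * x * b⁻¹) = b * x := by rw [h10]; group
          exact mul_left_cancel h11
        rwa [e] at h9
      have hzc := h7 b hb.1
      have hzx := h7 x h.xS
      have e : b * u * b⁻¹ * u = x⁻¹ * (b * x * b⁻¹) := by
        have e1 : b * u * b⁻¹ * u = (b * x * b⁻¹) * (b * z * b⁻¹) * (x * z) := by rw [hu']; group
        have e2 : b * z * b⁻¹ = z := by rw [hzc]; group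
        have e3 : (b * x * b⁻¹) * x = x * (b * x * b⁻¹) :=
          h₃.comm _ (om_le _ hbx) _ (om_le _ hx3)
        rw [e1, e2]
        calc (b * x * b⁻¹) * z * (x * z) = (b * x * b⁻¹) * (z * x) * z := by group
          _ = (b * x * b⁻¹) * (x * z) * z := by rw [← hzx]
          _ = ((b * x * b⁻¹) * x) * (z * z) := by group
          _ = x * (b * x * b⁻¹) := by rw [e3, hzz, mul_one]
          _ = x⁻¹ * (b * x * b⁻¹) := by rw [hxi]
      rw [e]
      exact h8
  -- (vii)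
  obtain ⟨b₀, hb₀S, hb₀E, hb₀N⟩ := h₃.exists_t
  have hq3 : ∀ b ∈ T0 S E₃, ∀ b' ∈ T0 S E₃, ∀ v ∈ om E₃, b' * (b * v * b⁻¹ * v) = (b * v * b⁻¹ * v) * b' :=
    fun b hb b' hb' v hv => h6 b hb v hv b' hb'.1
  have hle2 : (centralizer (T0 S E₃ : Set G)).relIndex (om E₃) ≤ 2 := by
    refine relIndex_le_two (fun a ha b hb haC hbC => ?_)
    have hcc : ∀ z, Cen (S : Subgroup G) z → z ∈ centralizer (T0 S E₃ : Set G) := fun z hz =>
      mem_centralizer_iff.2 (fun t ht => hz t ht.1)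
    have h7 := (h3 a ha).resolve_left (fun h8 => haC (hcc a h8))
    have h8 := (h3 b hb).resolve_left (fun h8 => hbC (hcc b h8))
    have e : a⁻¹ * b = (x⁻¹ * a)⁻¹ * (x⁻¹ * b) := by group
    rw [e]
    exact hcc _ (h7.inv.mul h8)
  have hge2 : 2 ≤ E₃.relIndex (T0 S E₃) := by
    have h7 : E₃.relIndex (T0 S E₃) ≠ 0 := index_ne_zero_of_finite
    have h8 : E₃.relIndex (T0 S E₃) ≠ 1 := by
      intro h9
      exact hb₀E (relIndex_eq_one.1 h9 ⟨hb₀S, hb₀N⟩)
    omega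
  obtain ⟨-, hconcl⟩ := h₃.ff hAI (T0 S E₃) (fun t ht => norm_om ht.2) inf_le_left (b₀ := b₀)
    ⟨hb₀S, hb₀N⟩ hb₀E hq3 (hle2.trans hge2)
  have hF3 := h₃.concl_ffc hAI hconcl
  have hidx3 : E₃.relIndex (T0 S E₃) ≤ 2 := by
    have := hF3.idx
    change (centralizer (T0 S E₃ : Set G)).relIndex (om E₃) = E₃.relIndex (T0 S E₃) at this
    rw [← this]
    exact hle2
  -- (viii)
  have h8 : ∀ y ∈ E₃, (y * y) * (y * y) = 1 → Cen (S : Subgroup G) (y * y) := by
    intro y hy hyy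
    have hyT : y * y ∈ T0 S E := by
      rcases hidx y (h₃.le hy) with h9 | h9
      · exact mul_mem h9 h9
      · have hyx := h₃.comm x (om_le _ hx3) y hy
        have e : y * y = (x⁻¹ * y) * (x⁻¹ * y) := by
          calc y * y = (x * x) * (y * y) := by rw [hxx, one_mul]
            _ = x * (x * y) * y := by group
            _ = x * (y * x) * y := by rw [hyx]
            _ = (x * y) * (x * y) := by group
            _ = _ := by rw [hxi]
        rw [e]
        exact mul_mem h9 h9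
    exact h2 _ (h₃.mem_om'.2 ⟨mul_mem hy hy, hyy⟩) hyT
  -- (ix)
  let D : G → G := fun v => v * (x * v * x⁻¹)
  have hFE := (h.pair1 hAI).2
  have hconjT : ∀ v ∈ om E, x * v * x⁻¹ ∈ T0 S E := fun v hv => conj_mem_of_norm h.xT (h.E_le (om_le _ hv))
  have hvv : ∀ v ∈ om E, v⁻¹ = v := fun v hv => inv_eq_of_mul_eq_one_right (h.hE.mem_om'.1 hv).2
  have htt : ∀ v ∈ om E, (x * v * x⁻¹)⁻¹ = x * v * x⁻¹ := fun v hv => by
    rw [mul_inv_rev, mul_inv_rev, inv_inv, hvv v hv]; group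
  have hτV : ∀ a ∈ T0 S E, ∀ v ∈ om E, a * v * a⁻¹ * v ∈ om E := fun a ha v hv =>
    mul_mem (conj_mem_of_norm (norm_om ha.2) hv) hv
  have hDD : ∀ v ∈ om E, D v * D v = (x * v * x⁻¹) * v * (x * v * x⁻¹)⁻¹ * v := by
    intro v hv
    have h9 := hτV _ (hconjT v hv) v hv
    have h10 := (h.hE.mem_om'.1 h9).2
    have e : (D v * D v) * ((x * v * x⁻¹) * v * (x * v * x⁻¹)⁻¹ * v) = 1 := by
      rw [htt v hv]
      have e1 : (x * v * x⁻¹) * (x * v * x⁻¹) = 1 := by
        have : (x * v * x⁻¹) * (x * v * x⁻¹) = x * (v * v) * x⁻¹ := by group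
        rw [this, (h.hE.mem_om'.1 hv).2]; group
      have e2 := (h.hE.mem_om'.1 hv).2
      calc (D v * D v) * ((x * v * x⁻¹) * v * (x * v * x⁻¹) * v)
          = v * (x * v * x⁻¹) * v * ((x * v * x⁻¹) * (x * v * x⁻¹)) * v * (x * v * x⁻¹) * v := by
            simp only [D]; group
        _ = v * (x * v * x⁻¹) * (v * v) * (x * v * x⁻¹) * v := by rw [e1]; group
        _ = v * ((x * v * x⁻¹) * (x * v * x⁻¹)) * v := by rw [e2]; group
        _ = 1 := by rw [e1, mul_one, e2]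
    have h11 : D v * D v = ((x * v * x⁻¹) * v * (x * v * x⁻¹)⁻¹ * v)⁻¹ := eq_inv_of_mul_eq_one_left e
    rw [h11]
    exact inv_eq_of_mul_eq_one_right h10
  have hxD : ∀ v ∈ om E, x * D v * x⁻¹ = (D v)⁻¹ := by
    intro v hv
    have e : x * D v * x⁻¹ = (x * v * x⁻¹) * ((x * x) * v * (x * x)⁻¹) := by simp only [D]; group
    rw [e, hxx]
    change _ = (v * (x * v * x⁻¹))⁻¹
    rw [mul_inv_rev v, htt v hv, hvv v hv]; group
  have hDT : ∀ v ∈ om E, D v ∈ T0 S E := fun v hv => mul_mem (h.E_le (om_le _ hv)) (hconjT v hv)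
  have hτS : ∀ v ∈ om E, Cen (S : Subgroup G) (D v * D v) := by
    intro v hv
    have h9 : Cen (T0 S E) (D v * D v) := by
      rw [hDD v hv]
      intro s hs
      exact hFE.quad _ (hconjT v hv).1 (hconjT v hv).2 v hv s hs.1 hs.2
    refine hcenS _ h9 ?_
    have h10 : x * (D v * D v) * x⁻¹ = D v * D v := by
      have e : x * (D v * D v) * x⁻¹ = (x * D v * x⁻¹) * (x * D v * x⁻¹) := by group
      rw [e, hxD v hv, ← mul_inv_rev]
      rw [hDD v hv]
      exact inv_eq_of_mul_eq_one_right (h.hE.mem_om'.1 (hτV _ (hconjT v hv) v hv)).2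
    rw [mul_inv_eq_iff_eq_mul] at h10
    exact h10
  have hτ2 : ∀ v ∈ om E, (D v * D v) * (D v * D v) = 1 := by
    intro v hv
    rw [hDD v hv]
    exact (h.hE.mem_om'.1 (hτV _ (hconjT v hv) v hv)).2
  have hτ3 : ∀ v ∈ om E, D v * D v ∈ om E₃ := by
    intro v hv
    rw [h₃.mem_om']
    exact ⟨h4 _ (mul_mem (hDT v hv).1 (hDT v hv).1) (hτS v hv x h.xS).symm, hτ2 v hv⟩
  have hDx : ∀ v ∈ om E, D v * x * (D v)⁻¹ = (D v * D v) * x := by
    intro v hv
    have e : D v * x * (D v)⁻¹ = D v * (x * D v * x⁻¹)⁻¹ * x := by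
      have : (D v)⁻¹ = x * (D v) * x⁻¹ := (hxD v hv).symm
      rw [this]
      have e2 : (x * D v * x⁻¹)⁻¹ = D v := by rw [hxD v hv, inv_inv]
      rw [e2]
      calc D v * x * (x * D v * x⁻¹) = D v * (x * x) * D v * x⁻¹ := by group
        _ = D v * D v * x := by rw [hxx, mul_one, hxi]
    rw [e, hxD v hv, inv_inv]
  have hD3 : ∀ v ∈ om E, D v ∈ T0 S E₃ := by
    intro v hv
    refine ⟨(hDT v hv).1, h₃.norm_of_normV hAI (hDT v hv).1 (norm_of_conj_le (fun u hu => ?_))⟩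
    rcases h3 u hu with h9 | h9
    · have e : D v * u * (D v)⁻¹ = u := by rw [h9 _ (hDT v hv).1]; group
      rw [e]; exact hu
    · have e : D v * u * (D v)⁻¹ = (D v * x * (D v)⁻¹) * (x⁻¹ * u) := by
        calc D v * u * (D v)⁻¹ = (D v * x) * ((x⁻¹ * u) * (D v)⁻¹) := by group
          _ = (D v * x) * ((D v)⁻¹ * (x⁻¹ * u)) := by
              rw [← h9 _ (inv_mem (hDT v hv).1)]
          _ = _ := by group
      rw [e, hDx v hv]
      exact mul_mem (mul_mem (hτ3 v hv) hx3) (mul_mem (inv_mem hx3) hu)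
  -- `D v` does not commute with `x` if `v` is not central
  have hDn : ∀ v ∈ om E, ¬ Cen (T0 S E) v → D v * x ≠ x * D v := by
    intro v hv hvc hcomm
    have h9 : D v * D v = 1 := by
      have h10 := hxD v hv
      rw [← hcomm, mul_inv_cancel_right] at h10
      exact mul_eq_one_iff_eq_inv.2 h10
    rw [hDD v hv] at h9
    have h11 : (x * v * x⁻¹) * v = v * (x * v * x⁻¹) := by
      have h12 : (x * v * x⁻¹) * v * (x * v * x⁻¹)⁻¹ = v := by
        rw [mul_eq_one_iff_eq_inv, hvv v hv] at h9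
        exact h9
      rw [mul_inv_eq_iff_eq_mul] at h12
      exact h12
    have h12 : x * v * x⁻¹ ∉ E := by
      intro h13
      have h14 := h.cen_of_mem hAI h13 (conj_mem_cj (om_le _ hv))
      apply hvc
      intro t ht
      have h15 := h14 _ (conj_mem_of_norm h.xT ht)
      have h16 : x * (t * v) * x⁻¹ = x * (v * t) * x⁻¹ := by
        calc x * (t * v) * x⁻¹ = (x * t * x⁻¹) * (x * v * x⁻¹) := by group
          _ = (x * v * x⁻¹) * (x * t * x⁻¹) := h15
          _ = x * (v * t) * x⁻¹ := by group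
      exact mul_left_cancel (mul_right_cancel h16)
    exact hvc (h.cen_of_comm hAI (hconjT v hv) h12 hv h11)
  have hDE : ∀ v ∈ om E, ¬ Cen (T0 S E) v → D v ∉ E₃ := fun v hv hvc h9 =>
    hDn v hv hvc (h₃.comm _ h9 _ (om_le _ hx3))
  -- (x)
  have hidxC := hFE.idx
  change (centralizer (T0 S E : Set G)).relIndex (om E) = E.relIndex (T0 S E) at hidxC
  obtain ⟨v₁, hv₁, v₂, hv₂, hc₁, hc₂, hc₁₂⟩ := exists_three (H := centralizer (T0 S E : Set G)) (K := om E)
    (by rw [hidxC]; exact hq)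
  have hCC : ∀ v, v ∉ centralizer (T0 S E : Set G) → ¬ Cen (T0 S E) v := fun v hv hc =>
    hv (mem_centralizer_iff.2 hc)
  rw [hvv v₁ hv₁] at hc₁₂
  have hv₁₂ : v₁ * v₂ ∈ om E := mul_mem hv₁ hv₂
  have hy : D v₁ * D v₂ ∈ E₃ := by
    have h9 := mem_of_relIndex_le_two hidx3 (inv_mem (hD3 v₁ hv₁)) (hD3 v₂ hv₂)
      (fun h => hDE v₁ hv₁ (hCC _ hc₁) (by have := inv_mem h; rwa [inv_inv] at this))
      (hDE v₂ hv₂ (hCC _ hc₂))
    rwa [inv_inv] at h9
  have hκT := hconjT v₁ hv₁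
  set a := x * v₁ * x⁻¹ with ha
  set κ := a * v₂ * a⁻¹ * v₂ with hκ
  have hκV : κ ∈ om E := hτV a hκT v₂ hv₂
  have hκc : Cen (T0 S E) κ := fun s hs => hFE.quad a hκT.1 hκT.2 v₂ hv₂ s hs.1 hs.2
  have hav : a * v₂ = κ * (v₂ * a) := by
    have h9 := (h.hE.mem_om'.1 hv₂).2
    calc a * v₂ = a * v₂ * a⁻¹ * (v₂ * v₂) * a := by rw [h9]; group
      _ = κ * (v₂ * a) := by rw [hκ]; group
  have hyD : D v₁ * D v₂ = κ * D (v₁ * v₂) := by
    have h9 := hκc v₁ (h.E_le (om_le _ hv₁))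
    calc D v₁ * D v₂ = v₁ * (a * v₂) * (x * v₂ * x⁻¹) := by
          change v₁ * (x * v₁ * x⁻¹) * (v₂ * (x * v₂ * x⁻¹)) = _
          rw [← ha]; group
      _ = (v₁ * κ) * (v₂ * a) * (x * v₂ * x⁻¹) := by rw [hav]; group
      _ = κ * (v₁ * v₂ * (a * (x * v₂ * x⁻¹))) := by rw [h9]; group
      _ = κ * D (v₁ * v₂) := by
          have e : v₁ * v₂ * (a * (x * v₂ * x⁻¹)) = v₁ * v₂ * (x * (v₁ * v₂) * x⁻¹) := by rw [ha]; group
          rw [e]
  have hyy : (D v₁ * D v₂) * (D v₁ * D v₂) = D (v₁ * v₂) * D (v₁ * v₂) := by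
    have h9 := hκc _ (hDT _ hv₁₂)
    have h10 := (h.hE.mem_om'.1 hκV).2
    calc (D v₁ * D v₂) * (D v₁ * D v₂) = κ * (D (v₁ * v₂) * κ) * D (v₁ * v₂) := by rw [hyD]; group
      _ = (κ * κ) * (D (v₁ * v₂) * D (v₁ * v₂)) := by rw [h9]; group
      _ = _ := by rw [h10, one_mul]
  have hfin : D (v₁ * v₂) * x = x * D (v₁ * v₂) := by
    refine hF3.opp _ (hD3 _ hv₁₂).1 (hD3 _ hv₁₂).2 (hDE _ hv₁₂ (hCC _ hc₁₂)) x hx3 ?_
    intro g hg s hs hsN
    have e : D (v₁ * v₂) * x * (D (v₁ * v₂))⁻¹ * x = (D v₁ * D v₂) * (D v₁ * D v₂) := by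
      rw [hDx _ hv₁₂, mul_assoc, hxx, mul_one, hyy]
    rw [e]
    have e2 : g * ((D v₁ * D v₂) * (D v₁ * D v₂)) * g⁻¹ =
        (g * (D v₁ * D v₂) * g⁻¹) * (g * (D v₁ * D v₂) * g⁻¹) := by group
    rw [e2]
    refine h8 _ (conj_mem_of_norm hg hy) ?_ s hs
    rw [← e2]
    have e3 : g * ((D v₁ * D v₂) * (D v₁ * D v₂)) * g⁻¹ * (g * ((D v₁ * D v₂) * (D v₁ * D v₂)) * g⁻¹) =
      g * (((D v₁ * D v₂) * (D v₁ * D v₂)) * ((D v₁ * D v₂) * (D v₁ * D v₂))) * g⁻¹ := by group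
    rw [e3, hyy, hτ2 _ hv₁₂]; group
  exact hDn _ hv₁₂ (hCC _ hc₁₂) hfin

/-- **`|N_S(E) : E| = 2`** -/
theorem relIndex_le [IsSimpleGroup G] (hna : ∃ a b : G, a * b ≠ b * a) : E.relIndex (T0 S E) ≤ 2 := by
  by_contra hq
  rw [not_le] at hq
  have hidx := h.index_two hAI hq
  obtain ⟨E₃, h₃, hnot⟩ := h.exists_other hAI hna hidx
  obtain ⟨c, hc, hcT⟩ := SetLike.not_le_iff_exists.1 hnot
  have hcS := h₃.om_le_S hc
  have hxc := (hidx c hcS).resolve_left hcT
  have hcN : c ∈ normalizer (T0 S E : Set G) := by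
    have := mul_mem h.xT (le_normalizer hxc)
    rwa [mul_inv_cancel_left] at this
  have h' : NN S E c := ⟨h.hE, hcS, fun h1 => hcT ⟨hcS, h1⟩, hcN⟩
  refine h'.no_big hAI (h₃.mem_om'.1 hc).2 hq ?_ h₃ hc
  intro y hy
  rcases hidx y hy with h1 | h1
  · exact Or.inl h1
  · right
    have h2 := mul_mem (inv_mem hxc) h1
    have e : (x⁻¹ * c)⁻¹ * (x⁻¹ * y) = c⁻¹ * y := by group
    rwa [e] at h2

end NN

end Cfsg.Agent.H305.Ess
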