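import Mathlib
import Cfsg.Agent.ClassTwoFusion.QuadSylow

/-!
# Quadratic offenders in groups with TI Sylow 2-subgroups, I

Version of `ClassTwoFusion.Quad.QData.offender` in which only the offender is quadratic.
-/

set_option autoImplicit false

namespace Cfsg.Agent.H305.FF

open Subgroup Cfsg.Agent.TwoFusion.StronglyEmbeddedBasic
open Cfsg.Agent.ClassTwoFusion.Quad (cv mem_cv mem_cv_singleton cv_anti d)

variable {L V : Type*} [Group L] [Group V] [MulDistribMulAction L V]

/-- quadratic subgroups -/
def Qd (V : Type*) [Group V] [MulDistribMulAction L V] (A : Subgroup L) : Prop :=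
  ∀ x ∈ A, ∀ y ∈ A, ∀ v : V, y • d x v = d x v

/-- Elementary abelian module, faithful action. -/
structure Mod (L V : Type*) [Group L] [Group V] [MulDistribMulAction L V] : Prop where
  comm : ∀ v w : V, v * w = w * v
  sq : ∀ v : V, v * v = 1
  faith : ∀ x : L, (∀ v : V, x • v = v) → x = 1

namespace Mod

variable (h : Mod L V)
include h

theorem inv_eq (v : V) : v⁻¹ = v := inv_eq_of_mul_eq_one_right (h.sq v)

theorem smul_eq (x : L) (v : V) : x • v = d x v * v := by
  unfold d
  rw [mul_assoc, h.sq, mul_one]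

theorem d_eq_one_iff (x : L) (v : V) : d x v = 1 ↔ x • v = v := by
  unfold d
  rw [mul_eq_one_iff_eq_inv, h.inv_eq]

theorem d_mul (x : L) (v w : V) : d x (v * w) = d x v * d x w := by
  let _ : CommGroup V := { ‹Group V› with mul_comm := h.comm }
  unfold d
  rw [smul_mul']
  exact mul_mul_mul_comm _ _ _ _

omit h in
theorem _root_.Cfsg.Agent.H305.FF.Qd.mono {A B : Subgroup L} (hB : Qd V B) (hAB : A ≤ B) : Qd V A :=
  fun x hx y hy v => hB x (hAB hx) y (hAB hy) v

/-- elements of quadratic subgroups are involutions -/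
theorem mul_self {Q : Subgroup L} (hQ : Qd V Q) {x : L} (hx : x ∈ Q) : x * x = 1 := by
  apply h.faith
  intro v
  rw [mul_smul, h.smul_eq x v, smul_mul', hQ x hx x hx, h.smul_eq x v, ← mul_assoc, h.sq,
    one_mul]

/-- quadratic subgroups are commutative -/
theorem mul_comm' {Q : Subgroup L} (hQ : Qd V Q) {x y : L} (hx : x ∈ Q) (hy : y ∈ Q) :
    x * y = y * x := by
  have h1 := h.mul_self hQ (mul_mem hx hy)
  have h2 := h.mul_self hQ hx
  have h3 := h.mul_self hQ hy
  calc x * y = x * y * ((y * x) * (y * x)) := by rw [h.mul_self hQ (mul_mem hy hx), mul_one]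
    _ = x * (y * y) * x * (y * x) := by group
    _ = y * x := by rw [h3, mul_one, h2, one_mul]

theorem d_mul_left {Q : Subgroup L} (hQ : Qd V Q) {x y : L} (hx : x ∈ Q) (hy : y ∈ Q) (v : V) :
    d (x * y) v = d x v * d y v := by
  have h1 : (x * y) • v = d y v * (d x v * v) := by
    rw [mul_smul, h.smul_eq y v, smul_mul', hQ y hy x hx, h.smul_eq x v]
  calc d (x * y) v = d y v * (d x v * v) * v := by rw [← h1]; rfl
    _ = d y v * d x v * (v * v) := by group
    _ = d x v * d y v := by rw [h.sq, mul_one, h.comm]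

theorem orderOf_eq_two {Q : Subgroup L} (hQ : Qd V Q) {x : L} (hx : x ∈ Q) (h1 : x ≠ 1) :
    orderOf x = 2 := orderOf_eq_two_of_mul_self (h.mul_self hQ hx) h1

/-- an involution acts quadratically -/
theorem d_self {x : L} (hx : orderOf x = 2) (v : V) : x • d x v = d x v := by
  have h2 : x * x = 1 := by
    have := pow_orderOf_eq_one x
    rwa [hx, pow_two] at this
  unfold d
  rw [smul_mul', smul_smul, h2, one_smul, h.comm]

/-- quadratic subgroups are 2-groups -/
theorem isPGroup {Q : Subgroup L} (hQ : Qd V Q) : IsPGroup 2 Q := by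
  intro x
  refine ⟨1, Subtype.ext ?_⟩
  have := h.mul_self hQ x.2
  rw [pow_one, pow_two]
  exact this

/-- if `st` has odd order, `s` fixes `w` and `[w,t]` then `t` fixes `w`. -/
theorem key {s t : L} (ht : orderOf t = 2) (hst : Odd (orderOf (s * t)))
    {w : V} (hw : s • w = w) (hd : s • d t w = d t w) : t • w = w := by
  have h1 : (s * t) • w = d t w * w := by
    rw [mul_smul, h.smul_eq t w, smul_mul', hd, hw]
  have h2 : (s * t) • d t w = d t w := by rw [mul_smul, h.d_self ht, hd]
  have h3 : ∀ k : ℕ, (s * t) ^ (2 * k) • w = w := by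
    intro k
    induction k with
    | zero => simp
    | succ k ih =>
      rw [show 2 * (k + 1) = 2 * k + 2 by ring, pow_add, mul_smul, pow_two, mul_smul, h1, smul_mul',
        h2, h1, ← mul_assoc, h.sq, one_mul, ih]
  obtain ⟨k, hk⟩ := hst
  have h4 : (s * t) ^ (2 * k + 1) = 1 := by rw [← hk]; exact pow_orderOf_eq_one _
  have h5 : (s * t) ^ (2 * k + 1) • w = d t w * w := by
    rw [pow_succ', mul_smul, h3, h1]
  rw [h4, one_smul] at h5
  rw [← h.d_eq_one_iff]
  exact mul_eq_right.1 h5.symm

omit h in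
theorem d_mem_cv {A : Subgroup L} (hA : Qd V A) {a : L} (ha : a ∈ A) (v : V) :
    d a v ∈ cv V (A : Set L) := fun b hb => hA a ha b hb v

omit h in
/-- conjugates of quadratic subgroups -/
theorem qd_map {A : Subgroup L} (hA : Qd V A) (g : L) :
    Qd V (A.map (MulAut.conj g).toMonoidHom) := by
  rintro _ ⟨x, hx, rfl⟩ _ ⟨y, hy, rfl⟩ v
  have h1 : d ((MulAut.conj g).toMonoidHom x) v = g • d x (g⁻¹ • v) := by
    unfold d
    have e : (MulAut.conj g).toMonoidHom x = g * x * g⁻¹ := rfl
    rw [e, smul_mul', mul_smul, mul_smul, smul_inv_smul]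
  have e : (MulAut.conj g).toMonoidHom y = g * y * g⁻¹ := rfl
  rw [h1, e, mul_smul, mul_smul, inv_smul_smul, hA x hx y hy]

section off

variable [Finite L]

omit h in
theorem odd_of_ne {α : Type*} {f : L → α}
    (hf : ∀ s t : L, orderOf s = 2 → orderOf t = 2 → Commute s t → f s = f t)
    {s t : L} (hs : orderOf s = 2) (ht : orderOf t = 2) (hst : f s ≠ f t) :
    Odd (orderOf (s * t)) := by
  by_contra hodd
  obtain ⟨z, -, hz2, hza, hzb⟩ := exists_commuting_involution s t hs ht (orderOf_pos _) hodd
  exact hst ((hf s z hs hz2 hza.symm).trans (hf z t hz2 ht hzb))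

variable [Finite V]

open Cfsg.Agent.ClassTwoFusion.Quad in
/-- **Offenders.** -/
theorem offender {α : Type*} {f : L → α}
    (hf : ∀ s t : L, orderOf s = 2 → orderOf t = 2 → Commute s t → f s = f t) :
    ∀ (n : ℕ) (M : Subgroup L), Nat.card M ≤ n →
    (∃ t ∈ M, ∃ s ∈ M, orderOf t = 2 ∧ orderOf s = 2 ∧ f t ≠ f s) →
    ∀ A : Subgroup L, A ≤ M → Qd V A → A ≠ ⊥ →
    (cv V (A : Set L)).index ≤ Nat.card A →
    (cv V (A : Set L)).index = Nat.card A ∧ ∀ a ∈ A, a ≠ 1 → cv V ({a} : Set L) = cv V (A : Set L) := by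
  intro n
  induction n with
  | zero =>
    intro M hM
    exact absurd hM (not_le_of_gt Nat.card_pos)
  | succ n ih =>
    intro M hM ⟨t, htM, s, hsM, ht2, hs2, hts⟩ A hAM hA hA1 hoff
    obtain ⟨a₀, ha₀A, ha₀⟩ := (bot_or_exists_ne_one A).resolve_left hA1
    have ha₀2 := h.orderOf_eq_two hA ha₀A ha₀
    obtain ⟨b₀, hb₀M, hb₀2, hab₀⟩ : ∃ b₀ ∈ M, orderOf b₀ = 2 ∧ f a₀ ≠ f b₀ := by
      by_cases h1 : f a₀ = f t
      · exact ⟨s, hsM, hs2, by rw [h1]; exact hts⟩
      · exact ⟨t, htM, ht2, h1⟩
    obtain ⟨m, hm, -, hm1, hm2⟩ := exists_swap a₀ b₀ ha₀2 hb₀2 (odd_of_ne hf ha₀2 hb₀2 hab₀)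
    have hmM : m ∈ M := by
      have : closure ({a₀, b₀} : Set L) ≤ M := by
        rw [closure_le]
        rintro x (rfl | rfl)
        · exact hAM ha₀A
        · exact hb₀M
      exact this hm
    set B : Subgroup L := A.map (MulAut.conj m).toMonoidHom with hBdef
    have hBM : B ≤ M := by
      rintro _ ⟨a, ha, rfl⟩
      exact mul_mem (mul_mem hmM (hAM ha)) (inv_mem hmM)
    have hB : Qd V B := qd_map hA m
    have hb₀B : b₀ ∈ B := ⟨a₀, ha₀A, hm1⟩
    have hb₀1 : b₀ ≠ 1 := fun e => by rw [e, orderOf_one] at hb₀2; omega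
    have hcardB : Nat.card B = Nat.card A :=
      Nat.card_congr (A.equivMapOfInjective _ (MulAut.conj m).injective).toEquiv.symm
    have hindB : (cv V (B : Set L)).index = (cv V (A : Set L)).index := QData.index_cv_map_conj A m
    have hfA : ∀ {x y : L}, x ∈ A → y ∈ A → x ≠ 1 → y ≠ 1 → f x = f y := fun hx hy h1 h2 =>
      hf _ _ (h.orderOf_eq_two hA hx h1) (h.orderOf_eq_two hA hy h2) (h.mul_comm' hA hx hy)
    have hfB : ∀ {x y : L}, x ∈ B → y ∈ B → x ≠ 1 → y ≠ 1 → f x = f y := fun hx hy h1 h2 =>
      hf _ _ (h.orderOf_eq_two hB hx h1) (h.orderOf_eq_two hB hy h2) (h.mul_comm' hB hx hy)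
    -- products are odd
    have hodd : ∀ a ∈ A, a ≠ 1 → ∀ b ∈ B, b ≠ 1 → f b ≠ f a := by
      intro a ha ha1 b hb hb1
      rw [hfA ha ha₀A ha1 ha₀, hfB hb hb₀B hb1 hb₀1]
      exact hab₀.symm
    -- claim 1
    have claim1 : ∀ v ∈ cv V (B : Set L), ∀ a ∈ A, a ≠ 1 → a • v = v → v ∈ cv V (A : Set L) := by
      intro v hv a ha ha1 hav
      set M' : Subgroup L := M ⊓ MulAction.stabilizer L v with hM'
      by_cases hMM : M' = M
      · intro b hb
        have : b ∈ M' := by rw [hMM]; exact hAM hb
        exact this.2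
      · have hlt : M' < M := lt_of_le_of_ne inf_le_left hMM
        have hcard : Nat.card M' < Nat.card M := by
          have := Set.ncard_lt_ncard (s := (M' : Set L)) (t := (M : Set L)) (by exact_mod_cast hlt)
            (Set.toFinite _)
          exact this
        have hbM' : b₀ ∈ M' := ⟨hb₀M, hv b₀ hb₀B⟩
        have haM' : a ∈ M' := ⟨hAM ha, hav⟩
        have hBM' : B ≤ M' := le_inf hBM (fun b hb => hv b hb)
        have ha2 := h.orderOf_eq_two hA ha ha1
        obtain ⟨e1, e2⟩ := ih M' (by omega) ⟨b₀, hbM', a, haM', hb₀2, ha2, hodd a ha ha1 b₀ hb₀B hb₀1⟩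
          B hBM' hB (fun e => hb₀1 (by rw [e, mem_bot] at hb₀B; exact hb₀B))
          (by rw [hcardB, hindB]; exact hoff)
        have e3 := e2 b₀ hb₀B hb₀1
        obtain ⟨g, -, -, hg, -⟩ := exists_swap b₀ a hb₀2 ha2 (odd_of_ne hf hb₀2 ha2
          (hodd a ha ha1 b₀ hb₀B hb₀1))
        have e4 : (cv V ({a} : Set L)).index = Nat.card A := by
          rw [← hg, QData.index_cv_conj, e3, e1, hcardB]
        have hle : cv V (A : Set L) ≤ cv V ({a} : Set L) := cv_anti (by simpa using ha)
        have e5 : cv V (A : Set L) = cv V ({a} : Set L) := by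
          have h1 := relIndex_mul_index hle
          have h2 : (cv V (A : Set L)).relIndex (cv V ({a} : Set L)) = 1 := by
            have hpos : 0 < (cv V ({a} : Set L)).index := Nat.pos_of_ne_zero index_ne_zero_of_finite
            have h3 : (cv V (A : Set L)).relIndex (cv V ({a} : Set L)) * (cv V ({a} : Set L)).index
                ≤ 1 * (cv V ({a} : Set L)).index := by rw [h1, one_mul, e4]; exact hoff
            have h4 := Nat.le_of_mul_le_mul_right h3 hpos
            have h5 : (cv V (A : Set L)).relIndex (cv V ({a} : Set L)) ≠ 0 := by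
              exact index_ne_zero_of_finite
            omega
          exact le_antisymm hle (relIndex_eq_one.1 h2)
        rw [e5]
        exact mem_cv_singleton.2 hav
    set CA := cv V (A : Set L) with hCA
    set CB := cv V (B : Set L) with hCB
    have hposA : 0 < CA.index := Nat.pos_of_ne_zero index_ne_zero_of_finite
    have hposB : 0 < CB.index := Nat.pos_of_ne_zero index_ne_zero_of_finite
    -- claim 2
    have claim2 : ∀ v ∈ CB, ∀ a ∈ A, a ≠ 1 → d a v ∈ CB → a • v = v := by
      intro v hv a ha ha1 hdv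
      exact h.key (h.orderOf_eq_two hA ha ha1) (odd_of_ne hf hb₀2 (h.orderOf_eq_two hA ha ha1)
        (hodd a ha ha1 b₀ hb₀B hb₀1)) (hv b₀ hb₀B) (hdv b₀ hb₀B)
    -- there is a vector
    obtain ⟨v, hvB, hvA⟩ : ∃ v ∈ CB, v ∉ CA := by
      by_contra hcon
      push Not at hcon
      have hle : CB ≤ CA := hcon
      have heq : CB = CA := by
        have h1 := relIndex_mul_index hle
        rw [hindB] at h1
        have h2 : CB.relIndex CA = 1 := by
          have : CB.relIndex CA * CA.index = 1 * CA.index := by rw [h1, one_mul]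
          exact Nat.eq_of_mul_eq_mul_right hposA this
        exact le_antisymm hle (relIndex_eq_one.1 h2)
      -- `a₀ b₀` has order two
      have h1 : ∀ v : V, a₀ • v = v := by
        intro v
        -- use key with an arbitrary vector
        have h2 : ∀ w : V, b₀ • d a₀ w = d a₀ w := by
          intro w
          have : d a₀ w ∈ CB := by rw [heq]; exact d_mem_cv hA ha₀A w
          exact this b₀ hb₀B
        have h3 : ∀ w : V, a₀ • d b₀ w = d b₀ w := by
          intro w
          have : d b₀ w ∈ CA := by rw [← heq]; exact d_mem_cv hB hb₀B w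
          exact this a₀ ha₀A
        have h4 : ∀ w : V, (a₀ * b₀) • (a₀ * b₀) • w = w := by
          intro w
          have e1 : ∀ w : V, (a₀ * b₀) • w = d b₀ w * (d a₀ w * w) := by
            intro w
            rw [mul_smul, h.smul_eq b₀ w, smul_mul', h3, h.smul_eq a₀ w]
          rw [e1 w, smul_mul', smul_mul']
          have e2 : (a₀ * b₀) • d b₀ w = d b₀ w := by rw [mul_smul, h.d_self hb₀2, h3]
          have e3 : (a₀ * b₀) • d a₀ w = d a₀ w := by rw [mul_smul, h2, h.d_self ha₀2]
          rw [e2, e3, e1 w]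
          calc d b₀ w * (d a₀ w * (d b₀ w * (d a₀ w * w)))
              = d b₀ w * (d a₀ w * d b₀ w) * d a₀ w * w := by group
            _ = w := by
                rw [h.comm (d a₀ w), ← mul_assoc, h.sq, one_mul, h.sq, one_mul]
        have h5 : (a₀ * b₀) ^ 2 = 1 := h.faith _ (fun w => by rw [pow_two, mul_smul]; exact h4 w)
        have h6 : a₀ * b₀ = 1 := by
          have := odd_of_ne hf ha₀2 hb₀2 hab₀
          have h7 : orderOf (a₀ * b₀) ∣ 2 := orderOf_dvd_of_pow_eq_one h5
          rw [← orderOf_eq_one_iff]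
          rcases (Nat.dvd_prime Nat.prime_two).1 h7 with h8 | h8
          · exact h8
          · rw [h8] at this; exact absurd this (by decide)
        have h7 : a₀ = b₀ := by
          rw [mul_eq_one_iff_eq_inv] at h6
          rw [h6, inv_eq_self_of_orderOf hb₀2]
        exact absurd (congrArg f h7) hab₀
      exact ha₀ (h.faith _ h1)
    -- the injection
    have hinj : Nat.card A ≤ (CA ⊓ CB).relIndex CA := by
      have hfun : Function.Injective (fun a : A =>
          (QuotientGroup.mk (⟨d (a : L) v, d_mem_cv hA a.2 v⟩ : CA) : CA ⧸ ((CA ⊓ CB).subgroupOf CA))) := by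
        intro a b hab
        have h1 := QuotientGroup.eq.1 hab
        rw [mem_subgroupOf] at h1
        have h2 : d (a * b : L) v ∈ CB := by
          rw [h.d_mul_left hA a.2 b.2]
          have := h1.2
          simpa [h.inv_eq] using this
        by_contra hne
        have hab1 : (a * b : L) ≠ 1 := by
          intro e
          apply hne
          apply Subtype.ext
          rw [mul_eq_one_iff_eq_inv] at e
          rw [e, inv_eq_iff_mul_eq_one]
          exact h.mul_self hA b.2
        exact hvA (claim1 v hvB _ (mul_mem a.2 b.2) hab1 (claim2 v hvB _ (mul_mem a.2 b.2) hab1 h2))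
      have := Nat.card_le_card_of_injective _ hfun
      exact this
    have h1 : (CA ⊓ CB).relIndex CA * CA.index = (CA ⊓ CB).index := relIndex_mul_index inf_le_left
    have h1' : (CA ⊓ CB).relIndex CB * CB.index = (CA ⊓ CB).index := relIndex_mul_index inf_le_right
    have h2 : (CA ⊓ CB).index ≤ CA.index * CB.index := index_inf_le
    have h3 : (CA ⊓ CB).relIndex CA ≤ CB.index := by
      have : (CA ⊓ CB).relIndex CA * CA.index ≤ CB.index * CA.index := by
        rw [h1, mul_comm CB.index]; exact h2
      exact Nat.le_of_mul_le_mul_right this hposA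
    have hind : CA.index = Nat.card A := by rw [hindB] at h3; omega
    refine ⟨hind, ?_⟩
    intro a ha ha1
    have hle : CA ≤ cv V ({a} : Set L) := cv_anti (by simpa using ha)
    -- `cv {a} ⊓ CB = CA ⊓ CB`
    have h4 : cv V ({a} : Set L) ⊓ CB = CA ⊓ CB := by
      apply le_antisymm
      · intro v hv
        exact ⟨claim1 v hv.2 a ha ha1 (mem_cv_singleton.1 hv.1), hv.2⟩
      · exact inf_le_inf_right _ hle
    have h5 : (cv V ({a} : Set L)).index = CA.index := by
      have h6 : (cv V ({a} : Set L) ⊓ CB).index ≤ (cv V ({a} : Set L)).index * CB.index := index_inf_le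
      rw [h4, ← h1] at h6
      rw [hindB] at h6
      have h7 := Nat.le_of_mul_le_mul_right h6 hposA
      have h8 : (cv V ({a} : Set L)).index ≤ CA.index :=
        Nat.le_of_dvd hposA (index_dvd_of_le hle)
      omega
    have h6 := relIndex_mul_index hle
    rw [h5] at h6
    have h7 : CA.relIndex (cv V ({a} : Set L)) = 1 := by
      have : CA.relIndex (cv V ({a} : Set L)) * CA.index = 1 * CA.index := by rw [h6, one_mul]
      exact Nat.eq_of_mul_eq_mul_right hposA this
    exact le_antisymm (relIndex_eq_one.1 h7) hle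

end off

end Mod

end Cfsg.Agent.H305.FF
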