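import Mathlib
import Cfsg.Agent.H305.FFOff

/-!
# Quadratic offenders in groups with TI Sylow 2-subgroups, II: lines
-/

set_option autoImplicit false

namespace Cfsg.Agent.H305.FF

open Subgroup Cfsg.Agent.TwoFusion.StronglyEmbeddedBasic
open Cfsg.Agent.ClassTwoFusion.Quad (cv mem_cv mem_cv_singleton cv_anti d cv_sup mem_smul_sylow
  coe_smul_sylow)
open scoped Pointwise

variable {L V : Type*} [Group L] [Group V] [MulDistribMulAction L V]

/-- distinct Sylow 2-subgroups intersect trivially and there are at least two -/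
structure TI (L : Type*) [Group L] : Prop where
  ti : ∀ P Q : Sylow 2 L, ∀ x ∈ (P : Subgroup L), x ∈ (Q : Subgroup L) → x ≠ 1 → P = Q
  two : ∃ P Q : Sylow 2 L, P ≠ Q

open Classical in
/-- a Sylow 2-subgroup containing `B` -/
noncomputable def sy (B : Subgroup L) : Sylow 2 L :=
  if h : ∃ P : Sylow 2 L, B ≤ P then h.choose else default

theorem le_sy {B : Subgroup L} (hB : IsPGroup 2 B) : B ≤ sy B := by
  have h : ∃ P : Sylow 2 L, B ≤ P := hB.exists_le_sylow
  unfold sy
  rw [dif_pos h]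
  exact h.choose_spec

namespace TI

variable (h : TI L)
include h

theorem eq_sy {B : Subgroup L} (hB : IsPGroup 2 B) {x : L} (hx : x ∈ B) (hx1 : x ≠ 1)
    {Q : Sylow 2 L} (hxQ : x ∈ (Q : Subgroup L)) : Q = sy B :=
  h.ti _ _ x hxQ (le_sy hB hx) hx1

omit h in
theorem mem_of_smul_eq [Finite L] {P Q : Sylow 2 L} {x : L} (hx : x ∈ (P : Subgroup L)) (hQ : x • Q = Q) :
    x ∈ (Q : Subgroup L) := by
  have h1 : x ∈ normalizer ((Q : Subgroup L) : Set L) := Sylow.smul_eq_iff_mem_normalizer.1 hQ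
  have h2 := P.isPGroup'.inf_normalizer_sylow Q
  have h3 : x ∈ (P : Subgroup L) ⊓ normalizer (Q : Set L) := ⟨hx, h1⟩
  rw [h2] at h3
  exact h3.2

theorem eq_one_of_smul_eq [Finite L] {P Q : Sylow 2 L} (hPQ : P ≠ Q) {x : L} (hx : x ∈ (P : Subgroup L))
    (hQ : x • Q = Q) : x = 1 := by
  by_contra h1
  exact hPQ (h.ti P Q x hx (mem_of_smul_eq hx hQ) h1)

/-- an involution commuting with `a ∈ P`, `a ≠ 1`, is in `P` -/
theorem mem_of_commute [Finite L] {P : Sylow 2 L} {a z : L} (ha : a ∈ (P : Subgroup L)) (ha1 : a ≠ 1)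
    (hz : orderOf z = 2) (hc : Commute z a) : z ∈ (P : Subgroup L) := by
  obtain ⟨T, hT⟩ := Cfsg.Agent.ClassTwoFusion.Quad.QData.exists_sylow_mem hz
  apply mem_of_smul_eq hT
  apply h.ti _ _ a _ ha ha1
  rw [mem_smul_sylow]
  have : z⁻¹ * a * z = a := by rw [mul_assoc, ← hc.eq, inv_mul_cancel_left]
  rw [this]
  exact ha

theorem sy_map {B : Subgroup L} (hB : IsPGroup 2 B) {x : L} (hx : x ∈ B) (hx1 : x ≠ 1) (g : L) :
    sy (B.map (MulAut.conj g).toMonoidHom) = g • sy B := by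
  symm
  refine h.eq_sy (hB.map _) (x := g * x * g⁻¹) ⟨x, hx, rfl⟩ (fun e => hx1 ?_) ?_
  · rw [mul_inv_eq_one] at e
    exact mul_eq_left.1 e
  · rw [mem_smul_sylow]
    have e : g⁻¹ * (g * x * g⁻¹) * g = x := by group
    rw [e]
    exact le_sy hB hx

end TI

/-- Members: quadratic subgroups of order `n` whose fixed space has index `n`. -/
structure Mem (V : Type*) [Group V] [MulDistribMulAction L V] (n : ℕ) (B : Subgroup L) : Prop where
  qd : Qd V B
  card : Nat.card B = n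
  idx : (cv V (B : Set L)).index = n
  fix : ∀ b ∈ B, b ≠ 1 → cv V ({b} : Set L) = cv V (B : Set L)

section

variable [Finite L] [Finite V]

omit [Finite V] [Group V] [MulDistribMulAction L V] in
theorem f_comm (h : TI L) (s t : L) (hs : orderOf s = 2) (ht : orderOf t = 2) (hst : Commute s t) :
    sy (zpowers s) = sy (zpowers t) := by
  have hp : ∀ {x : L}, orderOf x = 2 → IsPGroup 2 (zpowers x) := by
    intro x hx
    refine IsPGroup.of_card (n := 1) ?_
    rw [Nat.card_zpowers, hx, pow_one]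
  have hs1 : s ≠ 1 := fun e => by rw [e, orderOf_one] at hs; omega
  have ht1 : t ≠ 1 := fun e => by rw [e, orderOf_one] at ht; omega
  exact h.eq_sy (hp ht) (mem_zpowers t) ht1
    (h.mem_of_commute (le_sy (hp hs) (mem_zpowers s)) hs1 ht hst.symm)

omit [Finite V] in
theorem exists_two (hm : Mod L V) (h : TI L) {A : Subgroup L} (hA : Qd V A) (hA1 : A ≠ ⊥) :
    ∃ t ∈ (⊤ : Subgroup L), ∃ s ∈ (⊤ : Subgroup L), orderOf t = 2 ∧ orderOf s = 2 ∧
      sy (zpowers t) ≠ sy (zpowers s) := by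
  obtain ⟨P, Q, hPQ⟩ := h.two
  obtain ⟨a, haA, ha⟩ := (bot_or_exists_ne_one A).resolve_left hA1
  have ha2 := hm.orderOf_eq_two hA haA ha
  obtain ⟨T, hT⟩ := Cfsg.Agent.ClassTwoFusion.Quad.QData.exists_sylow_mem ha2
  have key : ∀ R : Sylow 2 L, ∃ t ∈ (R : Subgroup L), orderOf t = 2 := by
    intro R
    obtain ⟨g, rfl⟩ := MulAction.exists_smul_eq L T R
    refine ⟨g * a * g⁻¹, ?_, ?_⟩
    · rw [mem_smul_sylow]
      have e : g⁻¹ * (g * a * g⁻¹) * g = a := by group
      rw [e]; exact hT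
    · rw [← ha2]
      exact orderOf_injective (MulAut.conj g).toMonoidHom (MulAut.conj g).injective a
  obtain ⟨t, htP, ht⟩ := key P
  obtain ⟨s, hsQ, hs⟩ := key Q
  have hp : ∀ {x : L}, orderOf x = 2 → IsPGroup 2 (zpowers x) := by
    intro x hx
    refine IsPGroup.of_card (n := 1) ?_
    rw [Nat.card_zpowers, hx, pow_one]
  refine ⟨t, mem_top _, s, mem_top _, ht, hs, ?_⟩
  have hs1 : s ≠ 1 := fun e => by rw [e, orderOf_one] at hs; omega
  have ht1 : t ≠ 1 := fun e => by rw [e, orderOf_one] at ht; omega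
  rw [← h.eq_sy (hp ht) (mem_zpowers t) ht1 htP, ← h.eq_sy (hp hs) (mem_zpowers s) hs1 hsQ]
  exact hPQ

theorem offender_mem (hm : Mod L V) (h : TI L) {A : Subgroup L} (hA : Qd V A) (hA1 : A ≠ ⊥)
    (hoff : (cv V (A : Set L)).index ≤ Nat.card A) : Mem V (Nat.card A) A := by
  obtain ⟨h1, h2⟩ := hm.offender (f_comm h) _ ⊤ le_rfl (exists_two hm h hA hA1) A le_top hA hA1 hoff
  exact ⟨hA, rfl, h1, h2⟩

end

namespace Mem

variable {n : ℕ}

theorem map {B : Subgroup L} (hB : Mem V n B) (g : L) : Mem V n (B.map (MulAut.conj g).toMonoidHom) := by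
  have hc : cv V ((B.map (MulAut.conj g).toMonoidHom : Subgroup L) : Set L) = _ :=
    Cfsg.Agent.ClassTwoFusion.Quad.QData.cv_map_conj B g
  refine ⟨Mod.qd_map hB.qd g, ?_, ?_, ?_⟩
  · rw [← hB.card]
    exact Nat.card_congr (B.equivMapOfInjective _ (MulAut.conj g).injective).toEquiv.symm
  · rw [← hB.idx]
    exact Cfsg.Agent.ClassTwoFusion.Quad.QData.index_cv_map_conj B g
  · rintro _ ⟨b, hb, rfl⟩ hb1
    have hb1' : b ≠ 1 := by
      rintro rfl
      exact hb1 (map_one _)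
    have h1 : (zpowers b).map (MulAut.conj g).toMonoidHom = zpowers (g * b * g⁻¹) := by
      rw [MonoidHom.map_zpowers]
      rfl
    have e : (MulAut.conj g).toMonoidHom b = g * b * g⁻¹ := rfl
    rw [e, Cfsg.Agent.ClassTwoFusion.Quad.QData.cv_singleton, ← h1,
      Cfsg.Agent.ClassTwoFusion.Quad.QData.cv_map_conj, hc,
      ← Cfsg.Agent.ClassTwoFusion.Quad.QData.cv_singleton, hB.fix b hb hb1']

theorem mem_cv_map {B : Subgroup L} {g : L} {v : V} :
    v ∈ cv V ((B.map (MulAut.conj g).toMonoidHom : Subgroup L) : Set L) ↔ g⁻¹ • v ∈ cv V (B : Set L) := by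
  rw [Cfsg.Agent.ClassTwoFusion.Quad.QData.cv_map_conj, Subgroup.mem_map]
  constructor
  · rintro ⟨w, hw, rfl⟩
    change g⁻¹ • (g • w) ∈ _
    rw [inv_smul_smul]
    exact hw
  · intro hv
    exact ⟨g⁻¹ • v, hv, smul_inv_smul g v⟩

variable {B : Subgroup L} (hB : Mem V n B)
include hB

theorem ne_bot (hn : 2 ≤ n) : ∃ b ∈ B, b ≠ 1 := by
  apply (bot_or_exists_ne_one B).resolve_left
  rintro rfl
  have := hB.card
  rw [card_bot] at this
  omega

theorem eq_of_smul_eq {b : L} (hb : b ∈ B) (hb1 : b ≠ 1) {v : V} (hv : b • v = v) :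
    v ∈ cv V (B : Set L) := by
  rw [← hB.fix b hb hb1, mem_cv_singleton]
  exact hv

end Mem

section lines

variable [Finite L] [Finite V] (hm : Mod L V) (h : TI L) {n : ℕ} (hn : 2 ≤ n)
include hm h hn

theorem sy_eq {B : Subgroup L} (hB : Mem V n B) {x : L} (hx : x ∈ B) (hx1 : x ≠ 1)
    {Q : Sylow 2 L} (hxQ : x ∈ (Q : Subgroup L)) : Q = sy B := h.eq_sy (hm.isPGroup hB.qd) hx hx1 hxQ

theorem sy_map {B : Subgroup L} (hB : Mem V n B) (g : L) :
    sy (B.map (MulAut.conj g).toMonoidHom) = g • sy B := by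
  obtain ⟨b, hb, hb1⟩ := hB.ne_bot hn
  exact h.sy_map (hm.isPGroup hB.qd) hb hb1 g

theorem mem_sy {B : Subgroup L} (hB : Mem V n B) {x : L} (hx : x ∈ B) : x ∈ (sy B : Subgroup L) :=
  le_sy (hm.isPGroup hB.qd) hx

theorem odd_mul {A B : Subgroup L} (hA : Mem V n A) (hB : Mem V n B) (hAB : sy A ≠ sy B) {a b : L}
    (ha : a ∈ A) (ha1 : a ≠ 1) (hb : b ∈ B) (hb1 : b ≠ 1) : Odd (orderOf (b * a)) := by
  by_contra hodd
  obtain ⟨z, -, hz2, hzb, hza⟩ := exists_commuting_involution b a (hm.orderOf_eq_two hB.qd hb hb1)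
    (hm.orderOf_eq_two hA.qd ha ha1) (orderOf_pos _) hodd
  have hz1 : z ≠ 1 := fun e => by rw [e, orderOf_one] at hz2; omega
  exact hAB (h.ti _ _ z (h.mem_of_commute (mem_sy hm h hn hA ha) ha1 hz2 hza)
    (h.mem_of_commute (mem_sy hm h hn hB hb) hb1 hz2 hzb) hz1)

/-- `v ∈ C_V(B)`, `[v,a] ∈ C_V(B)` imply that `a` fixes `v`. -/
theorem claim2 {A B : Subgroup L} (hA : Mem V n A) (hB : Mem V n B) (hAB : sy A ≠ sy B) {a : L}
    (ha : a ∈ A) (ha1 : a ≠ 1) {v : V} (hv : v ∈ cv V (B : Set L)) (hd : d a v ∈ cv V (B : Set L)) :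
    a • v = v := by
  obtain ⟨b, hb, hb1⟩ := hB.ne_bot hn
  exact hm.key (hm.orderOf_eq_two hA.qd ha ha1) (odd_mul hm h hn hA hB hAB ha ha1 hb hb1) (hv b hb) (hd b hb)

omit hn in
/-- Members with the same fixed space are equal. -/
theorem eq_of_cv_eq (hn : 2 ≤ n) {A B : Subgroup L} (hA : Mem V n A) (hB : Mem V n B)
    (hAB : cv V (A : Set L) = cv V (B : Set L)) : A = B := by
  set F := cv V (A : Set L) with hF
  let K : Subgroup L :=
    { carrier := {x | (∀ v ∈ F, x • v = v) ∧ ∀ v : V, d x v ∈ F}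
      one_mem' := ⟨fun v _ => one_smul L v, fun v => by
        have : d (1 : L) v = 1 := by rw [hm.d_eq_one_iff, one_smul]
        rw [this]; exact one_mem F⟩
      mul_mem' := by
        rintro x y ⟨hx1, hx2⟩ ⟨hy1, hy2⟩
        refine ⟨fun v hv => by rw [mul_smul, hy1 v hv, hx1 v hv], fun v => ?_⟩
        have e : d (x * y) v = d y v * d x v := by
          have e1 : (x * y) • v = d y v * (d x v * v) := by
            rw [mul_smul, hm.smul_eq y v, smul_mul', hx1 _ (hy2 v), hm.smul_eq x v]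
          calc d (x * y) v = (x * y) • v * v := rfl
            _ = d y v * d x v * (v * v) := by rw [e1]; group
            _ = d y v * d x v := by rw [hm.sq, mul_one]
        rw [e]
        exact mul_mem (hy2 v) (hx2 v)
      inv_mem' := by
        rintro x ⟨hx1, hx2⟩
        have h1 : ∀ v ∈ F, x⁻¹ • v = v := fun v hv => by rw [inv_smul_eq_iff, hx1 v hv]
        refine ⟨h1, fun v => ?_⟩
        have e : d x⁻¹ v = d x v := by
          have e1 : x⁻¹ • (d x v) = d x⁻¹ v := by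
            unfold d
            rw [smul_mul', inv_smul_smul, hm.comm]
          rw [← e1, h1 _ (hx2 v)]
        rw [e]
        exact hx2 v }
  have hAK : A ≤ K := fun a ha => ⟨fun v hv => hv a ha, fun v => Mod.d_mem_cv hA.qd ha v⟩
  have hBK : B ≤ K := fun b hb => ⟨fun v hv => by rw [hAB] at hv; exact hv b hb,
    fun v => by rw [hAB]; exact Mod.d_mem_cv hB.qd hb v⟩
  have hJK : A ⊔ B ≤ K := sup_le hAK hBK
  have hcv : cv V ((A ⊔ B : Subgroup L) : Set L) = F := by rw [cv_sup, ← hAB, inf_idem]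
  have hJ : Qd V (A ⊔ B) := fun x hx y hy v => (hJK hy).1 _ ((hJK hx).2 v)
  have hJ1 : A ⊔ B ≠ ⊥ := by
    intro e
    obtain ⟨a, ha, ha1⟩ := hA.ne_bot hn
    have : a ∈ A ⊔ B := mem_sup_left ha
    rw [e, mem_bot] at this
    exact ha1 this
  have hle : Nat.card A ≤ Nat.card (A ⊔ B : Subgroup L) := Nat.card_le_card_of_injective _
    (inclusion_injective le_sup_left)
  have hoff : (cv V ((A ⊔ B : Subgroup L) : Set L)).index ≤ Nat.card (A ⊔ B : Subgroup L) := by
    rw [hcv, hF, hA.idx, ← hA.card]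
    exact hle
  have h1 := offender_mem hm h hJ hJ1 hoff
  have h2 := h1.idx
  rw [hcv, hF, hA.idx] at h2
  have h3 : A = A ⊔ B := eq_of_le_of_card_ge le_sup_left (by rw [← h2, hA.card])
  have h4 : B = A ⊔ B := eq_of_le_of_card_ge le_sup_right (by rw [← h2, hB.card])
  exact h3.trans h4.symm

omit hn in
theorem cv_eq_of_le {A B : Subgroup L} (hA : Mem V n A) (hB : Mem V n B) (hle : cv V (A : Set L) ≤ cv V (B : Set L)) :
    cv V (A : Set L) = cv V (B : Set L) := by
  have h1 := relIndex_mul_index hle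
  rw [hA.idx, hB.idx] at h1
  have hpos : 0 < n := by rw [← hA.card]; exact Nat.card_pos
  have h2 : (cv V (A : Set L)).relIndex (cv V (B : Set L)) = 1 := by
    have : (cv V (A : Set L)).relIndex (cv V (B : Set L)) * n = 1 * n := by rw [h1, one_mul]
    exact Nat.eq_of_mul_eq_mul_right hpos this
  exact le_antisymm hle (relIndex_eq_one.1 h2)

/-- the map `a ↦ [v,a]` is injective modulo the intersection of the fixed spaces -/
theorem inj {A B : Subgroup L} (hA : Mem V n A) (hB : Mem V n B) (hAB : sy A ≠ sy B) {v : V}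
    (hvB : v ∈ cv V (B : Set L)) (hvA : v ∉ cv V (A : Set L)) :
    Function.Injective (fun a : A =>
      (QuotientGroup.mk (⟨d (a : L) v, Mod.d_mem_cv hA.qd a.2 v⟩ : cv V (A : Set L)) :
        cv V (A : Set L) ⧸ ((cv V (A : Set L) ⊓ cv V (B : Set L)).subgroupOf (cv V (A : Set L))))) := by
  intro a b hab
  have h1 := QuotientGroup.eq.1 hab
  rw [mem_subgroupOf] at h1
  have h2 : d (a * b : L) v ∈ cv V (B : Set L) := by
    rw [hm.d_mul_left hA.qd a.2 b.2]
    have := h1.2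
    simpa [hm.inv_eq] using this
  by_contra hne
  have hab1 : (a * b : L) ≠ 1 := by
    intro e
    apply hne
    apply Subtype.ext
    rw [mul_eq_one_iff_eq_inv] at e
    rw [e, inv_eq_iff_mul_eq_one]
    exact hm.mul_self hA.qd b.2
  exact hvA (hA.eq_of_smul_eq (mul_mem a.2 b.2) hab1
    (claim2 hm h hn hA hB hAB (mul_mem a.2 b.2) hab1 hvB h2))

/-- two opposite members: the intersection of the fixed spaces has index `n²` -/
theorem index_inf {A B : Subgroup L} (hA : Mem V n A) (hB : Mem V n B) (hAB : sy A ≠ sy B) :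
    (cv V (A : Set L) ⊓ cv V (B : Set L)).index = n * n ∧
      (cv V (A : Set L) ⊓ cv V (B : Set L)).relIndex (cv V (A : Set L)) = n := by
  have hpos : 0 < n := by omega
  obtain ⟨v, hvB, hvA⟩ : ∃ v ∈ cv V (B : Set L), v ∉ cv V (A : Set L) := by
    by_contra hcon
    push Not at hcon
    exact hAB (congrArg sy (eq_of_cv_eq hm h hn hA hB (cv_eq_of_le hm h hB hA hcon).symm))
  have hinj := Nat.card_le_card_of_injective _ (inj hm h hn hA hB hAB hvB hvA)
  rw [hA.card] at hinj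
  have h0 : n ≤ (cv V (A : Set L) ⊓ cv V (B : Set L)).relIndex (cv V (A : Set L)) := hinj
  have h1 : (cv V (A : Set L) ⊓ cv V (B : Set L)).relIndex (cv V (A : Set L)) * (cv V (A : Set L)).index =
    (cv V (A : Set L) ⊓ cv V (B : Set L)).index := relIndex_mul_index inf_le_left
  have h2 : (cv V (A : Set L) ⊓ cv V (B : Set L)).index ≤ (cv V (A : Set L)).index * (cv V (B : Set L)).index :=
    index_inf_le
  rw [hA.idx] at h1 h2
  rw [hB.idx] at h2
  have h3 : (cv V (A : Set L) ⊓ cv V (B : Set L)).relIndex (cv V (A : Set L)) ≤ n := by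
    rw [← h1] at h2
    exact Nat.le_of_mul_le_mul_right h2 hpos
  have h4 : (cv V (A : Set L) ⊓ cv V (B : Set L)).relIndex (cv V (A : Set L)) = n := le_antisymm h3 h0
  rw [h4] at h1
  exact ⟨h1.symm, h4⟩

/-- the fixed spaces of the members `A`, `B^a` (`a ∈ A`) cover `V` -/
theorem cover {A B : Subgroup L} (hA : Mem V n A) (hB : Mem V n B) (hAB : sy A ≠ sy B) (v : V) :
    v ∈ cv V (A : Set L) ∨ ∃ a ∈ A, a⁻¹ • v ∈ cv V (B : Set L) := by
  by_cases hv : v ∈ cv V (A : Set L)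
  · exact Or.inl hv
  right
  have hpos : 0 < n := by omega
  obtain ⟨hi, hr⟩ := index_inf hm h hn hA hB hAB
  have hnorm : (cv V (A : Set L)).Normal := ⟨fun x hx g => by
    rw [hm.comm g x, mul_inv_cancel_right]; exact hx⟩
  -- `V = C_V(A) C_V(B)`
  have htop : cv V (A : Set L) ⊔ cv V (B : Set L) = ⊤ := by
    have h1 : (cv V (A : Set L)).relIndex (cv V (B : Set L)) = n := by
      have h2 : (cv V (A : Set L) ⊓ cv V (B : Set L)).relIndex (cv V (B : Set L)) * (cv V (B : Set L)).index =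
        (cv V (A : Set L) ⊓ cv V (B : Set L)).index := relIndex_mul_index inf_le_right
      rw [hi, hB.idx, inf_relIndex_right] at h2
      exact Nat.eq_of_mul_eq_mul_right hpos h2
    have h2 : (cv V (A : Set L)).relIndex (cv V (A : Set L) ⊔ cv V (B : Set L)) = n := by
      rw [sup_comm, relIndex_sup_right, h1]
    have h3 := relIndex_mul_index (le_sup_left : cv V (A : Set L) ≤ cv V (A : Set L) ⊔ cv V (B : Set L))
    rw [h2, hA.idx] at h3
    have h4 : (cv V (A : Set L) ⊔ cv V (B : Set L)).index = 1 := by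
      have : n * (cv V (A : Set L) ⊔ cv V (B : Set L)).index = n * 1 := by rw [h3, mul_one]
      exact Nat.eq_of_mul_eq_mul_left hpos this
    exact index_eq_one.1 h4
  have hvt : v ∈ cv V (B : Set L) ⊔ cv V (A : Set L) := by rw [sup_comm, htop]; trivial
  obtain ⟨w, hw, u, hu, huw⟩ := mem_sup_of_normal_right.1 hvt
  have hwA : w ∉ cv V (A : Set L) := by
    intro hwA
    exact hv (by rw [← huw]; exact mul_mem hwA hu)
  have hinj := inj hm h hn hA hB hAB hw hwA
  have hbij : Function.Bijective (fun a : A =>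
      (QuotientGroup.mk (⟨d (a : L) w, Mod.d_mem_cv hA.qd a.2 w⟩ : cv V (A : Set L)) :
        cv V (A : Set L) ⧸ ((cv V (A : Set L) ⊓ cv V (B : Set L)).subgroupOf (cv V (A : Set L))))) := by
    rw [Nat.bijective_iff_injective_and_card]
    refine ⟨hinj, ?_⟩
    rw [hA.card]
    exact hr.symm
  obtain ⟨a, ha⟩ := hbij.2 (QuotientGroup.mk ⟨u, hu⟩)
  have h1 := QuotientGroup.eq.1 ha
  rw [mem_subgroupOf] at h1
  have h2 : d (a : L) w * u ∈ cv V (B : Set L) := by
    have := h1.2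
    simpa [hm.inv_eq] using this
  have h3 : d (a : L) w * u ∈ cv V (A : Set L) := mul_mem (Mod.d_mem_cv hA.qd a.2 w) hu
  refine ⟨a, a.2, ?_⟩
  have e : (a : L) • (w * (d (a : L) w * u)) = v := by
    rw [smul_mul', h3 a a.2, hm.smul_eq, ← huw, hm.comm (d (a : L) w) w, mul_assoc w,
      ← mul_assoc (d (a : L) w), hm.sq, one_mul]
  rw [← e, inv_smul_smul]
  exact mul_mem hw h2

/-- the line through `A` and `B` -/
def InLine (A B D : Subgroup L) : Prop := D = A ∨ ∃ a ∈ A, D = B.map (MulAut.conj a).toMonoidHom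

omit [Finite V] [Finite L] hm h hn in
theorem inLine_mem {A B D : Subgroup L} (hA : Mem V n A) (hB : Mem V n B) (hD : InLine A B D) :
    Mem V n D ∧ cv V (A : Set L) ⊓ cv V (B : Set L) ≤ cv V (D : Set L) := by
  rcases hD with rfl | ⟨a, ha, rfl⟩
  · exact ⟨hA, inf_le_left⟩
  · refine ⟨hB.map a, fun v hv => ?_⟩
    rw [Mem.mem_cv_map]
    have : a⁻¹ • v = v := hv.1 _ (inv_mem ha)
    rw [this]
    exact hv.2

theorem inLine_sy {A B D D' : Subgroup L} (hA : Mem V n A) (hB : Mem V n B) (hAB : sy A ≠ sy B)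
    (hD : InLine A B D) (hD' : InLine A B D') (hs : sy D = sy D') : D = D' := by
  have key : ∀ a ∈ A, a • sy B ≠ sy A := by
    intro a ha e
    apply hAB
    have h1 : a⁻¹ • sy A = sy A :=
      Sylow.smul_eq_iff_mem_normalizer.2 (le_normalizer (inv_mem (mem_sy hm h hn hA ha)))
    rw [← h1, ← e, inv_smul_smul]
  rcases hD with rfl | ⟨a, ha, rfl⟩
  · rcases hD' with rfl | ⟨b, hb, rfl⟩
    · rfl
    · rw [sy_map hm h hn hB] at hs
      exact absurd hs.symm (key b hb)
  · rcases hD' with rfl | ⟨b, hb, rfl⟩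
    · rw [sy_map hm h hn hB] at hs
      exact absurd hs (key a ha)
    · rw [sy_map hm h hn hB, sy_map hm h hn hB] at hs
      have h1 : (b⁻¹ * a) • sy B = sy B := by rw [mul_smul, hs, inv_smul_smul]
      have h2 : b⁻¹ * a = 1 := h.eq_one_of_smul_eq hAB
        (mem_sy hm h hn hA (mul_mem (inv_mem hb) ha)) h1
      have h3 : a = b := by rw [inv_mul_eq_one] at h2; exact h2.symm
      rw [h3]

end lines

end Cfsg.Agent.H305.FF
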