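import Mathlib
import Cfsg.Agent.H305.FFLine

/-!
# Quadratic offenders in groups with TI Sylow 2-subgroups, III

`main`: a quadratic offender is a Sylow 2-subgroup.
-/

set_option autoImplicit false

namespace Cfsg.Agent.H305.FF

open Subgroup Cfsg.Agent.TwoFusion.StronglyEmbeddedBasic
open Cfsg.Agent.ClassTwoFusion.Quad (cv mem_cv mem_cv_singleton cv_anti d cv_sup mem_smul_sylow
  coe_smul_sylow)
open scoped Pointwise

variable {L V : Type*} [Group L] [Group V] [MulDistribMulAction L V]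

/-- the intersection of the fixed spaces of two opposite members -/
def IsLine (V : Type*) [Group V] [MulDistribMulAction L V] (n : ℕ) (U : Subgroup V) (A B : Subgroup L) : Prop :=
  Mem V n A ∧ Mem V n B ∧ sy A ≠ sy B ∧ U = cv V (A : Set L) ⊓ cv V (B : Set L)

section

variable [Finite L] [Finite V] (hm : Mod L V) (h : TI L) {n : ℕ} (hn : 2 ≤ n)
include hm h hn

omit h in
theorem eq_of_le_of_index {U U' : Subgroup V} (hle : U ≤ U') (h1 : U.index = U'.index) : U = U' := by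
  have h2 := relIndex_mul_index hle
  have hpos : 0 < U'.index := Nat.pos_of_ne_zero index_ne_zero_of_finite
  rw [h1] at h2
  have h3 : U.relIndex U' = 1 := by
    have : U.relIndex U' * U'.index = 1 * U'.index := by rw [h2, one_mul]
    exact Nat.eq_of_mul_eq_mul_right hpos this
  exact le_antisymm hle (relIndex_eq_one.1 h3)

theorem line_index {U : Subgroup V} {A B : Subgroup L} (hU : IsLine V n U A B) : U.index = n * n := by
  obtain ⟨hA, hB, hAB, rfl⟩ := hU
  exact (index_inf hm h hn hA hB hAB).1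

/-- a member whose fixed space contains `U` is one of the members of the explicit line -/
theorem mem_line {U : Subgroup V} {A B : Subgroup L} (hU : IsLine V n U A B) {D : Subgroup L}
    (hD : Mem V n D) (hUD : U ≤ cv V (D : Set L)) : InLine A B D := by
  have hidx := line_index hm h hn hU
  obtain ⟨hA, hB, hAB, hUe⟩ := hU
  -- every vector of `C_V(D)` outside `U` is fixed by a member of the line in the same Sylow
  have key : ∀ v ∈ cv V (D : Set L), v ∉ U → ∃ E, InLine A B E ∧ v ∈ cv V (E : Set L) ∧ sy D = sy E := by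
    intro v hv hvU
    obtain ⟨E, hE, hvE⟩ : ∃ E, InLine A B E ∧ v ∈ cv V (E : Set L) := by
      rcases cover hm h hn hA hB hAB v with h1 | ⟨a, ha, h1⟩
      · exact ⟨A, Or.inl rfl, h1⟩
      · exact ⟨_, Or.inr ⟨a, ha, rfl⟩, Mem.mem_cv_map.2 h1⟩
    refine ⟨E, hE, hvE, ?_⟩
    by_contra hne
    obtain ⟨hEm, hUE⟩ := inLine_mem hA hB hE
    rw [← hUe] at hUE
    have h1 : U = cv V (D : Set L) ⊓ cv V (E : Set L) :=
      eq_of_le_of_index hm hn (le_inf hUD hUE) (by rw [hidx, (index_inf hm h hn hD hEm hne).1])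
    exact hvU (by rw [h1]; exact ⟨hv, hvE⟩)
  obtain ⟨v₀, hv₀, hv₀U⟩ : ∃ v ∈ cv V (D : Set L), v ∉ U := by
    by_contra hcon
    push Not at hcon
    have h1 : U = cv V (D : Set L) := le_antisymm hUD hcon
    have h2 : n * n = n := by rw [← hidx, h1, hD.idx]
    have h3 : n = 1 := by
      have : n * n = n * 1 := by rw [h2, mul_one]
      exact Nat.eq_of_mul_eq_mul_left (by omega) this
    omega
  obtain ⟨E, hE, -, hsE⟩ := key v₀ hv₀ hv₀U
  obtain ⟨hEm, hUE⟩ := inLine_mem hA hB hE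
  rw [← hUe] at hUE
  have hle : cv V (D : Set L) ≤ cv V (E : Set L) := by
    intro v hv
    by_cases hvU : v ∈ U
    · exact hUE hvU
    · obtain ⟨E', hE', hvE', hs'⟩ := key v hv hvU
      rwa [inLine_sy hm h hn hA hB hAB hE hE' (hsE.symm.trans hs')]
  rw [eq_of_cv_eq hm h hn hD hEm (cv_eq_of_le hm h hD hEm hle)]
  exact hE

theorem line_two {U : Subgroup V} {A B : Subgroup L} (hU : IsLine V n U A B) {D D' : Subgroup L}
    (hD : Mem V n D) (hUD : U ≤ cv V (D : Set L)) (hD' : Mem V n D') (hUD' : U ≤ cv V (D' : Set L))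
    (hne : D ≠ D') : sy D ≠ sy D' ∧ cv V (D : Set L) ⊓ cv V (D' : Set L) = U := by
  have hidx := line_index hm h hn hU
  have h1 := mem_line hm h hn hU hD hUD
  have h2 := mem_line hm h hn hU hD' hUD'
  obtain ⟨hA, hB, hAB, hUe⟩ := hU
  have h3 : sy D ≠ sy D' := fun e => hne (inLine_sy hm h hn hA hB hAB h1 h2 e)
  exact ⟨h3, (eq_of_le_of_index hm hn (le_inf hUD hUD')
    (by rw [hidx, (index_inf hm h hn hD hD' h3).1])).symm⟩

theorem line_cover {U : Subgroup V} {A B : Subgroup L} (hU : IsLine V n U A B) (v : V) :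
    ∃ D : Subgroup L, Mem V n D ∧ U ≤ cv V (D : Set L) ∧ v ∈ cv V (D : Set L) := by
  obtain ⟨hA, hB, hAB, hUe⟩ := hU
  obtain ⟨E, hE, hvE⟩ : ∃ E, InLine A B E ∧ v ∈ cv V (E : Set L) := by
    rcases cover hm h hn hA hB hAB v with h1 | ⟨a, ha, h1⟩
    · exact ⟨A, Or.inl rfl, h1⟩
    · exact ⟨_, Or.inr ⟨a, ha, rfl⟩, Mem.mem_cv_map.2 h1⟩
  obtain ⟨hEm, hUE⟩ := inLine_mem hA hB hE
  exact ⟨E, hEm, by rw [hUe]; exact hUE, hvE⟩

omit hm h hn [Finite L] [Finite V] in
theorem line_other {U : Subgroup V} {A B : Subgroup L} (hU : IsLine V n U A B) (P : Sylow 2 L) :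
    ∃ D : Subgroup L, Mem V n D ∧ U ≤ cv V (D : Set L) ∧ sy D ≠ P := by
  obtain ⟨hA, hB, hAB, hUe⟩ := hU
  by_cases h1 : sy A = P
  · exact ⟨B, hB, by rw [hUe]; exact inf_le_right, fun e => hAB (h1.trans e.symm)⟩
  · exact ⟨A, hA, by rw [hUe]; exact inf_le_left, h1⟩

/-- image of a line -/
theorem line_map {U : Subgroup V} {A B : Subgroup L} (hU : IsLine V n U A B) (g : L) :
    IsLine V n (U.map (MulDistribMulAction.toMulEquiv V g).toMonoidHom)
      (A.map (MulAut.conj g).toMonoidHom) (B.map (MulAut.conj g).toMonoidHom) := by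
  obtain ⟨hA, hB, hAB, hUe⟩ := hU
  refine ⟨hA.map g, hB.map g, ?_, ?_⟩
  · rw [sy_map hm h hn hA, sy_map hm h hn hB]
    exact fun e => hAB (smul_left_cancel g e)
  · rw [Cfsg.Agent.ClassTwoFusion.Quad.QData.cv_map_conj, Cfsg.Agent.ClassTwoFusion.Quad.QData.cv_map_conj,
      hUe]
    exact Subgroup.map_inf _ _ (MulDistribMulAction.toMulEquiv V g).toMonoidHom
      (MulDistribMulAction.toMulEquiv V g).injective

omit hm h hn [Finite L] [Finite V] in
theorem mem_map_toMulEquiv {U : Subgroup V} {g : L} {v : V} :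
    v ∈ U.map (MulDistribMulAction.toMulEquiv V g).toMonoidHom ↔ g⁻¹ • v ∈ U := by
  constructor
  · rintro ⟨w, hw, rfl⟩
    change g⁻¹ • (g • w) ∈ _
    rw [inv_smul_smul]
    exact hw
  · intro hv
    exact ⟨g⁻¹ • v, hv, smul_inv_smul g v⟩

/-- Two lines with a common member are equal. -/
theorem line_eq {U₁ U₂ : Subgroup V} {A₁ B₁ A₂ B₂ : Subgroup L} (hU₁ : IsLine V n U₁ A₁ B₁)
    (hU₂ : IsLine V n U₂ A₂ B₂) {D : Subgroup L} (hD : Mem V n D) (h1 : U₁ ≤ cv V (D : Set L))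
    (h2 : U₂ ≤ cv V (D : Set L)) : U₁ = U₂ := by
  classical
  have hpos : 0 < n := by omega
  by_contra hne0
  -- choose a pair with maximal intersection
  let S : Set ℕ := {k | ∃ (U U' : Subgroup V) (A B A' B' D : Subgroup L), IsLine V n U A B ∧
    IsLine V n U' A' B' ∧ Mem V n D ∧ U ≤ cv V (D : Set L) ∧ U' ≤ cv V (D : Set L) ∧ U ≠ U' ∧
    k = Nat.card (U ⊓ U' : Subgroup V)}
  have hSne : S.Nonempty := ⟨_, U₁, U₂, A₁, B₁, A₂, B₂, D, hU₁, hU₂, hD, h1, h2, hne0, rfl⟩
  have hSbdd : BddAbove S := by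
    refine ⟨Nat.card V, ?_⟩
    rintro k ⟨U, U', A, B, A', B', D, -, -, -, -, -, -, rfl⟩
    exact Nat.card_le_card_of_injective _ (Subgroup.subtype_injective _)
  have hmax := Nat.sSup_mem hSne hSbdd
  obtain ⟨U, U', A, B, A', B', D, hU, hU', hD, hUD, hUD', hne, hk⟩ := hmax
  clear hU₁ hU₂ h1 h2 hne0
  have hmax' : ∀ (X X' : Subgroup V) (A B A' B' D : Subgroup L), IsLine V n X A B →
      IsLine V n X' A' B' → Mem V n D → X ≤ cv V (D : Set L) → X' ≤ cv V (D : Set L) → X ≠ X' →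
      Nat.card (X ⊓ X' : Subgroup V) ≤ Nat.card (U ⊓ U' : Subgroup V) := by
    intro X X' A B A' B' D a1 a2 a3 a4 a5 a6
    rw [← hk]
    exact le_csSup hSbdd ⟨X, X', A, B, A', B', D, a1, a2, a3, a4, a5, a6, rfl⟩
  clear_value S
  set W : Subgroup V := U ⊓ U' with hW
  -- (a)
  have ha : ∀ (X : Subgroup V) (A B C : Subgroup L), IsLine V n X A B → W ≤ X → Mem V n C →
      W ≤ cv V (C : Set L) → ¬ X ≤ cv V (C : Set L) → X ⊓ cv V (C : Set L) = W := by
    intro X A B C hX hWX hC hWC hXC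
    obtain ⟨E, hE, hXE, hsE⟩ := line_other hX (sy C)
    have hY : IsLine V n (cv V (E : Set L) ⊓ cv V (C : Set L)) E C := ⟨hE, hC, hsE, rfl⟩
    have hXY : X ≠ cv V (E : Set L) ⊓ cv V (C : Set L) := fun e => hXC (by rw [e]; exact inf_le_right)
    have h1 := hmax' _ _ _ _ _ _ E hX hY hE hXE inf_le_left hXY
    have h2 : W ≤ X ⊓ (cv V (E : Set L) ⊓ cv V (C : Set L)) :=
      le_inf hWX (le_inf (hWX.trans hXE) hWC)
    have h3 : W = X ⊓ (cv V (E : Set L) ⊓ cv V (C : Set L)) := eq_of_le_of_card_ge h2 h1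
    rw [h3, ← inf_assoc, inf_eq_left.2 hXE]
  -- (b)
  have hb : ∀ (X Y : Subgroup V) (A B A' B' : Subgroup L), IsLine V n X A B → IsLine V n Y A' B' →
      W ≤ X → W ≤ Y → ∃ C : Subgroup L, Mem V n C ∧ X ≤ cv V (C : Set L) ∧ Y ≤ cv V (C : Set L) := by
    intro X Y A₃ B₃ A₄ B₄ hX hY hWX hWY
    by_contra hcon
    push Not at hcon
    have h1 : X ≤ W := by
      intro x hx
      obtain ⟨C, hC, hYC, hxC⟩ := line_cover hm h hn hY x
      have h2 : ¬ X ≤ cv V (C : Set L) := fun h3 => hcon C hC h3 hYC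
      rw [← ha X _ _ C hX hWX hC (hWY.trans hYC) h2]
      exact ⟨hx, hxC⟩
    have h2 : W = X := le_antisymm hWX h1
    have h3 : W ≤ U := inf_le_left
    have h4 : U.index = W.index := by rw [h2, line_index hm h hn hX, line_index hm h hn hU]
    have h5 : W = U := eq_of_le_of_index hm hn h3 h4.symm
    have h6 : W = U' := eq_of_le_of_index hm hn inf_le_right
      (by rw [h2, line_index hm h hn hX, line_index hm h hn hU'])
    exact hne (h5.symm.trans h6)
  -- (d)
  have hd : ∀ (X : Subgroup V) (A B C : Subgroup L), IsLine V n X A B → W ≤ X → Mem V n C →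
      W ≤ cv V (C : Set L) → ∃ E : Subgroup L, Mem V n E ∧ X ≤ cv V (E : Set L) ∧ sy E = sy C := by
    intro X A₃ B₃ C hX hWX hC hWC
    obtain ⟨a, haC, ha1⟩ := hC.ne_bot hn
    have ha2 := hm.orderOf_eq_two hC.qd haC ha1
    have haa : a * a = 1 := hm.mul_self hC.qd haC
    have hai : a⁻¹ = a := inv_eq_of_mul_eq_one_right haa
    set aX := X.map (MulDistribMulAction.toMulEquiv V a).toMonoidHom with haX
    have hXa : IsLine V n aX _ _ := line_map hm h hn hX a
    have hWaX : W ≤ aX := by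
      intro v hv
      rw [haX, mem_map_toMulEquiv, hWC hv a⁻¹ (inv_mem haC)]
      exact hWX hv
    -- it suffices to find a member normalised by `a`
    suffices hs : ∃ E : Subgroup L, Mem V n E ∧ X ≤ cv V (E : Set L) ∧ E.map (MulAut.conj a).toMonoidHom = E by
      obtain ⟨E, hE, hXE, haE⟩ := hs
      refine ⟨E, hE, hXE, ?_⟩
      have h1 : a • sy E = sy E := by rw [← sy_map hm h hn hE, haE]
      by_contra hne'
      exact ha1 (h.eq_one_of_smul_eq (fun e => hne' e.symm) (mem_sy hm h hn hC haC) h1)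
    -- a member `E` of both `X` and `aX` gives `a E` in both
    have hswap : ∀ E : Subgroup L, X ≤ cv V (E : Set L) → aX ≤ cv V (E : Set L) →
        X ≤ cv V ((E.map (MulAut.conj a).toMonoidHom : Subgroup L) : Set L) ∧
        aX ≤ cv V ((E.map (MulAut.conj a).toMonoidHom : Subgroup L) : Set L) := by
      intro E hE1 hE2
      constructor
      · intro v hv
        rw [Mem.mem_cv_map]
        apply hE2
        rw [haX, mem_map_toMulEquiv, smul_smul, hai, haa, one_smul]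
        exact hv
      · intro v hv
        rw [Mem.mem_cv_map]
        apply hE1
        rwa [haX, mem_map_toMulEquiv] at hv
    by_cases hXX : aX = X
    · -- a vector outside `X` fixed modulo `X`
      obtain ⟨v, hvX, hdv⟩ : ∃ v, v ∉ X ∧ d a v ∈ X := by
        by_cases hall : ∀ w : V, d a w ∈ X
        · obtain ⟨v, hv⟩ : ∃ v, v ∉ X := by
            by_contra hcon
            push Not at hcon
            have h1 : X = ⊤ := eq_top_iff.2 (fun v _ => hcon v)
            have h2 := line_index hm h hn hX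
            rw [h1, index_top] at h2
            have : n ≤ n * n := Nat.le_mul_self n
            omega
          exact ⟨v, hv, hall v⟩
        · push Not at hall
          obtain ⟨w, hw⟩ := hall
          refine ⟨d a w, hw, ?_⟩
          have : d a (d a w) = 1 := by rw [hm.d_eq_one_iff]; exact hm.d_self ha2 w
          rw [this]; exact one_mem X
      obtain ⟨E, hE, hXE, hvE⟩ := line_cover hm h hn hX v
      refine ⟨E, hE, hXE, ?_⟩
      by_contra hne'
      obtain ⟨h1, -⟩ := hswap E hXE (by rw [hXX]; exact hXE)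
      have h2 := (line_two hm h hn hX hE hXE (hE.map a) h1 (fun e => hne' e.symm)).2
      have h3 : a • v ∈ X := by
        rw [← h2]
        constructor
        · rw [hm.smul_eq a v]
          exact mul_mem (hXE hdv) hvE
        · refine Mem.mem_cv_map.2 ?_
          rw [inv_smul_smul]
          exact hvE
      apply hvX
      rw [← hXX, haX, mem_map_toMulEquiv, hai]
      exact h3
    · obtain ⟨E, hE, hXE, haXE⟩ := hb X aX _ _ _ _ hX hXa hWX hWaX
      refine ⟨E, hE, hXE, ?_⟩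
      by_contra hne'
      obtain ⟨h1, h1'⟩ := hswap E hXE haXE
      have h2 := (line_two hm h hn hX hE hXE (hE.map a) h1 (fun e => hne' e.symm)).2
      have h3 := (line_two hm h hn hXa hE haXE (hE.map a) h1' (fun e => hne' e.symm)).2
      exact hXX (h3.symm.trans h2)
  -- (c): the line `U` as a line through `D`
  have hWU : W ≤ U := inf_le_left
  have hWU' : W ≤ U' := inf_le_right
  obtain ⟨B₅, hB₅, hUB₅, hsB₅⟩ := line_other hU (sy D)
  have hDB : IsLine V n U D B₅ := ⟨hD, hB₅, fun e => hsB₅ e.symm,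
    ((line_two hm h hn hU hD hUD hB₅ hUB₅ (fun e => hsB₅ (by rw [e]))).2).symm⟩
  -- `B₆`: a member of `U'`, opposite to `D` and to `B₅`
  obtain ⟨B₇, hB₇, hUB₇, hsB₇⟩ := line_other hU' (sy D)
  have hDB7 : IsLine V n U' D B₇ := ⟨hD, hB₇, fun e => hsB₇ e.symm,
    ((line_two hm h hn hU' hD hUD' hB₇ hUB₇ (fun e => hsB₇ (by rw [e]))).2).symm⟩
  obtain ⟨B₆, hB₆, hUB₆, hsB₆, hsB₆'⟩ : ∃ B₆ : Subgroup L, Mem V n B₆ ∧ U' ≤ cv V (B₆ : Set L) ∧ sy B₆ ≠ sy D ∧
      sy B₆ ≠ sy B₅ := by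
    by_cases h1 : sy B₇ = sy B₅
    · obtain ⟨a, haD, ha1⟩ := hD.ne_bot hn
      have h2 : InLine D B₇ (B₇.map (MulAut.conj a).toMonoidHom) := Or.inr ⟨a, haD, rfl⟩
      obtain ⟨h3, h4⟩ := inLine_mem hD hB₇ h2
      have h5 : a • sy B₇ ≠ sy B₇ := fun e =>
        ha1 (h.eq_one_of_smul_eq (fun e' => hsB₇ e'.symm) (mem_sy hm h hn hD haD) e)
      refine ⟨_, h3, ?_, ?_, ?_⟩
      · rw [hDB7.2.2.2]; exact h4
      · rw [sy_map hm h hn hB₇]
        intro e
        apply hsB₇
        have h6 : a⁻¹ • sy D = sy D :=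
          Sylow.smul_eq_iff_mem_normalizer.2 (le_normalizer (inv_mem (mem_sy hm h hn hD haD)))
        rw [← h6, ← e, inv_smul_smul]
      · rw [sy_map hm h hn hB₇, ← h1]
        exact h5
    · exact ⟨B₇, hB₇, hUB₇, hsB₇, h1⟩
  set X : Subgroup V := cv V (B₅ : Set L) ⊓ cv V (B₆ : Set L) with hX
  have hXl : IsLine V n X B₅ B₆ := ⟨hB₅, hB₆, fun e => hsB₆' e.symm, rfl⟩
  have hWX : W ≤ X := le_inf (hWU.trans hUB₅) (hWU'.trans hUB₆)
  have hXD : ¬ X ≤ cv V (D : Set L) := by
    intro hXD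
    have h1 : cv V (D : Set L) ⊓ cv V (B₅ : Set L) = X :=
      (line_two hm h hn hXl hD hXD hB₅ inf_le_left (fun e => hsB₅ (by rw [e]))).2
    have h2 : cv V (D : Set L) ⊓ cv V (B₆ : Set L) = X :=
      (line_two hm h hn hXl hD hXD hB₆ inf_le_right (fun e => hsB₆ (by rw [e]))).2
    have h3 : cv V (D : Set L) ⊓ cv V (B₆ : Set L) = U' :=
      (line_two hm h hn hU' hD hUD' hB₆ hUB₆ (fun e => hsB₆ (by rw [e]))).2
    apply hne
    rw [hDB.2.2.2, h1, ← h2, h3]
  -- a member of `X` in the Sylow subgroup of `D`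
  obtain ⟨C, hC, hXC, hsC⟩ := hd X _ _ D hXl hWX hD (hWU.trans hUD)
  have hCD : C ≠ D := fun e => hXD (by rw [← e]; exact hXC)
  apply hCD
  refine (eq_of_le_of_card_ge ?_ (by rw [hC.card, hD.card]) : C = D)
  intro c hc
  -- the Sylow `c P₅ c⁻¹`
  have hcB : Mem V n (B₅.map (MulAut.conj c).toMonoidHom) := hB₅.map c
  have hWcB : W ≤ cv V ((B₅.map (MulAut.conj c).toMonoidHom : Subgroup L) : Set L) := by
    intro v hv
    rw [Mem.mem_cv_map, (hWX.trans hXC) hv c⁻¹ (inv_mem hc)]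
    exact (hWU.trans hUB₅) hv
  obtain ⟨E, hE, hUE, hsE⟩ := hd U _ _ _ hDB hWU hcB hWcB
  rw [sy_map hm h hn hB₅] at hsE
  have hcP : c ∈ (sy D : Subgroup L) := by rw [← hsC]; exact mem_sy hm h hn hC hc
  rcases mem_line hm h hn hDB hE hUE with rfl | ⟨a, haD, rfl⟩
  · exfalso
    apply hsB₅
    have h6 : c⁻¹ • sy E = sy E :=
      Sylow.smul_eq_iff_mem_normalizer.2 (le_normalizer (inv_mem hcP))
    rw [← h6, hsE, inv_smul_smul]
  · rw [sy_map hm h hn hB₅] at hsE
    have h1 : (a⁻¹ * c) • sy B₅ = sy B₅ := by rw [mul_smul, ← hsE, inv_smul_smul]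
    have h2 : a⁻¹ * c = 1 := h.eq_one_of_smul_eq (fun e => hsB₅ e.symm)
      (mul_mem (inv_mem (mem_sy hm h hn hD haD)) hcP) h1
    have h3 : a = c := by rwa [inv_mul_eq_one] at h2
    rw [← h3]
    exact haD

end

/-- Conclusion of the theorem on offenders. -/
structure Concl (V : Type*) [Group V] [MulDistribMulAction L V] (P : Sylow 2 L) : Prop where
  qd : Qd V (P : Subgroup L)
  idx : (cv V ((P : Subgroup L) : Set L)).index = Nat.card P
  fix : ∀ a ∈ (P : Subgroup L), a ≠ 1 → ∀ v : V, a • v = v → v ∈ cv V ((P : Subgroup L) : Set L)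
  sylow : ∀ P' : Sylow 2 L, P' ≠ P → ∀ R : Sylow 2 L, R = P ∨ ∃ a ∈ (P : Subgroup L), R = a • P'
  idx2 : ∀ P' : Sylow 2 L, P' ≠ P →
    (cv V ((P : Subgroup L) : Set L) ⊓ cv V ((P' : Subgroup L) : Set L)).index = Nat.card P * Nat.card P
  opp : ∀ a ∈ (P : Subgroup L), a ≠ 1 → ∀ v : V,
    (∀ R : Sylow 2 L, R ≠ P → d a v ∈ cv V ((R : Subgroup L) : Set L)) → a • v = v

/-- **Main theorem**: a quadratic offender is a Sylow 2-subgroup. -/
theorem main [Finite L] [Finite V] (hm : Mod L V) (h : TI L) {A : Subgroup L} (hA : Qd V A) (hA1 : A ≠ ⊥)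
    (hoff : (cv V (A : Set L)).index ≤ Nat.card A) {P : Sylow 2 L} (hAP : A ≤ P) :
    A = P ∧ Concl V P := by
  have hAm := offender_mem hm h hA hA1 hoff
  set n := Nat.card A with hn_def
  have hn : 2 ≤ n := by
    have := (one_lt_card_iff_ne_bot A).2 hA1
    omega
  obtain ⟨a₀, ha₀, ha₀1⟩ := hAm.ne_bot hn
  have hsA : sy A = P := (sy_eq hm h hn hAm ha₀ ha₀1 (hAP ha₀)).symm
  -- every Sylow subgroup contains a member
  have hex : ∀ R : Sylow 2 L, ∃ B : Subgroup L, Mem V n B ∧ sy B = R := by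
    intro R
    obtain ⟨g, rfl⟩ := MulAction.exists_smul_eq L (sy A) R
    exact ⟨_, hAm.map g, sy_map hm h hn hAm g⟩
  -- all members are on every line through `A`
  have hall : ∀ B C : Subgroup L, Mem V n B → Mem V n C → sy B ≠ sy A →
      cv V (A : Set L) ⊓ cv V (B : Set L) ≤ cv V (C : Set L) := by
    intro B C hB hC hBA
    have hl : IsLine V n (cv V (A : Set L) ⊓ cv V (B : Set L)) A B := ⟨hAm, hB, fun e => hBA e.symm, rfl⟩
    by_cases h1 : sy C = sy A
    · have hl' : IsLine V n (cv V (C : Set L) ⊓ cv V (B : Set L)) C B :=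
        ⟨hC, hB, fun e => hBA (e.symm.trans h1), rfl⟩
      rw [line_eq hm h hn hl hl' hB inf_le_right inf_le_right]
      exact inf_le_left
    · have hl' : IsLine V n (cv V (A : Set L) ⊓ cv V (C : Set L)) A C :=
        ⟨hAm, hC, fun e => h1 e.symm, rfl⟩
      rw [line_eq hm h hn hl hl' hAm inf_le_left inf_le_left]
      exact inf_le_right
  have hPA : ∀ x ∈ (P : Subgroup L), x ∈ A := by
    intro x hx
    obtain ⟨P', hP'⟩ : ∃ P' : Sylow 2 L, P' ≠ P := by
      obtain ⟨Q, Q', hQ⟩ := h.two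
      by_cases h1 : Q = P
      · exact ⟨Q', fun e => hQ (h1.trans e.symm)⟩
      · exact ⟨Q, h1⟩
    obtain ⟨B, hB, hsB⟩ := hex P'
    have hBA : sy B ≠ sy A := by rw [hsB, hsA]; exact hP'
    have hl : IsLine V n (cv V (A : Set L) ⊓ cv V (B : Set L)) A B := ⟨hAm, hB, fun e => hBA e.symm, rfl⟩
    have h2 := mem_line hm h hn hl (hB.map x) (hall B _ hB (hB.map x) hBA)
    rcases h2 with h2 | ⟨a, ha, h2⟩
    · exfalso
      have h3 : x • sy B = sy A := by rw [← sy_map hm h hn hB, h2]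
      apply hBA
      have h4 : x⁻¹ • sy A = sy A :=
        Sylow.smul_eq_iff_mem_normalizer.2 (le_normalizer (inv_mem (by rw [hsA]; exact hx)))
      rw [← h4, ← h3, inv_smul_smul]
    · have h3 : x • sy B = a • sy B := by rw [← sy_map hm h hn hB, h2, sy_map hm h hn hB]
      have h4 : (a⁻¹ * x) • sy B = sy B := by rw [mul_smul, h3, inv_smul_smul]
      have h5 : a⁻¹ * x = 1 := h.eq_one_of_smul_eq (fun e => hBA e.symm)
        (mul_mem (inv_mem (mem_sy hm h hn hAm ha)) (by rw [hsA]; exact hx)) h4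
      have h6 : a = x := by rwa [inv_mul_eq_one] at h5
      rw [← h6]; exact ha
  have hAeq : A = P := le_antisymm hAP hPA
  -- every Sylow subgroup is a member
  have hsyl : ∀ B : Subgroup L, Mem V n B → B = (sy B : Subgroup L) := by
    intro B hB
    obtain ⟨g, hg⟩ := MulAction.exists_smul_eq L (sy B) P
    refine eq_of_le_of_card_ge (fun x hx => mem_sy hm h hn hB hx) ?_
    rw [hB.card, hn_def, hAeq, ← hg]
    exact (Nat.card_congr ((sy B).equivSMul g).toEquiv).le
  have hPm : Mem V n (P : Subgroup L) := by rw [← hAeq]; exact hAm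
  have hsyP : ∀ R : Sylow 2 L, Mem V n (R : Subgroup L) ∧ sy (R : Subgroup L) = R := by
    intro R
    obtain ⟨B, hB, hsB⟩ := hex R
    have h1 := hsyl B hB
    rw [hsB] at h1
    rw [← h1]
    exact ⟨hB, hsB⟩
  have hcardP : Nat.card P = n := hPm.card
  have hsyl2 : ∀ P' : Sylow 2 L, P' ≠ P → ∀ R : Sylow 2 L, R = P ∨ ∃ a ∈ (P : Subgroup L), R = a • P' := by
    intro P' hP' R
    have hBA : sy (P' : Subgroup L) ≠ sy A := by rw [(hsyP P').2, hsA]; exact hP'
    have hl : IsLine V n (cv V (A : Set L) ⊓ cv V ((P' : Subgroup L) : Set L)) A P' :=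
      ⟨hAm, (hsyP P').1, fun e => hBA e.symm, rfl⟩
    rcases mem_line hm h hn hl (hsyP R).1 (hall _ _ (hsyP P').1 (hsyP R).1 hBA) with h1 | ⟨a, ha, h1⟩
    · left
      rw [← (hsyP R).2, h1, hsA]
    · right
      refine ⟨a, by rw [← hAeq]; exact ha, ?_⟩
      rw [← (hsyP R).2, h1, sy_map hm h hn (hsyP P').1, (hsyP P').2]
  refine ⟨hAeq, ⟨hPm.qd, by rw [hPm.idx, hcardP], fun a ha ha1 v hv => hPm.eq_of_smul_eq ha ha1 hv,
    hsyl2, ?_, ?_⟩⟩
  · intro P' hP'
    rw [hcardP]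
    exact (index_inf hm h hn hPm (hsyP P').1 (by rw [(hsyP P).2, (hsyP P').2]; exact hP'.symm)).1
  · intro a ha ha1 v hv
    obtain ⟨P', hP'⟩ : ∃ P' : Sylow 2 L, P' ≠ P := by
      obtain ⟨Q, Q', hQ⟩ := h.two
      by_cases h1 : Q = P
      · exact ⟨Q', fun e => hQ (h1.trans e.symm)⟩
      · exact ⟨Q, h1⟩
    have hPP' : sy (P : Subgroup L) ≠ sy (P' : Subgroup L) := by
      rw [(hsyP P).2, (hsyP P').2]; exact hP'.symm
    rcases cover hm h hn hPm (hsyP P').1 hPP' v with h1 | ⟨b, hb, h1⟩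
    · exact h1 a ha
    · have hbP : b • P' ≠ P := by
        intro e
        apply hP'
        have h4 : b⁻¹ • P = P := Sylow.smul_eq_iff_mem_normalizer.2 (le_normalizer (inv_mem hb))
        rw [← h4, ← e, inv_smul_smul]
      have hRm := (hsyP (b • P')).1
      refine claim2 hm h hn hPm hRm (by rw [(hsyP P).2, (hsyP (b • P')).2]; exact hbP.symm) ha ha1 ?_
        (hv _ hbP)
      rw [coe_smul_sylow, Mem.mem_cv_map]
      exact h1

end Cfsg.Agent.H305.FF
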