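import Cfsg.Agent.H305.YJ1
import Cfsg.Agent.H305.YJ2
import Cfsg.Agent.H305.YJ3
import Cfsg.Agent.H959.T5.Tools

/-!
# Rows `J1`, `J2`, `J3` of S3854 (helper305)

`noTE_j1`, `noTE_j2`, `noTE_j3`; `noTE_of_chk` (the V4 trick by the order of `2` modulo `p`), `not_dvd_radIn_of_hom`.
-/

set_option autoImplicit false
set_option linter.style.haveILetI false
set_option linter.unusedSectionVars false
set_option linter.unusedVariables false

namespace Cfsg.Agent.H305.TEJ

open Subgroup Cfsg.Agent.H301.SY Cfsg.Agent.H459.Rad Cfsg.Agent.H305.YTools Cfsg.Agent.H959.T5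
open Cfsg.Agent.SignalizersComponents.ComponentExists

section Gen

variable {K : Type*} [Group K] [Finite K]

theorem noTE_of_mem_primeFactors {p n : ℕ} [hp : Fact p.Prime] (hK : Nat.card K = n)
    (h : p ∈ n.primeFactors → NoTE p K) : NoTE p K := by
  by_cases hd : p ∣ n
  · exact h (Nat.mem_primeFactors.2 ⟨hp.out, hd, by rw [← hK]; exact Nat.card_pos.ne'⟩)
  · intro x hx _ _
    apply hd
    rw [← hK, ← hx]
    exact orderOf_dvd_natCard x

/-- if `p` does not divide the orders of the centralizers of the involutions, then `2` does not divide the orders of the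
centralizers of the elements of order `p` -/
theorem not_two_dvd {p : ℕ} (hc : ∀ y : K, orderOf y = 2 → ¬ p ∣ Nat.card (centralizer ({y} : Set K))) {x : K}
    (hx : orderOf x = p) : ¬ 2 ∣ Nat.card (centralizer ({x} : Set K)) := by
  intro h2
  haveI := Fact.mk Nat.prime_two
  obtain ⟨y, hy⟩ := exists_prime_orderOf_dvd_card' (G := centralizer ({x} : Set K)) 2 h2
  have hy' : orderOf (y : K) = 2 := by rw [orderOf_coe]; exact hy
  have hyx : (y : K) * x = x * y := mem_centralizer_singleton_iff.mp y.2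
  apply hc y hy'
  have h5 : x ∈ centralizer ({(y : K)} : Set K) := mem_centralizer_singleton_iff.mpr hyx.symm
  have h6 : orderOf (⟨x, h5⟩ : centralizer ({(y : K)} : Set K)) = p := by rw [Subgroup.orderOf_mk]; exact hx
  rw [← h6]
  exact orderOf_dvd_natCard _

/-- the V4 trick by the order of `2` modulo `p` -/
theorem noTE_of_chk [IsSimpleGroup K] (hna : ¬ IsMulCommutative K) {p n : ℕ} [Fact p.Prime] (hK : Nat.card K = n)
    (h2n : n % 2 = 0) (hp : 2 < p) (h2 : ¬ n % (p * p) = 0)
    (hc : ∀ y : K, orderOf y = 2 → ¬ p ∣ Nat.card (centralizer ({y} : Set K)))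
    (h : ∀ i ∈ Finset.Icc 1 (Nat.log 2 n), n % 2 ^ i = 0 → 2 ^ i % p ≠ 1 % p) : NoTE p K := by
  have hcyc : ∀ P : Sylow p K, IsCyclic (P : Subgroup K) := cyclic_of_card (by
    rw [hK, pow_two]
    intro h1
    exact h2 (Nat.mod_eq_zero_of_dvd h1))
  have hn : n ≠ 0 := by rw [← hK]; exact Nat.card_pos.ne'
  refine NoTE.of_vfour hna (by rw [hK]; exact Nat.dvd_of_mod_eq_zero h2n) hp.ne' hcyc fun x hx _ => ?_
  rintro ⟨R, hR0, hR2, hxR⟩
  have h1 := centralises_of_card hx Nat.prime_two hp.ne (fun i hi hid => by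
    rw [hK] at hid
    exact h i (Finset.mem_Icc.2 ⟨hi, Nat.le_log_of_pow_le (by norm_num)
      (Nat.le_of_dvd (Nat.pos_of_ne_zero hn) hid)⟩) (Nat.mod_eq_zero_of_dvd hid)) hR2 hxR
  haveI : Fact (Nat.Prime 2) := ⟨Nat.prime_two⟩
  haveI hnt : Nontrivial R := (Subgroup.nontrivial_iff_ne_bot R).2 hR0
  obtain ⟨n, hn0, hn⟩ := (IsPGroup.nontrivial_iff_card hR2).1 hnt
  have hle : R ≤ centralizer ({x} : Set K) := by
    intro a ha
    rw [mem_centralizer_singleton_iff]
    exact (h1 a ha).symm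
  apply not_two_dvd hc hx
  refine dvd_trans ?_ (Subgroup.card_dvd_of_le hle)
  rw [hn]
  exact dvd_pow_self 2 hn0.ne'

/-- the radical of `M` has order prime to `p` if `M` maps onto a simple non-abelian group with kernel of order prime
to `p` -/
theorem not_dvd_radIn_of_hom {p : ℕ} {M : Subgroup K} {A : Type*} [Group A] [IsSimpleGroup A]
    (hna : ¬ IsMulCommutative A) (f : M →* A) (hf : Function.Surjective f) (hk : ¬ p ∣ Nat.card f.ker) :
    ¬ p ∣ Nat.card (radIn M) := by
  have h1 : ((solvableRadical M).map f).Normal := Subgroup.Normal.map (rad_normal M) f hf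
  have h2 : Group.IsSolvable ↥((solvableRadical M).map f) := isSolvable_map (rad_spec M).2.1 f
  have h3 : (solvableRadical M).map f = ⊥ := by
    rcases h1.eq_bot_or_eq_top with h | h
    · exact h
    · exfalso
      apply hna
      rw [h] at h2
      refine comm_of_solvable ?_
      exact Group.isSolvable_of_isSolvable_injective (f := (Subgroup.topEquiv (G := A)).symm.toMonoidHom)
        (MulEquiv.injective _)
  have h4 : solvableRadical M ≤ f.ker := by rwa [← Subgroup.map_eq_bot_iff]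
  unfold radIn
  rw [Subgroup.card_map_of_injective M.subtype_injective]
  exact fun h5 => hk (h5.trans (card_dvd_of_le h4))

end Gen

/-! ### `J1` -/

section JOne

open Cfsg.Agent.H305.YJ1

variable {G : Type*} [Group G]

/-- an `x`-invariant `t`-subgroup, `t ≠ 7` : trivial or a Sylow 2-subgroup -/
theorem inv_sub (d : D G) [Fact (Nat.Prime 7)] {x : G} (hx : orderOf x = 7) {t : ℕ} (ht : t.Prime)
    (ht7 : t ≠ 7) {R : Subgroup G} (hRt : IsPGroup t R) (hxR : ∀ a ∈ R, x * a * x⁻¹ ∈ R) (hR : R ≠ ⊥) :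
    t = 2 ∧ Nat.card R = 8 := by
  haveI := d.fin
  haveI := Fact.mk ht
  have hcard := d.card
  have hnc : ¬ ∀ a ∈ R, x * a = a * x := by
    intro h
    apply hR
    have h1 : R ≤ centralizer ({x} : Set G) := by
      intro a ha
      rw [mem_centralizer_iff]
      intro y hy
      rw [Set.mem_singleton_iff.1 hy, h a ha]
    have h2 := card_dvd_of_le h1
    rw [d.cent7 x hx] at h2
    obtain ⟨n, hn⟩ := hRt.exists_card_eq
    have h3 : n = 0 := by
      by_contra h4
      exact ht7 ((Nat.prime_dvd_prime_iff_eq ht Fact.out).1 (((dvd_pow_self t h4).trans (dvd_of_eq hn.symm)).trans h2))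
    rw [h3, pow_zero] at hn
    exact eq_bot_of_card_eq _ hn
  have ht2 : t = 2 := by
    by_contra ht2
    apply hnc
    refine centralises_of_card hx ht ht7 ?_ hRt hxR
    intro i hi h1 h2
    rw [hcard] at h1
    have h3 : t ∈ Nat.primeFactors 175560 :=
      Nat.mem_primeFactors.2 ⟨ht, (dvd_pow_self t hi.ne').trans h1, by norm_num⟩
    have h4 : Nat.primeFactors 175560 = {2, 3, 5, 7, 11, 19} := by decide +kernel
    rw [h4] at h3
    simp only [Finset.mem_insert, Finset.mem_singleton] at h3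
    have h5 : ∀ t ∈ ({3, 5, 11, 19} : Finset ℕ), ¬ t ^ 2 ∣ 175560 ∧ ¬ t ^ 1 ≡ 1 [MOD 7] := by decide +kernel
    have h6 : t ∈ ({3, 5, 11, 19} : Finset ℕ) := by
      simp only [Finset.mem_insert, Finset.mem_singleton]
      omega
    obtain ⟨h7, h8⟩ := h5 t h6
    have h9 : i = 1 := by
      by_contra h10
      exact h7 ((pow_dvd_pow t (by omega)).trans h1)
    subst h9
    exact h8 h2
  refine ⟨ht2, ?_⟩
  subst ht2
  obtain ⟨n, hn⟩ := hRt.exists_card_eq
  have h8 : Nat.card R ∣ 175560 := by rw [← hcard]; exact card_subgroup_dvd_card R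
  have hn3 : n ≤ 3 := by
    by_contra h5
    have h6 : (2 : ℕ) ^ 4 ∣ 175560 := (pow_dvd_pow 2 (by omega)).trans (hn ▸ h8)
    revert h6
    decide +kernel
  by_contra h9
  apply hnc
  have h10 : n ≤ 2 := by
    by_contra h11
    apply h9
    rw [hn, (by omega : n = 3)]
    rfl
  -- the fixed points have index 1
  have hxp : x ^ 7 = 1 := by rw [← hx]; exact pow_orderOf_eq_one x
  have hpR : ¬ 7 ∣ Nat.card R := by
    rw [hn]
    interval_cases n <;> decide
  have h1 := index_fixed hpR (cjA R x hxR) ⟨1, by rw [pow_one]; exact cjA_pow R x hxR hxp⟩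
  have h12 : (fixS (cjA R x hxR)).index ∣ 2 ^ n := by rw [← hn]; exact Subgroup.index_dvd_card _
  obtain ⟨i, hi, h13⟩ := (Nat.dvd_prime_pow Nat.prime_two).1 h12
  rw [h13] at h1
  have h14 : i = 0 := by
    have h15 : i ≤ 2 := by omega
    interval_cases i
    · rfl
    · revert h1; decide
    · revert h1; decide
  rw [h14, pow_zero, Subgroup.index_eq_one] at h13
  intro a ha
  have h3 : (⟨a, ha⟩ : R) ∈ fixS (cjA R x hxR) := by rw [h13]; exact mem_top _
  have h4 : x * a * x⁻¹ = a := by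
    have h5 := congrArg Subtype.val (mem_fixS.1 h3)
    rwa [cjA_coe] at h5
  calc x * a = (x * a * x⁻¹) * x := by group
    _ = a * x := by rw [h4]

/-- an involution `y` with `⟨x, y⟩` solvable normalises `⟨x⟩` or lies in an `x`-invariant Sylow 2-subgroup -/
theorem dich (d : D G) [Fact (Nat.Prime 7)] {x : G} (hx : orderOf x = 7) {y : G}
    (hy : orderOf y = 2) (hs : Group.IsSolvable ↥(Subgroup.closure ({x, y} : Set G))) :
    y ∈ normalizer ((zpowers x : Subgroup G) : Set G) ∨
      ∃ R : Subgroup G, Nat.card R = 8 ∧ (∀ a ∈ R, x * a * x⁻¹ ∈ R) ∧ y ∈ R := by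
  haveI := d.fin
  have hcyc : ∀ P : Sylow 7 G, IsCyclic (P : Subgroup G) := cyclic_of_card (not_sq d (by tauto))
  have hxp : x ^ 7 = 1 := by rw [← hx]; exact pow_orderOf_eq_one x
  have hxH : x ∈ Subgroup.closure ({x, y} : Set G) := Subgroup.subset_closure (by simp)
  have hyH : y ∈ Subgroup.closure ({x, y} : Set G) := Subgroup.subset_closure (by simp)
  obtain ⟨N, hNH, hNn, hpN, hk⟩ := cyc_core' hcyc hx hs hxH
  by_cases hN : N = ⊥
  · left
    obtain ⟨k, n, hn, h1⟩ := hk y hyH
    rw [hN, mem_bot] at hn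
    rw [hn, mul_one] at h1
    refine mem_norm ?_
    exact mem_normalizer_zpowers (h1 ▸ zpow_mem (mem_zpowers x) k)
  · right
    -- `N` is a 2-group
    have h2 : Nat.card N = 2 ^ (Nat.card N).factorization 2 := by
      refine Nat.eq_of_factorization_eq Nat.card_pos.ne' (by positivity) fun t => ?_
      rw [Nat.factorization_pow, Nat.prime_two.factorization]
      simp only [Finsupp.smul_apply, smul_eq_mul]
      by_cases ht : t.Prime
      swap
      · rw [Nat.factorization_eq_zero_of_not_prime _ ht, Finsupp.single_apply,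
          if_neg (by rintro rfl; exact ht Nat.prime_two), mul_zero]
      by_cases ht2 : t = 2
      · rw [ht2, Finsupp.single_eq_same, mul_one]
      rw [Finsupp.single_apply, if_neg (fun h => ht2 h.symm), mul_zero]
      by_cases ht7 : t = 7
      · rw [ht7]
        exact Nat.factorization_eq_zero_of_not_dvd hpN
      obtain ⟨S, hSN, hSt, hSc, hSx⟩ := exists_sylow_in hxp (hNn x hxH) hpN ht
      by_cases hS : S = ⊥
      · rw [hS, card_bot] at hSc
        by_contra h0
        exact absurd hSc (Nat.one_lt_pow h0 ht.one_lt).ne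
      · exact absurd (inv_sub d hx ht ht7 hSt hSx hS).1 ht2
    have hN2 : IsPGroup 2 N := IsPGroup.of_card h2
    obtain ⟨-, h8⟩ := inv_sub d hx Nat.prime_two (by norm_num) hN2 (hNn x hxH) hN
    refine ⟨N, h8, hNn x hxH, ?_⟩
    -- `N` is a Sylow 2-subgroup
    haveI := Fact.mk Nat.prime_two
    have hyN : ∀ a ∈ N, y * a * y⁻¹ ∈ N := hNn y hyH
    have h3 : IsPGroup 2 ↥(zpowers y ⊔ N) := by
      have h4 : IsPGroup 2 ↥(zpowers y) := IsPGroup.of_card (n := 1) (by rw [Nat.card_zpowers, hy, pow_one])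
      refine IsPGroup.to_sup_of_normal_right' h4 hN2 ?_
      rw [zpowers_le]
      exact mem_norm hyN
    obtain ⟨P, hP⟩ := h3.exists_le_sylow
    have h5 : N = (P : Subgroup G) := by
      apply eq_of_le_of_card_ge (le_sup_right.trans hP)
      rw [h8, d.syl2 P]
    rw [h5]
    exact hP (mem_sup_left (mem_zpowers y))

/-- no element of order 7 -/
theorem seven (d : D G) [Fact (Nat.Prime 7)] : NoTE 7 G := by
  haveI := d.fin
  haveI := Fact.mk Nat.prime_two
  classical
  intro x hx hR hY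
  have hcyc : ∀ P : Sylow 7 G, IsCyclic (P : Subgroup G) := cyclic_of_card (not_sq d (by tauto))
  obtain ⟨P⟩ := (inferInstance : Nonempty (Sylow 2 G))
  obtain ⟨g, hg⟩ := exists_conj_mem (p := 7) hcyc hx (d.norm2 P)
  -- the Sylow 2-subgroup which is normalised by `x`
  set T : Subgroup G := (P : Subgroup G).map (MulAut.conj g⁻¹).toMonoidHom with hT
  have hTc : Nat.card T = 8 := by
    rw [hT, Subgroup.card_map_of_injective (MulAut.conj g⁻¹).injective, d.syl2 P]
  have hxT : ∀ a ∈ T, x * a * x⁻¹ ∈ T := by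
    rintro _ ⟨a, ha, rfl⟩
    refine ⟨g * x * g⁻¹ * a * (g * x * g⁻¹)⁻¹, (mem_normalizer_iff.1 hg a).1 ha, ?_⟩
    change g⁻¹ * (g * x * g⁻¹ * a * (g * x * g⁻¹)⁻¹) * g⁻¹⁻¹ = x * (g⁻¹ * a * g⁻¹⁻¹) * x⁻¹
    group
  obtain ⟨y0, hy0⟩ := exists_prime_orderOf_dvd_card' (G := T) 2 (by rw [hTc]; norm_num)
  have hy0' : orderOf (y0 : G) = 2 := by rw [Subgroup.orderOf_coe, hy0]
  set N := normalizer ((zpowers x : Subgroup G) : Set G) with hN
  let Φ : N × T → G := fun a => (a.1 : G)⁻¹ * a.2 * a.1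
  have hsub : conjugatesOf (y0 : G) ⊆ (N : Set G) ∪ Set.range Φ := by
    intro y hy
    obtain ⟨g', hg'⟩ := isConj_iff.1 (show IsConj (y0 : G) y from hy)
    have h2 : orderOf y = 2 := by
      rw [← hg', ← hy0']
      exact orderOf_injective (MulAut.conj g').toMonoidHom (MulAut.conj g').injective _
    have h1 := hY y ⟨1, by rw [pow_one, ← h2, pow_orderOf_eq_one]⟩
    rcases dich d hx h2 h1 with h3 | ⟨R, hRc, hxR, hyR⟩
    · exact Or.inl h3
    · right
      obtain ⟨n, hn, h4⟩ := conj_inv d hx hTc hRc hxT hxR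
      exact ⟨(⟨n, hn⟩, ⟨_, h4 y hyR⟩), by change n⁻¹ * (n * y * n⁻¹) * n = y; group⟩
  have h1 := Set.ncard_le_ncard hsub (Set.toFinite _)
  have h2 := Set.ncard_union_le (N : Set G) (Set.range Φ)
  have h3 : Set.ncard (Set.range Φ) ≤ 42 * 8 := by
    have h4 := Nat.card_le_card_of_surjective (Set.rangeFactorization Φ) Set.rangeFactorization_surjective
    rw [Nat.card_prod, hTc, d.norm7 x hx, Nat.card_coe_set_eq] at h4
    exact h4
  have h4 : Set.ncard (N : Set G) = 42 := by
    rw [← Nat.card_coe_set_eq]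
    exact d.norm7 x hx
  have h5 := card_conj_mul (y0 : G)
  rw [d.cent2 _ hy0', d.card, Nat.card_coe_set_eq] at h5
  omega

open Cfsg.Agent.H305.SepJ1 in
/-- the radical of `2 × A₅` -/
theorem not_five_dvd {x : Cfsg.Spor.J1} [Finite Cfsg.Spor.J1] (hx : orderOf x = 2) :
    ¬ 5 ∣ Nat.card (radIn (centralizer ({x} : Set Cfsg.Spor.J1))) := by
  obtain ⟨e⟩ := local'.cent x hx
  haveI : IsSimpleGroup (alternatingGroup (Fin 5)) := alternatingGroup.isSimpleGroup (by simp)
  have hna : ¬ IsMulCommutative (alternatingGroup (Fin 5)) := by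
    intro h
    have h1 := h.is_comm.comm
    revert h1
    decide +kernel
  set f : centralizer ({x} : Set Cfsg.Spor.J1) →* alternatingGroup (Fin 5) :=
    (MonoidHom.snd (Multiplicative (ZMod 2)) (alternatingGroup (Fin 5))).comp e.toMonoidHom with hf
  have hs : Function.Surjective f := by
    intro a
    obtain ⟨y, hy⟩ := e.surjective (1, a)
    refine ⟨y, ?_⟩
    have : f y = (e y).2 := rfl
    rw [this, hy]
  refine not_dvd_radIn_of_hom hna f hs ?_
  have h1 := card_mul_index f.ker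
  rw [index_ker, MonoidHom.range_eq_top.2 hs, card_top, Nat.card_congr e.toEquiv, Nat.card_prod] at h1
  have h2 : Nat.card (alternatingGroup (Fin 5)) = 60 := by
    rw [nat_card_alternatingGroup, Nat.card_eq_fintype_card, Fintype.card_fin]; rfl
  have h3 : Nat.card (Multiplicative (ZMod 2)) = 2 := by
    rw [Nat.card_congr Multiplicative.toAdd, Nat.card_zmod]
  rw [h2, h3] at h1
  have h4 : Nat.card f.ker = 2 := by omega
  rw [h4]
  norm_num

open Cfsg.Agent.H305.SepJ1 in
theorem rowOne [Finite Cfsg.Spor.J1] [IsSimpleGroup Cfsg.Spor.J1] {p : ℕ} [hp : Fact p.Prime] (hp5 : 5 ≤ p) :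
    NoTE p Cfsg.Spor.J1 := by
  have hc : Nat.card Cfsg.Spor.J1 = 175560 := dat.card
  have hna : ¬ IsMulCommutative Cfsg.Spor.J1 := fun h => Cfsg.Agent.H305.SepJ1.na fun a b => h.is_comm.comm a b
  refine noTE_of_mem_primeFactors hc fun hpn => ?_
  have h3 : Nat.primeFactors 175560 = {2, 3, 5, 7, 11, 19} := by decide +kernel
  rw [h3] at hpn
  simp only [Finset.mem_insert, Finset.mem_singleton] at hpn
  have hcent : ∀ y : Cfsg.Spor.J1, orderOf y = 2 → Nat.card (centralizer ({y} : Set Cfsg.Spor.J1)) = 120 :=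
    dat.cent2
  rcases hpn with rfl | rfl | rfl | rfl | rfl | rfl
  · omega
  · omega
  · haveI := Fact.mk Nat.prime_two
    obtain ⟨t, ht⟩ := exists_prime_orderOf_dvd_card' (G := Cfsg.Spor.J1) 2 (by rw [hc]; norm_num)
    refine NoTE.of_lw (cyclic_of_card (by rw [hc]; decide +kernel)) ⟨centralizer ({t} : Set _), ?_, ?_, not_five_dvd ht⟩
    · intro h1
      have h2 := hcent t ht
      rw [h1, card_top, hc] at h2
      exact absurd h2 (by norm_num)
    · rw [hcent t ht]; norm_num
  · exact seven dat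
  · exact noTE_of_chk hna hc (by decide) (by norm_num) (by decide +kernel)
      (fun y hy => by rw [hcent y hy]; norm_num) (by decide +kernel)
  · exact noTE_of_chk hna hc (by decide) (by norm_num) (by decide +kernel)
      (fun y hy => by rw [hcent y hy]; norm_num) (by decide +kernel)

/-- **the row `J1`** -/
theorem noTE_j1 {K : Type*} [Group K] [Finite K] [IsSimpleGroup K] (h : Cfsg.Spor.IsoJ1 K) {p : ℕ} [Fact p.Prime]
    (hp : 5 ≤ p) (hb : Cfsg.Agent.H301.SY.Blk p K) (hO : Cfsg.Agent.H301.SY.ThO p K) :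
    Cfsg.Agent.H959.T5.NoTE p K := by
  obtain ⟨e⟩ := h
  haveI := Cfsg.Agent.H305.SepJ1.fin
  haveI := Cfsg.Agent.H305.SepJ1.simple
  exact NoTE.congr e (rowOne hp)

end JOne

/-! ### `J3` -/

/-- **the row `J3`** -/
theorem noTE_j3 {K : Type*} [Group K] [Finite K] [IsSimpleGroup K] (h : Cfsg.Spor.IsoJ3 K) {p : ℕ} [hpF : Fact p.Prime]
    (hp : 5 ≤ p) (hb : Cfsg.Agent.H301.SY.Blk p K) (hO : Cfsg.Agent.H301.SY.ThO p K) :
    Cfsg.Agent.H959.T5.NoTE p K := by
  obtain ⟨-, hc, hM⟩ := Cfsg.Agent.H898.J3Cent.base h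
  haveI := Fact.mk Nat.prime_two
  obtain ⟨t, ht⟩ := exists_prime_orderOf_dvd_card' (G := K) 2 (by rw [hc]; norm_num)
  obtain ⟨-, hC, Q, v, ρ, M⟩ := hM t ht
  have hna : ¬ IsMulCommutative K := YJ3.na ht (by rw [hC, hc]; norm_num)
  have h5 := YJ3.not_five_dvd_rad M hC
  have hcent : ∀ y : K, orderOf y = 2 → Nat.card (centralizer ({y} : Set K)) = 1920 := fun y hy => (hM y hy).2.1
  refine noTE_of_mem_primeFactors hc fun hpn => ?_
  have h3 : Nat.primeFactors 50232960 = {2, 3, 5, 17, 19} := by decide +kernel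
  rw [h3] at hpn
  simp only [Finset.mem_insert, Finset.mem_singleton] at hpn
  rcases hpn with rfl | rfl | rfl | rfl | rfl
  · omega
  · omega
  · refine NoTE.of_lw (cyclic_of_card (by rw [hc]; decide +kernel)) ⟨centralizer ({t} : Set K), ?_, ?_, h5⟩
    · intro h1
      rw [h1, card_top, hc] at hC
      exact absurd hC (by norm_num)
    · rw [hC]; norm_num
  · exact noTE_of_chk hna hc (by decide) (by norm_num) (by decide +kernel)
      (fun y hy => by rw [hcent y hy]; norm_num) (by decide +kernel)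
  · exact noTE_of_chk hna hc (by decide) (by norm_num) (by decide +kernel)
      (fun y hy => by rw [hcent y hy]; norm_num) (by decide +kernel)

/-! ### `J2` -/

open Cfsg.Agent.J3Type.OneClass Cfsg.Agent.J2Type.Model Cfsg.Agent.J2Type Cfsg.Agent.J2Type.Base
  Cfsg.Agent.H305.YJ2 in
/-- **the row `J2`** -/
theorem noTE_j2 {K : Type*} [Group K] [Finite K] [IsSimpleGroup K] (h : Cfsg.Spor.IsoJ2 K) {p : ℕ} [hpF : Fact p.Prime]
    (hp : 5 ≤ p) (hb : Cfsg.Agent.H301.SY.Blk p K) (hO : Cfsg.Agent.H301.SY.ThO p K) :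
    Cfsg.Agent.H959.T5.NoTE p K := by
  obtain ⟨t, u, Q, v, ρ, D⟩ := Cfsg.Agent.KFacts.J2.Facts.exists_dat_of h
  have F := D.F
  have M := D.M
  have hc : Nat.card K = 604800 := Order.card_of_fus F
  have hna : ¬ IsMulCommutative K := YJ3.na F.hz (by rw [F.cardC, hc]; norm_num)
  refine noTE_of_mem_primeFactors hc fun hpn => ?_
  have h3 : Nat.primeFactors 604800 = {2, 3, 5, 7} := by decide +kernel
  rw [h3] at hpn
  simp only [Finset.mem_insert, Finset.mem_singleton] at hpn
  rcases hpn with rfl | rfl | rfl | rfl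
  · omega
  · omega
  · refine NoTE.of_even (center_eq_bot hna) fun x hx => ?_
    obtain ⟨g, hg⟩ := five_comm F hx
    have key : ∀ v : K, v ≠ 1 → ¬ 5 ∣ Nat.card (radIn (centralizer ({v} : Set K))) →
        g * x * g⁻¹ * v = v * (g * x * g⁻¹) → ∃ u : K, u ≠ 1 ∧ u * x = x * u ∧
          ¬ 5 ∣ Nat.card (radIn (centralizer ({u} : Set K))) := by
      intro v hv hr hgv
      refine ⟨g⁻¹ * v * g⁻¹⁻¹, ?_, ?_, ?_⟩
      · intro h1
        apply hv
        have h2 : v = g * (g⁻¹ * v * g⁻¹⁻¹) * g⁻¹ := by group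
        rw [h2, h1]
        group
      · calc g⁻¹ * v * g⁻¹⁻¹ * x = g⁻¹ * (v * (g * x * g⁻¹)) * g := by group
          _ = g⁻¹ * (g * x * g⁻¹ * v) * g := by rw [hgv]
          _ = _ := by group
      · rwa [card_radIn_centralizer_conj]
    rcases hg with hg | hg
    · exact key t D.t_ne (YJ3.not_five_dvd_rad M F.cardC) hg
    · exact key u D.u_ne (not_five_dvd_rad_u F) hg
  · have hcyc : ∀ P : Sylow 7 K, IsCyclic (P : Subgroup K) := cyclic_of_card (by rw [hc]; decide +kernel)
    obtain ⟨T, hT, hW⟩ := exists_sylow_two M F.cardC (by rw [hc]; decide +kernel)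
    refine NoTE.of_num hna (by rw [hc]; norm_num) (by norm_num) hcyc hO
      (fun x hx => not_two_dvd (fun y hy => Cfsg.Agent.J2Type.ThreeF.not_seven_dvd_two F y hy) hx) (Or.inr ⟨T, ?_⟩)
    rintro a j n h1 h2 h3 h4 h5 h6 ⟨W, hWT, hWc, -, hWn⟩
    have h7 := hW W hWT hWc
    rw [hT] at h1
    have h8 : a + j = 7 := (Nat.pow_right_injective le_rfl h1).symm
    have h9 : j ≤ 1 := by
      by_contra h10
      have h11 : 2 ^ 2 ∣ 7 - 1 := (pow_dvd_pow 2 (by omega)).trans h3
      revert h11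
      decide
    have h12 : 2 ^ (2 ^ j) ≤ 2 ^ (2 ^ 1) := Nat.pow_le_pow_right (by norm_num) (Nat.pow_le_pow_right (by norm_num) h9)
    have h13 : Nat.card W ^ (2 ^ j) ≤ 2 ^ (2 ^ j) := Nat.pow_le_pow_left h7 _
    have h14 : 2 ^ n ≤ 2 ^ 2 := (hWn.trans h13).trans h12
    have h15 : n ≤ 2 := (Nat.pow_le_pow_iff_right (by norm_num)).1 h14
    interval_cases n <;> revert h5 <;> decide

end Cfsg.Agent.H305.TEJ
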