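import Cfsg.Agent.H165.Tri
import Cfsg.Agent.H759.NH.SuzTits
import Cfsg.Agent.H759.TwF.Main
import Cfsg.Agent.H153.ZerosSuz
import Cfsg.Agent.H408.SelfSuz

/-!
# Transitivity of `Cond` for `²F₄(q)`, `Suz` and the Tits group (helper305, input of S4335)
-/

set_option autoImplicit false
open Cfsg

namespace Cfsg.Agent.H305.TriSuz

open Cfsg.Agent.H630.NH Cfsg.Agent.H165.TriRow Cfsg.Agent.H241.NH

universe u v

/-- all odd primes except `a`, `b` are isolated -/
theorem tri_of_isolated {X : Type u} [Group X] {N : ℕ} (hN : Nat.card X = N) (I : List ℕ) (a b : ℕ)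
    (hL : ∀ p ∈ N.primeFactors, p = 2 ∨ p ∈ I ∨ p = a ∨ p = b) (hN0 : N ≠ 0)
    (hI : ∀ p ∈ I, ∀ q : ℕ, q.Prime → q ≠ 2 → q ≠ p → q ∣ N → NC p q X) : Tri X := by
  intro r q₁ q₂ hr h₁ h₂ hr2 h12 h22 hr1 hr2' h1ne hrd h1d h2d hc₁ hc₂
  exfalso
  rw [hN] at hrd h1d h2d
  have key : ∀ p : ℕ, p.Prime → p ≠ 2 → p ∣ N → p ∉ I → p = a ∨ p = b := by
    intro p hp hp2 hd hI'
    rcases hL p (Nat.mem_primeFactors.2 ⟨hp, hd, hN0⟩) with h | h | h
    · exact absurd h hp2
    · exact absurd h hI'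
    · exact h
  by_cases hrI : r ∈ I
  · exact hI r hrI q₁ h₁ h12 (Ne.symm hr1) h1d hc₁
  by_cases h1I : q₁ ∈ I
  · exact (hI q₁ h1I r hr hr2 hr1 hrd) (by rwa [pair_comm q₁ r])
  by_cases h2I : q₂ ∈ I
  · exact (hI q₂ h2I r hr hr2 hr2' hrd) (by rwa [pair_comm q₂ r])
  rcases key r hr hr2 hrd hrI with h3 | h3 <;> rcases key q₁ h₁ h12 h1d h1I with h4 | h4 <;>
    rcases key q₂ h₂ h22 h2d h2I with h5 | h5 <;>
    first
    | exact hr1 (h3.trans h4.symm)
    | exact hr2' (h3.trans h5.symm)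
    | exact h1ne (h4.trans h5.symm)

/-- an isolated prime from a self-centralizing element -/
theorem nc_of_self {X : Type u} [Group X] [Finite X] {p q N : ℕ} (hN : Nat.card X = N) (hp : p.Prime) (hq : q.Prime)
    (hqp : q ≠ p) (hd : q ∣ N) {x : X} (hx : orderOf x = p)
    (hc : Nat.card (Subgroup.centralizer ({x} : Set X)) = p) : NC p q X := by
  refine nc_of_dvd (a := 1) hq (Ne.symm hqp) hx (by rwa [pow_one, hN]) (dvd_of_eq hc) ?_
  rw [pow_one]
  intro h
  exact hqp ((Nat.prime_dvd_prime_iff_eq hq hp).1 h)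

/-- **`Suz`.** -/
theorem tri_suz {G : Type u} [Group G] (h : Spor.IsoSuz G) : Tri G := by
  have hN := NotCT.Orders.suz h
  have hf : Finite G := Nat.finite_of_card_ne_zero (by rw [hN]; norm_num)
  have hnc : ∀ {q : ℕ}, (q = 5 ∨ q = 7 ∨ q = 11 ∨ q = 13) → NC 3 q G := by
    intro q hq
    obtain ⟨e⟩ := h
    exact (H759.NH.nc_suz_model hq).congr e.symm
  have hpf : (448345497600 : ℕ).primeFactors = {2, 3, 5, 7, 11, 13} := by decide +kernel
  have hmem : ∀ q : ℕ, q.Prime → q ∣ 448345497600 → q = 2 ∨ q = 3 ∨ q = 5 ∨ q = 7 ∨ q = 11 ∨ q = 13 := by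
    intro q hq hd
    have h1 : q ∈ (448345497600 : ℕ).primeFactors := Nat.mem_primeFactors.2 ⟨hq, hd, by norm_num⟩
    rw [hpf] at h1
    simpa using h1
  refine tri_of_isolated hN [3, 11, 13] 5 7 ?_ (by norm_num) ?_
  · intro p hp
    rw [hpf] at hp
    simp only [Finset.mem_insert, Finset.mem_singleton] at hp
    simp only [List.mem_cons, List.not_mem_nil, or_false]
    tauto
  · intro p hp q hq hq2 hqp hd
    simp only [List.mem_cons, List.not_mem_nil, or_false] at hp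
    rcases hp with rfl | rfl | rfl
    · refine hnc ?_
      rcases hmem q hq hd with h1 | h1 | h1
      · exact absurd h1 hq2
      · exact absurd h1 hqp
      · exact h1
    · have hs : IsSimpleGroup G :=
        (MulEquiv.isSimpleGroup_congr h.some).2 Cfsg.Agent.SporadicRecognition.SuzOrder.simple
      obtain ⟨x, hx, hc⟩ := H408.SelfSuz.suz h
      exact nc_of_self hN (by norm_num) hq hqp hd hx hc
    · obtain ⟨e⟩ := h
      have hN' : Nat.card Spor.Suz = 448345497600 := by rw [← Nat.card_congr e.toEquiv, hN]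
      have hf' : Finite Spor.Suz := Nat.finite_of_card_ne_zero (by rw [hN']; norm_num)
      have hF : Fact (Nat.Prime 13) := ⟨by norm_num⟩
      obtain ⟨x, hx⟩ := exists_prime_orderOf_dvd_card' (G := Spor.Suz) 13 (by rw [hN']; norm_num)
      exact (nc_of_self hN' (by norm_num) hq hqp hd hx (H153.Zeros.card_cent_suz hx)).congr e.symm

theorem simple_of_nonempty {G : Type u} {M : Type v} [Group G] [Group M] (h0 : IsSimpleGroup M)
    (h : Nonempty (G ≃* M)) : IsSimpleGroup G := h.elim fun e => (MulEquiv.isSimpleGroup_congr e).2 h0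

/-- **The Tits group.** -/
theorem tri_tits {G : Type u} [Group G] (h : Lie.IsoTits G) : Tri G := by
  have hN := NotCT.Orders.tits h
  have hf : Finite G := Nat.finite_of_card_ne_zero (by rw [hN]; norm_num)
  have hs : IsSimpleGroup G := simple_of_nonempty Cfsg.Agent.S1074.result.2.1 h
  have hO := CpAutTits.Row.out h
  have h5 : NC 3 5 G := by
    have : Fact (Nat.Prime 5) := ⟨by norm_num⟩
    obtain ⟨y, hy⟩ := exists_prime_orderOf_dvd_card' (G := G) 5 (by rw [hN]; norm_num)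
    exact (nc_of_dvd (a := 1) (by norm_num) (by norm_num) hy (by rw [hN]; norm_num)
      (dvd_of_eq (hO.cent y hy)) (by norm_num)).symm
  have h13 : NC 3 13 G := by
    have : Fact (Nat.Prime 13) := ⟨by norm_num⟩
    obtain ⟨y, hy⟩ := exists_prime_orderOf_dvd_card' (G := G) 13 (by rw [hN]; norm_num)
    exact (nc_of_dvd (a := 1) (by norm_num) (by norm_num) hy (by rw [hN]; norm_num)
      (dvd_of_eq (H547.SelfCent.tits h inferInstance (H393.Iso.na_tits h) hy)) (by norm_num)).symm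
  have hpf : (17971200 : ℕ).primeFactors = {2, 3, 5, 13} := by decide +kernel
  refine tri_of_isolated hN [3] 5 13 ?_ (by norm_num) ?_
  · intro p hp
    rw [hpf] at hp
    simp only [Finset.mem_insert, Finset.mem_singleton] at hp
    simp only [List.mem_cons, List.not_mem_nil, or_false]
    tauto
  · intro p hp q hq hq2 hqp hd
    obtain rfl := List.mem_singleton.1 hp
    have h1 : q ∈ (17971200 : ℕ).primeFactors := Nat.mem_primeFactors.2 ⟨hq, hd, by norm_num⟩
    rw [hpf] at h1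
    simp only [Finset.mem_insert, Finset.mem_singleton] at h1
    rcases h1 with rfl | rfl | rfl | rfl
    · exact absurd rfl hq2
    · exact absurd rfl hqp
    · exact h5
    · exact h13

section Fin

open Cfsg.Lie Cfsg.Agent.H759.TwF Cfsg.Agent.H630.Exc

variable {K : Type u} [Field K] [Fintype K] {m : ℕ} (hK : Fintype.card K = 2 ^ (2 * m + 1))

include hK

theorem tri_twF4_model : Tri ↥(twistedF4 K (2 ^ m)) := by
  have : Finite ↥(twistedF4 K (2 ^ m)) := by
    have := Fintype.finite ‹Fintype K›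
    infer_instance
  refine Tri.of_torus ?_
  intro r q₁ q₂ hr h₁ h₂ hr2 h12 h22 hr1 hr2' h1ne hrd h1d h2d hc₁ hc₂
  have hπ : ∀ {a b : ℕ}, a.Prime → b.Prime → a ≠ 2 → b ≠ 2 → a ∣ Nat.card ↥(twistedF4 K (2 ^ m)) →
      b ∣ Nat.card ↥(twistedF4 K (2 ^ m)) → ∀ p ∈ ({a, b} : Set ℕ), p.Prime ∧ p ≠ 2 ∧
        p ∣ Nat.card ↥(twistedF4 K (2 ^ m)) := by
    rintro a b ha hb ha2 hb2 had hbd p (rfl | rfl)
    · exact ⟨ha, ha2, had⟩
    · exact ⟨hb, hb2, hbd⟩
  have key : ∀ q : ℕ, q.Prime → q ≠ 2 → r ≠ q → q ∣ Nat.card ↥(twistedF4 K (2 ^ m)) →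
      Cond {r, q} ↥(twistedF4 K (2 ^ m)) → r ≠ 3 ∧ q ≠ 3 := by
    intro q hq hq2 hrq hqd hc
    constructor
    · rintro rfl
      exact three_not hK (hπ hr hq hr2 hq2 hrd hqd) hc (s := q) (by simp) (Ne.symm hrq) (by simp)
    · rintro rfl
      exact three_not hK (hπ hr hq hr2 hq2 hrd hqd) hc (s := r) (by simp) hrq (by simp)
  obtain ⟨hr3, h13⟩ := key q₁ h₁ h12 hr1 h1d hc₁
  obtain ⟨-, h23⟩ := key q₂ h₂ h22 hr2' h2d hc₂
  obtain ⟨a, ha⟩ := exists_type hK hr hr2 hrd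
  obtain ⟨T, hT, hTc⟩ := factT hK (m := m) a
  have key2 : ∀ q : ℕ, q.Prime → q ≠ 2 → q ≠ 3 → r ≠ q → q ∣ Nat.card ↥(twistedF4 K (2 ^ m)) →
      Cond {r, q} ↥(twistedF4 K (2 ^ m)) → ¬ q ∣ T.index := by
    intro q hq hq2 hq3 hrq hqd hc
    have hqa : (q : ℤ) ∣ pe (2 ^ m) (NN a) := by
      by_contra hcon
      exact fact hK a hr hq (π := {r, q}) (by simp) (by simp) hrq hqd hr2 (Or.inr hr3) ha hcon hc
    exact not_dvd_index hK hq hq2 hq3 hqa T hTc
  exact ⟨T, hT, key2 q₁ h₁ h12 h13 hr1 h1d hc₁, key2 q₂ h₂ h22 h23 hr2' h2d hc₂⟩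

end Fin

/-- **The groups `²F₄(q)`.** -/
theorem tri_2F4 {G : Type v} [Group G] (h : Cfsg.Lie.Iso2F4 G) : Tri G := by
  obtain ⟨K, _, _, m, hm, hK, ⟨e⟩⟩ := h
  exact Tri.congr e.symm (tri_twF4_model hK)

end Cfsg.Agent.H305.TriSuz
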